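import Cfsg.Agent.H72.ClassSize
import Cfsg.Agent.H67.ConjCover

set_option autoImplicit false
set_option linter.unusedSectionVars false

/-! The prime graph on conjugacy class sizes: two vertices at distance at least three force
solvability (helper41). -/

namespace Cfsg.Agent.H41.ClassGraph

open Subgroup
open Cfsg.Agent.H72 (Cx mem_Cx Cl card_Cl mem_Cl_self conj_mem_Cl mem_Cl_conj Cx_index_eq_one_iff
  relIndex_eq_index_of_coprime inf_index_of_coprime exists_mul_of_coprime_index center_le_Cx)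

variable {G : Type*} [Group G]

/-- `x` centralizes a Sylow `p`-subgroup. -/
def InA (p : ℕ) (x : G) : Prop := ∃ P : Sylow p G, (P : Subgroup G) ≤ Cx x

/-- Sylow `p`-normalizers are the Sylow `p`-centralizers. -/
def DD (G : Type*) [Group G] (p : ℕ) : Prop :=
  ∀ P : Sylow p G, normalizer ((P : Subgroup G) : Set G) ≤ centralizer ((P : Subgroup G) : Set G)

theorem exists_sylow_le [Finite G] {p : ℕ} [Fact p.Prime] (H : Subgroup G) (h : ¬ p ∣ H.index) :
    ∃ P : Sylow p G, (P : Subgroup G) ≤ H := by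
  obtain ⟨Q⟩ : Nonempty (Sylow p H) := inferInstance
  have hp : IsPGroup p ((Q : Subgroup H).map H.subtype) := Q.isPGroup'.map _
  have hi : ¬ p ∣ ((Q : Subgroup H).map H.subtype).index := by
    rw [index_map_subtype, (Fact.out : p.Prime).dvd_mul]
    rintro (h1 | h1)
    · exact Q.not_dvd_index h1
    · exact h h1
  exact ⟨hp.toSylow hi, map_subtype_le _⟩

theorem inA_iff [Finite G] {p : ℕ} [Fact p.Prime] {x : G} : InA p x ↔ ¬ p ∣ (Cx x).index := by
  constructor
  · rintro ⟨P, hP⟩ h
    exact P.not_dvd_index (h.trans (index_dvd_of_le hP))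
  · intro h
    exact exists_sylow_le _ h

theorem mem_centralizer_of_le_Cx {p : ℕ} {x : G} {P : Sylow p G} (h : (P : Subgroup G) ≤ Cx x) :
    x ∈ centralizer ((P : Subgroup G) : Set G) := by
  rw [mem_centralizer_iff]
  intro u hu
  exact mem_Cx.1 (h hu)

theorem le_Cx_of_mem_centralizer {p : ℕ} {x : G} {P : Sylow p G}
    (h : x ∈ centralizer ((P : Subgroup G) : Set G)) : (P : Subgroup G) ≤ Cx x := by
  intro u hu
  rw [mem_Cx]
  exact mem_centralizer_iff.1 h u hu

/-- If all elements centralize a Sylow `p`-subgroup then Sylow `p`-subgroups are central. -/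
theorem central_of_forall_inA [Finite G] {p : ℕ} [Fact p.Prime] (h : ∀ x : G, InA p x)
    (P : Sylow p G) : (P : Subgroup G) ≤ center G := by
  have h1 : centralizer ((P : Subgroup G) : Set G) = ⊤ := by
    apply H67.eq_top_of_conj_cover
    intro g
    obtain ⟨Q, hQ⟩ := h g
    obtain ⟨c, hc⟩ := MulAction.exists_smul_eq G Q P
    refine ⟨c, ?_⟩
    rw [mem_centralizer_iff]
    intro u hu
    have hu' : u ∈ ((c • Q : Sylow p G) : Subgroup G) := by rw [hc]; exact hu
    rw [Sylow.coe_subgroup_smul] at hu'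
    rw [Subgroup.mem_pointwise_smul_iff_inv_smul_mem] at hu'
    have h2 := mem_Cx.1 (hQ hu')
    have h3 : (MulAut.conj c)⁻¹ • u = c⁻¹ * u * c := by
      rw [← map_inv]
      show c⁻¹ * u * c⁻¹⁻¹ = _
      rw [inv_inv]
    rw [h3] at h2
    calc u * (c * g * c⁻¹) = c * ((c⁻¹ * u * c) * g) * c⁻¹ := by group
      _ = c * (g * (c⁻¹ * u * c)) * c⁻¹ := by rw [h2]
      _ = c * g * c⁻¹ * u := by group
  intro u hu
  rw [mem_center_iff]
  intro g
  have hg : g ∈ centralizer ((P : Subgroup G) : Set G) := by rw [h1]; trivial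
  exact (mem_centralizer_iff.1 hg u hu).symm

theorem smul_eq_iff_conj {p : ℕ} {P Q : Sylow p G} {g : G} (h : g • P = Q) {u : G}
    (hu : u ∈ (Q : Subgroup G)) : g⁻¹ * u * g ∈ (P : Subgroup G) := by
  rw [← h, Sylow.coe_subgroup_smul, Subgroup.mem_pointwise_smul_iff_inv_smul_mem] at hu
  have h3 : (MulAut.conj g)⁻¹ • u = g⁻¹ * u * g := by
    rw [← map_inv]
    show g⁻¹ * u * g⁻¹⁻¹ = _
    rw [inv_inv]
  rwa [h3] at hu

theorem card_centralizer_eq [Finite G] {p : ℕ} [Fact p.Prime] (P Q : Sylow p G) :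
    Nat.card (centralizer ((P : Subgroup G) : Set G)) =
      Nat.card (centralizer ((Q : Subgroup G) : Set G)) := by
  suffices H : ∀ P Q : Sylow p G, Nat.card (centralizer ((P : Subgroup G) : Set G)) ≤
      Nat.card (centralizer ((Q : Subgroup G) : Set G)) from le_antisymm (H P Q) (H Q P)
  intro P Q
  obtain ⟨c, hc⟩ := MulAction.exists_smul_eq G P Q
  have key : ∀ x : centralizer ((P : Subgroup G) : Set G),
      c * x * c⁻¹ ∈ centralizer ((Q : Subgroup G) : Set G) := by
    intro x
    rw [mem_centralizer_iff]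
    intro u hu
    have h1 := smul_eq_iff_conj hc hu
    have h2 := mem_centralizer_iff.1 x.2 _ h1
    calc u * (c * x * c⁻¹) = c * ((c⁻¹ * u * c) * x) * c⁻¹ := by group
      _ = c * (x * (c⁻¹ * u * c)) * c⁻¹ := by rw [h2]
      _ = c * x * c⁻¹ * u := by group
  apply Nat.card_le_card_of_injective (fun x : centralizer ((P : Subgroup G) : Set G) =>
    (⟨c * x * c⁻¹, key x⟩ : centralizer ((Q : Subgroup G) : Set G)))
  intro x y hxy
  have := congrArg Subtype.val hxy
  apply Subtype.ext
  simpa using this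

theorem card_ne_one (H : Type*) [Group H] [Finite H] :
    Nat.card {x : H // x ≠ 1} = Nat.card H - 1 := by
  classical
  have := Fintype.ofFinite H
  rw [Nat.card_eq_fintype_card, Nat.card_eq_fintype_card, Fintype.card_subtype_compl,
    Fintype.card_subtype_eq]

/-- Counting the non-identity elements centralizing a Sylow subgroup. -/
theorem card_inA_le [Finite G] {p : ℕ} [Fact p.Prime] (P : Sylow p G) :
    Nat.card {x : G // x ≠ 1 ∧ InA p x} ≤
      Nat.card (Sylow p G) * (Nat.card (centralizer ((P : Subgroup G) : Set G)) - 1) := by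
  classical
  have := Fintype.ofFinite (Sylow p G)
  have h1 : Nat.card {x : G // x ≠ 1 ∧ InA p x} ≤
      Nat.card (Σ Q : Sylow p G, {x : centralizer ((Q : Subgroup G) : Set G) // x ≠ 1}) := by
    apply Nat.card_le_card_of_injective (fun x => (⟨x.2.2.choose,
      ⟨⟨x.1, mem_centralizer_of_le_Cx x.2.2.choose_spec⟩, fun h =>
        x.2.1 (congrArg Subtype.val h)⟩⟩ :
        Σ Q : Sylow p G, {x : centralizer ((Q : Subgroup G) : Set G) // x ≠ 1}))
    intro x y hxy
    simp only [Sigma.mk.injEq] at hxy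
    obtain ⟨ha, hb⟩ := hxy
    apply Subtype.ext
    have : ∀ (Q Q' : Sylow p G) (e : Q = Q')
        (a : {x : centralizer ((Q : Subgroup G) : Set G) // x ≠ 1})
        (b : {x : centralizer ((Q' : Subgroup G) : Set G) // x ≠ 1}), HEq a b →
        ((a : centralizer ((Q : Subgroup G) : Set G)) : G) = ((b : centralizer ((Q' : Subgroup G) : Set G)) : G) := by
      rintro Q _ rfl a b hab
      rw [eq_of_heq hab]
    exact this _ _ ha _ _ hb
  refine h1.trans (le_of_eq ?_)
  rw [Nat.card_sigma]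
  have h2 : ∀ Q : Sylow p G, Nat.card {x : centralizer ((Q : Subgroup G) : Set G) // x ≠ 1} =
      Nat.card (centralizer ((P : Subgroup G) : Set G)) - 1 := by
    intro Q
    rw [← card_centralizer_eq Q P]
    exact card_ne_one _
  rw [Finset.sum_congr rfl (fun Q _ => h2 Q), Finset.sum_const, smul_eq_mul, Finset.card_univ,
    ← Nat.card_eq_fintype_card]

theorem card_sylow_mul [Finite G] {p : ℕ} [Fact p.Prime] (P : Sylow p G) :
    Nat.card (Sylow p G) * Nat.card (normalizer ((P : Subgroup G) : Set G)) = Nat.card G := by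
  have h : Nat.card (Sylow p G) = (normalizer ((P : Subgroup G) : Set G)).index :=
    Sylow.card_eq_index_normalizer P
  rw [h, index_mul_card]

theorem centralizer_le_norm {p : ℕ} (P : Sylow p G) :
    centralizer ((P : Subgroup G) : Set G) ≤ normalizer ((P : Subgroup G) : Set G) :=
  centralizer_le_normalizer _

theorem two_mul_le [Finite G] {p : ℕ} [Fact p.Prime] (h : ¬ DD G p) :
    ∃ P : Sylow p G, 2 * (Nat.card (Sylow p G) *
      Nat.card (centralizer ((P : Subgroup G) : Set G))) ≤ Nat.card G := by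
  unfold DD at h
  push Not at h
  obtain ⟨P, hP⟩ := h
  refine ⟨P, ?_⟩
  rw [← card_sylow_mul P]
  have h1 : 2 * Nat.card (centralizer ((P : Subgroup G) : Set G)) ≤
      Nat.card (normalizer ((P : Subgroup G) : Set G)) := by
    obtain ⟨k, hk⟩ := Subgroup.card_dvd_of_le (centralizer_le_norm P)
    have hpos : 0 < Nat.card (normalizer ((P : Subgroup G) : Set G)) := Nat.card_pos
    rcases Nat.lt_or_ge k 2 with hk2 | hk2
    · exfalso
      interval_cases k
      · omega
      · apply hP
        have := Subgroup.eq_of_le_of_card_ge (centralizer_le_norm P) (by rw [hk]; omega)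
        exact this.ge
    · rw [hk, mul_comm]
      exact Nat.mul_le_mul_left _ hk2
  calc 2 * (Nat.card (Sylow p G) * Nat.card (centralizer ((P : Subgroup G) : Set G)))
      = Nat.card (Sylow p G) * (2 * Nat.card (centralizer ((P : Subgroup G) : Set G))) := by ring
    _ ≤ _ := Nat.mul_le_mul_left _ h1

/-- Itô: for non-adjacent primes one of the Sylow normalizers is the Sylow centralizer. -/
theorem dd_or_dd [Finite G] {p r : ℕ} [Fact p.Prime] [Fact r.Prime]
    (h : ∀ x : G, InA p x ∨ InA r x) : DD G p ∨ DD G r := by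
  classical
  by_contra hcon
  push Not at hcon
  obtain ⟨P, hP⟩ := two_mul_le hcon.1
  obtain ⟨R, hR⟩ := two_mul_le hcon.2
  have h1 : Nat.card {x : G // x ≠ 1} ≤
      Nat.card {x : G // x ≠ 1 ∧ InA p x} + Nat.card {x : G // x ≠ 1 ∧ InA r x} := by
    have : Nat.card ({x : G // x ≠ 1 ∧ InA p x} ⊕ {x : G // x ≠ 1 ∧ InA r x}) =
        Nat.card {x : G // x ≠ 1 ∧ InA p x} + Nat.card {x : G // x ≠ 1 ∧ InA r x} := Nat.card_sum
    rw [← this]
    apply Nat.card_le_card_of_injective (fun x => if hx : InA p x.1 then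
      (Sum.inl ⟨x.1, x.2, hx⟩ : {x : G // x ≠ 1 ∧ InA p x} ⊕ {x : G // x ≠ 1 ∧ InA r x})
      else Sum.inr ⟨x.1, x.2, (h x.1).resolve_left hx⟩)
    intro x y hxy
    simp only at hxy
    apply Subtype.ext
    by_cases hx : InA p x.1 <;> by_cases hy : InA p y.1 <;> simp [hx, hy] at hxy <;> exact hxy
  have h2 : Nat.card {x : G // x ≠ 1} = Nat.card G - 1 := card_ne_one G
  have h3 := card_inA_le P
  have h4 := card_inA_le R
  rw [Nat.mul_sub, mul_one] at h3 h4
  have hp1 : 0 < Nat.card (Sylow p G) := Nat.card_pos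
  have hr1 : 0 < Nat.card (Sylow r G) := Nat.card_pos
  have hc1 : 0 < Nat.card (centralizer ((P : Subgroup G) : Set G)) := Nat.card_pos
  have hc2 : 0 < Nat.card (centralizer ((R : Subgroup G) : Set G)) := Nat.card_pos
  have hc1' : Nat.card (Sylow p G) ≤ Nat.card (Sylow p G) *
    Nat.card (centralizer ((P : Subgroup G) : Set G)) := Nat.le_mul_of_pos_right _ hc1
  have hc2' : Nat.card (Sylow r G) ≤ Nat.card (Sylow r G) *
    Nat.card (centralizer ((R : Subgroup G) : Set G)) := Nat.le_mul_of_pos_right _ hc2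
  omega

/-- Frattini for a normal subgroup `N` such that `N P` is normal. -/
theorem sup_normalizer_eq_top [Finite G] {p : ℕ} [Fact p.Prime] (N : Subgroup G) (P : Sylow p G)
    (hn : (N ⊔ (P : Subgroup G)).Normal) :
    N ⊔ normalizer ((P : Subgroup G) : Set G) = ⊤ := by
  have h1 := Sylow.normalizer_sup_eq_top (N := N ⊔ (P : Subgroup G))
    (P.subtype (N := N ⊔ (P : Subgroup G)) le_sup_right)
  have h2 : map (N ⊔ (P : Subgroup G)).subtype
      ((P.subtype (N := N ⊔ (P : Subgroup G)) le_sup_right : Sylow p _) :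
        Subgroup (N ⊔ (P : Subgroup G) : Subgroup G)) = P := by
    rw [Sylow.coe_subtype, subgroupOf_map_subtype]
    exact inf_eq_left.2 le_sup_right
  rw [h2] at h1
  rw [eq_top_iff, ← h1]
  refine sup_le le_sup_right (sup_le le_sup_left (le_trans le_normalizer le_sup_right))

theorem commutator_sup_normalizer [Finite G] {p : ℕ} [Fact p.Prime] (P : Sylow p G) :
    commutator G ⊔ normalizer ((P : Subgroup G) : Set G) = ⊤ := by
  apply sup_normalizer_eq_top
  exact Subgroup.Normal.of_commutator_le G le_sup_left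

theorem DD.not_dvd [Finite G] {p : ℕ} [Fact p.Prime] (h : DD G p) :
    ¬ p ∣ Nat.card (commutator G) := by
  obtain ⟨P⟩ : Nonempty (Sylow p G) := inferInstance
  have hP := h P
  intro hd
  apply MonoidHom.not_dvd_card_ker_transferSylow P hP
  apply hd.trans
  apply Subgroup.card_dvd_of_le
  rw [_root_.commutator_def, commutator_le]
  intro a _ b _
  rw [MonoidHom.mem_ker, map_commutatorElement, commutatorElement_eq_one_iff_mul_comm]
  apply Subtype.ext
  have h1 := h P (le_normalizer (MonoidHom.transferSylow P hP a).2)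
  have h2 := mem_centralizer_iff.1 h1 _ (MonoidHom.transferSylow P hP b).2
  exact h2.symm

/-- If everything outside the normal subgroup `N` centralizes a Sylow `p`-subgroup, `N` is
transitive on Sylow `p`-subgroups. -/
theorem exists_mem_smul_eq [Finite G] {p : ℕ} [Fact p.Prime] (N : Subgroup G) [N.Normal]
    (h : ∀ x : G, x ∉ N → InA p x) (P Q : Sylow p G) : ∃ n ∈ N, n • P = Q := by
  have h1 : ∀ y : G ⧸ N, InA p y := by
    intro y
    obtain ⟨x, rfl⟩ := QuotientGroup.mk_surjective y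
    by_cases hx : x ∈ N
    · have e : ((x : G) : G ⧸ N) = 1 := (QuotientGroup.eq_one_iff x).2 hx
      obtain ⟨P'⟩ : Nonempty (Sylow p (G ⧸ N)) := inferInstance
      refine ⟨P', fun u _ => ?_⟩
      rw [mem_Cx, e, mul_one, one_mul]
    · obtain ⟨P', hP'⟩ := h x hx
      refine ⟨Sylow.mapSurjective (QuotientGroup.mk'_surjective N) P', ?_⟩
      rw [Sylow.coe_mapSurjective]
      rintro _ ⟨u, hu, rfl⟩
      rw [mem_Cx]
      show ((u : G) : G ⧸ N) * (x : G ⧸ N) = (x : G ⧸ N) * (u : G ⧸ N)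
      rw [← QuotientGroup.mk_mul, ← QuotientGroup.mk_mul, mem_Cx.1 (hP' hu)]
  have h2 := central_of_forall_inA h1 (Sylow.mapSurjective (QuotientGroup.mk'_surjective N) P)
  rw [Sylow.coe_mapSurjective] at h2
  have h3 : (N ⊔ (P : Subgroup G)).Normal := by
    refine ⟨fun x hx g => ?_⟩
    rw [Subgroup.mem_sup_of_normal_left] at hx ⊢
    obtain ⟨n, hn, u, hu, rfl⟩ := hx
    have h4 : ((u : G) : G ⧸ N) ∈ center (G ⧸ N) := h2 ⟨u, hu, rfl⟩
    have h5 := mem_center_iff.1 h4 ((g : G) : G ⧸ N)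
    rw [← QuotientGroup.mk_mul, ← QuotientGroup.mk_mul, QuotientGroup.eq] at h5
    refine ⟨g * n * u * g⁻¹ * u⁻¹, ?_, u, hu, by group⟩
    have h6 : g * n * u * g⁻¹ * u⁻¹ = (g * n * g⁻¹) * (g * u * g⁻¹ * u⁻¹) := by group
    rw [h6]
    apply N.mul_mem (‹N.Normal›.conj_mem n hn g)
    have h7 : g * u * g⁻¹ * u⁻¹ = (g * u) * ((g * u)⁻¹ * (u * g))⁻¹ * (g * u)⁻¹ := by group
    rw [h7]
    exact ‹N.Normal›.conj_mem _ (N.inv_mem h5) _
  have h4 := sup_normalizer_eq_top N P h3
  obtain ⟨g, hg⟩ := MulAction.exists_smul_eq G P Q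
  have h5 : g ∈ N ⊔ normalizer ((P : Subgroup G) : Set G) := by rw [h4]; trivial
  rw [Subgroup.mem_sup_of_normal_left] at h5
  obtain ⟨n, hn, m, hm, rfl⟩ := h5
  refine ⟨n, hn, ?_⟩
  rw [← hg, mul_smul]
  congr 1
  exact (Sylow.smul_eq_iff_mem_normalizer.2 hm).symm

theorem le_Cx_of_smul {p : ℕ} {P Q : Sylow p G} {n x : G} (h : n • P = Q) (hn : n * x = x * n)
    (hP : (P : Subgroup G) ≤ Cx x) : (Q : Subgroup G) ≤ Cx x := by
  intro u hu
  have h1 := mem_Cx.1 (hP (smul_eq_iff_conj h hu))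
  rw [mem_Cx]
  calc u * x = n * ((n⁻¹ * u * n) * (n⁻¹ * x * n)) * n⁻¹ := by group
    _ = n * ((n⁻¹ * u * n) * x) * n⁻¹ := by rw [mul_assoc n⁻¹ x n, ← hn, inv_mul_cancel_left]
    _ = n * (x * (n⁻¹ * u * n)) * n⁻¹ := by rw [h1]
    _ = n * x * n⁻¹ * u := by group
    _ = x * u := by rw [hn, mul_inv_cancel_right]

theorem relIndex_dvd_of_normal [Finite G] (H N : Subgroup G) [N.Normal] :
    H.relIndex N ∣ H.index := by
  have h1 : N.relIndex (H ⊔ N) = N.relIndex H := relIndex_sup_right H N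
  have h2 : (H ⊓ N).relIndex H * H.relIndex (H ⊔ N) = (H ⊓ N).relIndex (H ⊔ N) :=
    relIndex_mul_relIndex _ _ _ inf_le_left le_sup_left
  have h3 : (H ⊓ N).relIndex N * N.relIndex (H ⊔ N) = (H ⊓ N).relIndex (H ⊔ N) :=
    relIndex_mul_relIndex _ _ _ inf_le_right le_sup_right
  rw [inf_relIndex_left] at h2
  rw [inf_relIndex_right, h1] at h3
  have h4 : N.relIndex H ≠ 0 := index_ne_zero_of_finite (H := N.subgroupOf H)
  have h5 : H.relIndex N = H.relIndex (H ⊔ N) := by
    have := h3.trans h2.symm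
    rw [mul_comm (H.relIndex N)] at this
    exact Nat.eq_of_mul_eq_mul_left (Nat.pos_of_ne_zero h4) this
  rw [h5]
  exact relIndex_dvd_index_of_le le_sup_left

theorem relIndex_eq_of_sup_eq_top [Finite G] (H N : Subgroup G) [N.Normal] (h : N ⊔ H = ⊤) :
    H.relIndex N = H.index := by
  have h1 : N.relIndex (H ⊔ N) = N.relIndex H := relIndex_sup_right H N
  have h2 : (H ⊓ N).relIndex H * H.relIndex (H ⊔ N) = (H ⊓ N).relIndex (H ⊔ N) :=
    relIndex_mul_relIndex _ _ _ inf_le_left le_sup_left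
  have h3 : (H ⊓ N).relIndex N * N.relIndex (H ⊔ N) = (H ⊓ N).relIndex (H ⊔ N) :=
    relIndex_mul_relIndex _ _ _ inf_le_right le_sup_right
  rw [inf_relIndex_left] at h2
  rw [inf_relIndex_right, h1] at h3
  have h4 : N.relIndex H ≠ 0 := index_ne_zero_of_finite (H := N.subgroupOf H)
  have h5 : H.relIndex N = H.relIndex (H ⊔ N) := by
    have := h3.trans h2.symm
    rw [mul_comm (H.relIndex N)] at this
    exact Nat.eq_of_mul_eq_mul_left (Nat.pos_of_ne_zero h4) this
  rw [h5, sup_comm, h, relIndex_top_right]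

theorem eq_one_of_pow {x : G} {m n : ℕ} (h1 : x ^ m = 1) (h2 : x ^ n = 1) (h : m.Coprime n) :
    x = 1 := by
  rw [← orderOf_eq_one_iff]
  exact Nat.eq_one_of_dvd_coprimes h (orderOf_dvd_of_pow_eq_one h1) (orderOf_dvd_of_pow_eq_one h2)

theorem pow_card_mem [Finite G] {N : Subgroup G} {x : G} (hx : x ∈ N) : x ^ Nat.card N = 1 := by
  have : (⟨x, hx⟩ : N) ^ Nat.card N = 1 := pow_card_eq_one'
  exact congrArg Subtype.val this

/-- The case of exactly one good prime. -/
theorem case_one [Finite G] {p : ℕ} [hp : Fact p.Prime] (hD : DD G p)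
    (hv : ∃ x : G, p ∣ (Cx x).index)
    (hK : ∀ x : G, ¬ InA p x → (commutator G) ≤ Cx x) :
    Group.IsSolvable G := by
  have hpK := hD.not_dvd
  have hout : ∀ x : G, x ∉ centralizer ((commutator G : Subgroup G) : Set G) → InA p x := by
    intro x hx
    by_contra hcon
    apply hx
    rw [mem_centralizer_iff]
    intro k hk
    exact mem_Cx.1 (hK x hcon hk)
  have htr := exists_mem_smul_eq (centralizer ((commutator G : Subgroup G) : Set G)) hout
  by_cases hab : commutator G ≤ centralizer ((commutator G : Subgroup G) : Set G)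
  · refine ⟨2, ?_⟩
    rw [derivedSeries_succ, derivedSeries_one, commutator_eq_bot_iff_le_centralizer]
    exact hab
  · exfalso
    obtain ⟨k0, hk0, hk0'⟩ := Set.not_subset.1 hab
    obtain ⟨P⟩ : Nonempty (Sylow p G) := inferInstance
    have hA : ∀ k ∈ commutator G, k ∉ centralizer ((commutator G : Subgroup G) : Set G) →
        (P : Subgroup G) ≤ Cx k := by
      intro k hk hk'
      obtain ⟨Q, hQ⟩ := hout k hk'
      obtain ⟨n, hn, hnQ⟩ := htr Q P
      refine le_Cx_of_smul hnQ ?_ hQ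
      exact (mem_centralizer_iff.1 hn k hk).symm
    have hB : ∀ k ∈ commutator G, (P : Subgroup G) ≤ Cx k := by
      intro k hk
      by_cases hk' : k ∈ centralizer ((commutator G : Subgroup G) : Set G)
      · have h1 : k * k0 ∉ centralizer ((commutator G : Subgroup G) : Set G) := by
          intro hcon
          apply hk0'
          have := mul_mem (inv_mem hk') hcon
          rwa [inv_mul_cancel_left] at this
        have h2 := hA _ (mul_mem hk hk0) h1
        have h3 := hA _ hk0 hk0'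
        intro u hu
        have h4 := mem_Cx.1 (h2 hu)
        have h5 := mem_Cx.1 (h3 hu)
        rw [mem_Cx]
        have h6 : u * k * k0 = k * u * k0 := by
          rw [mul_assoc u, h4, mul_assoc, mul_assoc, h5]
        exact mul_right_cancel h6
      · exact hA k hk hk'
    obtain ⟨x, hx⟩ := hv
    apply (inA_iff.1 (⟨P, ?_⟩ : InA p x)) hx
    intro u hu
    obtain ⟨j, hj⟩ : ∃ j, u ^ p ^ j = 1 := by
      obtain ⟨j, hj⟩ := P.isPGroup' ⟨u, hu⟩
      exact ⟨j, congrArg Subtype.val hj⟩
    -- the commutator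
    have hk : x * u * x⁻¹ * u⁻¹ ∈ commutator G := by
      rw [_root_.commutator_def]
      exact commutator_mem_commutator (mem_top x) (mem_top u)
    have hc : u * (x * u * x⁻¹ * u⁻¹) = (x * u * x⁻¹ * u⁻¹) * u := mem_Cx.1 (hB _ hk hu)
    have h1 : (x * u * x⁻¹ * u⁻¹) ^ p ^ j = 1 := by
      have hcm : Commute (x * u * x⁻¹ * u⁻¹) u := hc.symm
      have h2 := hcm.mul_pow (p ^ j)
      rw [hj, mul_one, inv_mul_cancel_right, conj_pow, hj] at h2
      rw [← h2]; group
    have h2 := eq_one_of_pow h1 (pow_card_mem hk)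
      (Nat.Coprime.pow_left j ((Nat.Prime.coprime_iff_not_dvd hp.out).2 hpK))
    rw [mem_Cx]
    calc u * x = (x * u * x⁻¹ * u⁻¹)⁻¹ * (x * u) := by group
      _ = x * u := by rw [h2, inv_one, one_mul]

end Cfsg.Agent.H41.ClassGraph
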