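import Cfsg.Agent.H41.ClassGraph

set_option autoImplicit false
set_option linter.unusedSectionVars false

namespace Cfsg.Agent.H41.ClassGraph

open Subgroup
open Cfsg.Agent.H72 (Cx mem_Cx Cl card_Cl mem_Cl_self conj_mem_Cl mem_Cl_conj Cx_index_eq_one_iff
  relIndex_eq_index_of_coprime inf_index_of_coprime exists_mul_of_coprime_index center_le_Cx)

variable {G : Type*} [Group G]

theorem Cx_le_of_mem_zpowers {x a : G} (h : a ∈ zpowers x) : Cx x ≤ Cx a := by
  intro g hg
  obtain ⟨n, rfl⟩ := h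
  rw [mem_Cx] at hg ⊢
  have : Commute g x := hg
  exact (this.zpow_right n).eq

theorem not_inA_of_le {p : ℕ} {x z : G} (h : Cx z ≤ Cx x) (hx : ¬ InA p x) : ¬ InA p z := by
  rintro ⟨P, hP⟩
  exact hx ⟨P, hP.trans h⟩

theorem mem_zpowers_mul {b g : G} (h : Commute b g) (hc : (orderOf b).Coprime (orderOf g)) :
    b ∈ zpowers (b * g) ∧ g ∈ zpowers (b * g) := by
  constructor
  · have h1 : (b * g) ^ orderOf g = b ^ orderOf g := by
      rw [h.mul_pow, pow_orderOf_eq_one, mul_one]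
    have h2 : b ∈ zpowers (b ^ orderOf g) := mem_zpowers_pow_iff.2 hc.symm
    rw [← h1] at h2
    exact (zpowers_le.2 (pow_mem (mem_zpowers (b * g)) _)) h2
  · have h1 : (b * g) ^ orderOf b = g ^ orderOf b := by
      rw [h.mul_pow, pow_orderOf_eq_one, one_mul]
    have h2 : g ∈ zpowers (g ^ orderOf b) := mem_zpowers_pow_iff.2 hc
    rw [← h1] at h2
    exact (zpowers_le.2 (pow_mem (mem_zpowers (b * g)) _)) h2

/-- Splitting off the `q`-part. -/
theorem exists_part [Finite G] (q : ℕ) [hq : Fact q.Prime] (x : G) :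
    ∃ a b : G, a ∈ zpowers x ∧ b ∈ zpowers x ∧ x = a * b ∧ (∃ i, a ^ q ^ i = 1) ∧
      ¬ q ∣ orderOf b := by
  obtain ⟨i, m, hm, hi⟩ := Nat.exists_eq_pow_mul_and_not_dvd (orderOf_pos x).ne' q
    hq.out.ne_one
  have hc : (q ^ i).Coprime m := Nat.Coprime.pow_left i ((Nat.Prime.coprime_iff_not_dvd hq.out).2 hm)
  obtain ⟨s, t, hst⟩ : ∃ s t : ℤ, (q ^ i : ℤ) * s + m * t = 1 := by
    have := Nat.isCoprime_iff_coprime.2 hc
    obtain ⟨s, t, h⟩ := this
    refine ⟨s, t, ?_⟩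
    push_cast at h
    linarith [h]
  have hx1 : x ^ ((q ^ i : ℤ) * m) = 1 := by
    have : ((q ^ i : ℤ) * m) = ((orderOf x : ℕ) : ℤ) := by rw [hi]; push_cast; ring
    rw [this, zpow_natCast, pow_orderOf_eq_one]
  refine ⟨x ^ ((m : ℤ) * t), x ^ ((q ^ i : ℤ) * s), ⟨_, rfl⟩, ⟨_, rfl⟩, ?_, ⟨i, ?_⟩, ?_⟩
  · rw [← zpow_add, add_comm, hst, zpow_one]
  · rw [← zpow_natCast, ← zpow_mul]
    have : (m : ℤ) * t * ((q ^ i : ℕ) : ℤ) = ((q ^ i : ℤ) * m) * t := by push_cast; ring
    rw [this, zpow_mul, hx1, one_zpow]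
  · intro hd
    have h1 : orderOf (x ^ ((q ^ i : ℤ) * s)) ∣ m := by
      apply orderOf_dvd_of_pow_eq_one
      rw [← zpow_natCast, ← zpow_mul]
      have : (q ^ i : ℤ) * s * (m : ℤ) = ((q ^ i : ℤ) * m) * s := by ring
      rw [this, zpow_mul, hx1, one_zpow]
    exact hm (hd.trans h1)

/-- A subgroup stabilizing a set under left multiplication has order dividing its size. -/
theorem card_dvd_of_stable [Finite G] (S : Subgroup G) (T : Set G)
    (h : ∀ s ∈ S, ∀ t ∈ T, s * t ∈ T) : Nat.card S ∣ Nat.card T := by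
  let T' : Set (G ⧸ S) := (QuotientGroup.mk : G → G ⧸ S) '' (T⁻¹)
  have h1 : (QuotientGroup.mk : G → G ⧸ S) ⁻¹' T' = T⁻¹ := by
    ext g
    constructor
    · rintro ⟨t, ht, htg⟩
      rw [QuotientGroup.eq] at htg
      have h2 := h _ (S.inv_mem htg) _ (Set.mem_inv.1 ht)
      rw [Set.mem_inv]
      convert h2 using 1
      group
    · intro hg
      exact ⟨g, hg, rfl⟩
  have h2 := QuotientGroup.card_preimage_mk S T'
  rw [h1] at h2
  have h3 : Nat.card (T⁻¹ : Set G) = Nat.card T := by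
    apply Nat.card_congr
    exact (Equiv.inv G).subtypeEquiv (fun x => by simp)
  rw [h3] at h2
  exact ⟨_, h2⟩

theorem isPGroup_zpowers {q : ℕ} {a : G} {i : ℕ} (h : a ^ q ^ i = 1) : IsPGroup q (zpowers a) := by
  rintro ⟨_, n, rfl⟩
  refine ⟨i, Subtype.ext ?_⟩
  show (a ^ n) ^ q ^ i = 1
  rw [← zpow_natCast, ← zpow_mul, mul_comm, zpow_mul, zpow_natCast, h, one_zpow]

section main

variable [Finite G] {p r : ℕ} [hp : Fact p.Prime] [hr : Fact r.Prime]

/-- Elements outside `A p` and `A r` have coprime class sizes, and exist. -/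
structure Far (G : Type*) [Group G] (p r : ℕ) : Prop where
  cop : ∀ x y : G, ¬ InA p x → ¬ InA r y → (Cx x).index.Coprime (Cx y).index
  cov : ∀ x : G, InA p x ∨ InA r x
  exr : ∃ y : G, ¬ InA r y
  exp : ∃ x : G, ¬ InA p x

theorem Far.symm {p r : ℕ} (h : Far G p r) : Far G r p :=
  ⟨fun x y hx hy => (h.cop y x hy hx).symm, fun x => (h.cov x).symm, h.exp, h.exr⟩

/-- Primary parts of elements outside `A p` for far primes are central. -/
theorem central_part (hF : Far G p r) {x a : G} (hx : ¬ InA p x) (hax : a ∈ zpowers x) {q : ℕ}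
    [hq : Fact q.Prime] (hqn : ∀ y : G, ¬ InA r y → ¬ q ∣ (Cx y).index) {i : ℕ}
    (ha : a ^ q ^ i = 1) : a ∈ center G := by
  have hxa : Cx x ≤ Cx a := Cx_le_of_mem_zpowers hax
  have hna : (Cx a).index ∣ (Cx x).index := index_dvd_of_le hxa
  -- `a` commutes with everything outside `A r`
  have h1 : ∀ y : G, ¬ InA r y → y * a = a * y := by
    intro y hy
    obtain ⟨Q, hQ⟩ := exists_sylow_le (p := q) (Cx y) (hqn y hy)
    obtain ⟨Q', hQ'⟩ := (isPGroup_zpowers ha).exists_le_sylow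
    obtain ⟨g, hg⟩ := MulAction.exists_smul_eq G Q' Q
    obtain ⟨d, hd, c, hc, hdc⟩ := exists_mul_of_coprime_index (hF.cop x y hx hy).symm g
    have h2 : g * a * g⁻¹ ∈ (Q : Subgroup G) := by
      rw [← hg, Sylow.coe_subgroup_smul, Subgroup.mem_pointwise_smul_iff_inv_smul_mem]
      have h3 : (MulAut.conj g)⁻¹ • (g * a * g⁻¹) = a := by
        rw [← map_inv]
        show g⁻¹ * (g * a * g⁻¹) * g⁻¹⁻¹ = _
        group
      rw [h3]
      exact hQ' (mem_zpowers a)
    have h3 := mem_Cx.1 (hQ h2)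
    have h4 := mem_Cx.1 (hxa hc)
    have h5 := mem_Cx.1 hd
    have h6 : g * a * g⁻¹ = d * a * d⁻¹ := by
      rw [hdc]
      calc d * c * a * (d * c)⁻¹ = d * (c * a) * c⁻¹ * d⁻¹ := by group
        _ = d * a * d⁻¹ := by rw [h4]; group
    rw [h6] at h3
    calc y * a = d⁻¹ * (d * y) * a := by group
      _ = d⁻¹ * (y * d) * a := by rw [h5]
      _ = d⁻¹ * (y * (d * a * d⁻¹)) * d := by group
      _ = d⁻¹ * ((d * a * d⁻¹) * y) * d := by rw [h3]
      _ = a * (d⁻¹ * (y * d)) := by group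
      _ = a * (d⁻¹ * (d * y)) := by rw [h5]
      _ = a * y := by group
  -- all Sylow `r`-subgroups centralize `a`
  have hconj : ∀ y g : G, ¬ InA r y → ¬ InA r (g * y * g⁻¹) := by
    intro y g hy hcon
    rw [inA_iff] at hy hcon
    apply hcon
    push Not at hy
    convert hy using 1
    rw [← card_Cl, ← card_Cl]
    congr 2
    ext u
    constructor
    · rintro ⟨k, rfl⟩
      exact ⟨k * g, by group⟩
    · rintro ⟨k, rfl⟩
      exact ⟨k * g⁻¹, by group⟩
  have h2 : normalClosure {y : G | ¬ InA r y} ≤ Cx a := by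
    rw [normalClosure, closure_le]
    intro z hz
    rw [Group.mem_conjugatesOfSet_iff] at hz
    obtain ⟨y, hy, hyz⟩ := hz
    rw [isConj_iff] at hyz
    obtain ⟨c, rfl⟩ := hyz
    exact mem_Cx.2 (h1 _ (hconj y c hy))
  have h3 := exists_mem_smul_eq (p := r) (normalClosure {y : G | ¬ InA r y}) (by
    intro z hz
    by_contra hcon
    exact hz (subset_normalClosure hcon))
  have h4 : ∀ R : Sylow r G, (R : Subgroup G) ≤ Cx a := by
    intro R
    obtain ⟨R', hR'⟩ := (hF.cov x).resolve_left hx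
    obtain ⟨n, hn, hnR⟩ := h3 R' R
    exact le_Cx_of_smul hnR (mem_Cx.1 (h2 hn)) (hR'.trans hxa)
  obtain ⟨y, hy⟩ := hF.exr
  have hay : ¬ InA r (a * y) := by
    rintro ⟨R, hR⟩
    apply hy
    refine ⟨R, fun u hu => ?_⟩
    have h5 := mem_Cx.1 (hR hu)
    have h6 := mem_Cx.1 (h4 R hu)
    rw [mem_Cx]
    have h7 : a * (u * y) = a * (y * u) := by
      rw [← mul_assoc, ← h6, mul_assoc, h5, mul_assoc]
    exact mul_left_cancel h7
  -- class sizes
  have hc1 : (Cx a).index.Coprime (Cx y).index := (hF.cop x y hx hy).coprime_dvd_left hna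
  have hc2 : (Cx a).index.Coprime (Cx (a * y)).index := (hF.cop x _ hx hay).coprime_dvd_left hna
  have hle : Nat.card (Cl (a * y)) ≤ Nat.card (Cl y) := by
    rw [card_Cl, card_Cl]
    apply Nat.le_of_dvd (Nat.pos_of_ne_zero index_ne_zero_of_finite)
    have h5 : (Cx (a * y)).index ∣ (Cx a).index * (Cx y).index := by
      rw [← inf_index_of_coprime hc1]
      apply index_dvd_of_le
      intro g hg
      have h6 : Commute g a := mem_Cx.1 hg.1
      have h7 : Commute g y := mem_Cx.1 hg.2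
      exact mem_Cx.2 (h6.mul_right h7).eq
    exact (Nat.Coprime.dvd_of_dvd_mul_left hc2.symm h5)
  have hprod : ∀ g : G, ∀ t ∈ Cl y, (g * a * g⁻¹) * t ∈ Cl (a * y) := by
    rintro g _ ⟨k, rfl⟩
    obtain ⟨c, hc, d, hd, hcd⟩ := exists_mul_of_coprime_index hc1 (g⁻¹ * k)
    have hc' := mem_Cx.1 hc
    have hd' := mem_Cx.1 hd
    refine ⟨g * c, ?_⟩
    have hk : k = g * c * d := by
      rw [mul_assoc, ← hcd]; group
    show g * c * (a * y) * (g * c)⁻¹ = g * a * g⁻¹ * (k * y * k⁻¹)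
    rw [hk]
    calc g * c * (a * y) * (g * c)⁻¹ = g * (c * a) * y * (g * c)⁻¹ := by group
      _ = g * (a * c) * y * (g * c)⁻¹ := by rw [hc']
      _ = g * a * g⁻¹ * (g * c * (y * d) * d⁻¹ * (g * c)⁻¹) := by group
      _ = g * a * g⁻¹ * (g * c * (d * y) * d⁻¹ * (g * c)⁻¹) := by rw [hd']
      _ = g * a * g⁻¹ * (g * c * d * y * (g * c * d)⁻¹) := by group
  have hsurj : ∀ g : G, ∀ z ∈ Cl (a * y), (g * a * g⁻¹)⁻¹ * z ∈ Cl y := by
    intro g
    have hfin : Finite (Cl (a * y)) := inferInstance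
    let f : Cl y → Cl (a * y) := fun t => ⟨(g * a * g⁻¹) * t, hprod g t t.2⟩
    have hf : Function.Injective f := by
      intro s t hst
      have := congrArg Subtype.val hst
      exact Subtype.ext (mul_left_cancel this)
    have hcard : Nat.card (Cl y) = Nat.card (Cl (a * y)) :=
      le_antisymm (Nat.card_le_card_of_injective f hf) hle
    have hs : Function.Surjective f := ((Nat.bijective_iff_injective_and_card f).2 ⟨hf, hcard⟩).2
    intro z hz
    obtain ⟨t, ht⟩ := hs ⟨z, hz⟩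
    have h5 : (g * a * g⁻¹) * t = z := congrArg Subtype.val ht
    rw [← h5, inv_mul_cancel_left]
    exact t.2
  -- the stabilizer
  let S : Subgroup G :=
    { carrier := {s | (∀ t ∈ Cl y, s * t ∈ Cl y) ∧ (∀ t ∈ Cl y, s⁻¹ * t ∈ Cl y)}
      mul_mem' := fun {s s'} hs hs' => ⟨fun t ht => by
        rw [mul_assoc]; exact hs.1 _ (hs'.1 t ht), fun t ht => by
        rw [mul_inv_rev, mul_assoc]; exact hs'.2 _ (hs.2 t ht)⟩
      one_mem' := ⟨fun t ht => by rwa [one_mul], fun t ht => by rwa [inv_one, one_mul]⟩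
      inv_mem' := fun {s} hs => ⟨hs.2, fun t ht => by rw [inv_inv]; exact hs.1 t ht⟩ }
  have hSn : S.Normal := by
    refine ⟨fun s hs g => ⟨fun t ht => ?_, fun t ht => ?_⟩⟩
    · have h5 := hs.1 _ ((mem_Cl_conj (x := y) g⁻¹).1 ht)
      have h6 := (mem_Cl_conj (x := y) g).1 h5
      convert h6 using 1
      group
    · have h5 := hs.2 _ ((mem_Cl_conj (x := y) g⁻¹).1 ht)
      have h6 := (mem_Cl_conj (x := y) g).1 h5
      convert h6 using 1
      group
  have hScard : Nat.card S ∣ (Cx y).index := by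
    rw [← card_Cl]
    exact card_dvd_of_stable S (Cl y) (fun s hs t ht => hs.1 t ht)
  have hSa : S ≤ Cx a := by
    rw [← relIndex_eq_one]
    apply Nat.eq_one_of_dvd_coprimes hc1
    · exact relIndex_dvd_of_normal (Cx a) S
    · exact (Subgroup.relIndex_dvd_card _ _).trans hScard
  rw [mem_center_iff]
  intro g
  have hw : (g * a * g⁻¹)⁻¹ * a ∈ S := by
    constructor
    · intro t ht
      have h5 := hprod 1 t ht
      have h6 := hsurj g _ h5
      rwa [one_mul, inv_one, mul_one, ← mul_assoc] at h6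
    · intro t ht
      have h5 := hprod g t ht
      have h6 := hsurj 1 _ h5
      rw [one_mul, inv_one, mul_one, ← mul_assoc] at h6
      rwa [mul_inv_rev, inv_inv]
  have hwa : Commute ((g * a * g⁻¹)⁻¹ * a) a := mem_Cx.1 (hSa hw)
  have h5 : g * a * g⁻¹ = a * ((g * a * g⁻¹)⁻¹ * a)⁻¹ := by group
  have h6 : (((g * a * g⁻¹)⁻¹ * a)⁻¹) ^ q ^ i = 1 := by
    have h7 : (a * ((g * a * g⁻¹)⁻¹ * a)⁻¹) ^ q ^ i = 1 := by
      rw [← h5, conj_pow, ha]; group
    rw [(hwa.inv_left.symm).mul_pow, ha, one_mul] at h7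
    exact h7
  have h7 : ((g * a * g⁻¹)⁻¹ * a)⁻¹ ∈ S := S.inv_mem hw
  have h8 : ((g * a * g⁻¹)⁻¹ * a)⁻¹ = 1 := by
    apply eq_one_of_pow h6 (pow_card_mem h7)
    apply Nat.Coprime.pow_left
    rw [Nat.Prime.coprime_iff_not_dvd hq.out]
    intro h9
    exact hqn y hy (h9.trans hScard)
  rw [h8, mul_one] at h5
  calc g * a = (g * a * g⁻¹) * g := by group
    _ = a * g := by rw [h5]

end main

end Cfsg.Agent.H41.ClassGraph
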