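import Cfsg.Agent.H41.ClassGraph2

set_option autoImplicit false
set_option linter.unusedSectionVars false

namespace Cfsg.Agent.H41.ClassGraph

open Subgroup
open Cfsg.Agent.H72 (Cx mem_Cx Cl card_Cl mem_Cl_self conj_mem_Cl mem_Cl_conj Cx_index_eq_one_iff
  relIndex_eq_index_of_coprime inf_index_of_coprime exists_mul_of_coprime_index center_le_Cx)

variable {G : Type*} [Group G] [Finite G] {p r : ℕ} [hp : Fact p.Prime] [hr : Fact r.Prime]

/-- In the centralizer of an element outside `A p`, primary elements for primes not dividing the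
class sizes outside `A r` are central. -/
theorem central_of_mem (hF : Far G p r) {x g : G} (hx : ¬ InA p x) (hg : g ∈ Cx x) {q : ℕ}
    [hq : Fact q.Prime] (hqn : ∀ y : G, ¬ InA r y → ¬ q ∣ (Cx y).index) {i : ℕ}
    (hgi : g ^ q ^ i = 1) : g ∈ center G := by
  obtain ⟨a, b, ha, hb, hab, ⟨j, haj⟩, hbq⟩ := exists_part q x
  have hac := central_part hF hx ha hqn haj
  have hbx : Cx b ≤ Cx x := by
    intro u hu
    have h1 := mem_Cx.1 hu
    have h2 := mem_center_iff.1 hac u
    rw [mem_Cx, hab]
    rw [← mul_assoc, h2, mul_assoc, h1, mul_assoc]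
  have hb' : ¬ InA p b := not_inA_of_le hbx hx
  have hcm : Commute b g := (mem_Cx.1 (Cx_le_of_mem_zpowers hb hg) : g * b = b * g).symm
  have hco : (orderOf b).Coprime (orderOf g) := by
    apply Nat.Coprime.coprime_dvd_right (orderOf_dvd_of_pow_eq_one hgi)
    apply Nat.Coprime.pow_right
    exact ((Nat.Prime.coprime_iff_not_dvd hq.out).2 hbq).symm
  obtain ⟨h1, h2⟩ := mem_zpowers_mul hcm hco
  have h3 : ¬ InA p (b * g) := not_inA_of_le (Cx_le_of_mem_zpowers h1) hb'
  exact central_part hF h3 h2 hqn hgi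

/-- `r`-elements of `C(x)` are central in `C(x)`. -/
theorem Cx_le (hF : Far G p r) {x v : G} (hx : ¬ InA p x) (hxr : ¬ r ∣ orderOf x)
    (hv : v ∈ Cx x) {i : ℕ} (hvi : v ^ r ^ i = 1) : Cx x ≤ Cx v := by
  have hcm : Commute x v := (mem_Cx.1 hv : v * x = x * v).symm
  have hco : (orderOf x).Coprime (orderOf v) := by
    apply Nat.Coprime.coprime_dvd_right (orderOf_dvd_of_pow_eq_one hvi)
    apply Nat.Coprime.pow_right
    exact ((Nat.Prime.coprime_iff_not_dvd hr.out).2 hxr).symm
  obtain ⟨h1, h2⟩ := mem_zpowers_mul hcm hco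
  have hzx : Cx (x * v) ≤ Cx x := Cx_le_of_mem_zpowers h1
  have hz : ¬ InA p (x * v) := not_inA_of_le hzx hx
  have hkey : (Cx (x * v)).relIndex (Cx x) = 1 := by
    by_contra hne
    obtain ⟨t, ht, htd⟩ := Nat.exists_prime_and_dvd hne
    haveI : Fact t.Prime := ⟨ht⟩
    by_cases hex : ∃ y : G, ¬ InA r y ∧ t ∣ (Cx y).index
    · obtain ⟨y, hy, hty⟩ := hex
      have h3 : t ∣ (Cx (x * v)).index := by
        have := relIndex_mul_index hzx
        rw [← this]
        exact htd.mul_right _
      have := Nat.eq_one_of_dvd_coprimes (hF.cop _ _ hz hy) h3 hty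
      exact ht.ne_one this
    · push Not at hex
      obtain ⟨T⟩ : Nonempty (Sylow t (Cx x)) := inferInstance
      have h3 : (T : Subgroup (Cx x)) ≤ (Cx (x * v)).subgroupOf (Cx x) := by
        intro u hu
        rw [mem_subgroupOf]
        obtain ⟨j, hj⟩ := T.isPGroup' ⟨u, hu⟩
        have hj' : (u : G) ^ t ^ j = 1 := by
          have := congrArg Subtype.val hj
          exact congrArg Subtype.val this
        exact center_le_Cx _ (central_of_mem hF hx u.2 hex hj')
      exact T.not_dvd_index (htd.trans (index_dvd_of_le h3))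
  rw [relIndex_eq_one] at hkey
  exact hkey.trans (Cx_le_of_mem_zpowers h2)

theorem exists_pow_of_mem_sylow {q : ℕ} (R : Sylow q G) {u : G} (hu : u ∈ (R : Subgroup G)) :
    ∃ j, u ^ q ^ j = 1 := by
  obtain ⟨j, hj⟩ := R.isPGroup' ⟨u, hu⟩
  exact ⟨j, congrArg Subtype.val hj⟩

theorem Cx_le_centralizer (hF : Far G p r) {x : G} (hx : ¬ InA p x) (hxr : ¬ r ∣ orderOf x)
    {R : Sylow r G} (hR : (R : Subgroup G) ≤ Cx x) :
    Cx x ≤ centralizer ((R : Subgroup G) : Set G) := by
  intro g hg
  rw [mem_centralizer_iff]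
  intro u hu
  obtain ⟨j, hj⟩ := exists_pow_of_mem_sylow R hu
  exact (mem_Cx.1 (Cx_le hF hx hxr (hR hu) hj hg)).symm

theorem sylow_unique (hF : Far G p r) {x : G} (hx : ¬ InA p x) (hxr : ¬ r ∣ orderOf x)
    {R1 R2 : Sylow r G} (h1 : (R1 : Subgroup G) ≤ Cx x) (h2 : (R2 : Subgroup G) ≤ Cx x) :
    R1 = R2 := by
  have h3 : (R1 : Subgroup G) ≤ normalizer ((R2 : Subgroup G) : Set G) :=
    (h1.trans (Cx_le_centralizer hF hx hxr h2)).trans (centralizer_le_norm R2)
  have h4 := R1.isPGroup'.inf_normalizer_sylow R2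
  have h5 : (R1 : Subgroup G) ≤ R2 := by
    rw [← inf_eq_left, ← h4, inf_eq_left]
    exact h3
  exact Sylow.ext (R1.is_maximal' R2.isPGroup' h5).symm

/-- For two good primes the `r'`-part of an element outside `A p` is outside `A p`. -/
theorem exists_not_inA (hDp : DD G p) (hDr : DD G r) (hex : ∃ x : G, ¬ InA p x) :
    ∃ x : G, ¬ InA p x ∧ ¬ r ∣ orderOf x := by
  obtain ⟨x, hx⟩ := hex
  obtain ⟨v, u, hv, hu, hvu, ⟨i, hvi⟩, hur⟩ := exists_part r x
  refine ⟨u, ?_, hur⟩
  rintro ⟨P, hP⟩
  apply hx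
  have hcard : ¬ r ∣ Nat.card (Sylow p (Cx u)) := by
    intro hd
    have h1 := commutator_sup_normalizer (P.subtype hP)
    have h2 := relIndex_eq_of_sup_eq_top _ (commutator (Cx u)) h1
    have h3 : Nat.card (Sylow p (Cx u)) =
      (normalizer (((P.subtype hP : Sylow p (Cx u)) : Subgroup (Cx u)) : Set (Cx u))).index :=
      Sylow.card_eq_index_normalizer _
    rw [h3, ← h2] at hd
    have h4 := hd.trans (relIndex_dvd_card _ _)
    have h5 : Nat.card (commutator (Cx u)) ∣ Nat.card (commutator G) := by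
      rw [Nat.card_congr ((commutator (Cx u)).equivMapOfInjective _
        (Cx u).subtype_injective).toEquiv]
      apply card_dvd_of_le
      rw [_root_.commutator_def, map_commutator, _root_.commutator_def]
      exact commutator_mono le_top le_top
    exact hDr.not_dvd (h4.trans h5)
  have hvu' : v ∈ Cx u := by
    obtain ⟨m, rfl⟩ := hv
    obtain ⟨n, rfl⟩ := hu
    exact mem_Cx.2 ((Commute.refl x).zpow_zpow m n).eq
  have hpg : IsPGroup r (zpowers (⟨v, hvu'⟩ : Cx u)) := isPGroup_zpowers (i := i)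
    (Subtype.ext (by push_cast; exact hvi))
  obtain ⟨P3, hP3⟩ := hpg.nonempty_fixed_point_of_prime_not_dvd_card (Sylow p (Cx u)) hcard
  have h1 : (⟨v, hvu'⟩ : Cx u) • P3 = P3 := hP3 ⟨_, mem_zpowers _⟩
  have hpi : ¬ p ∣ (Cx u).index := fun h => P.not_dvd_index (h.trans (index_dvd_of_le hP))
  have h2 : IsPGroup p ((P3 : Subgroup (Cx u)).map (Cx u).subtype) := P3.isPGroup'.map _
  have h3 : ¬ p ∣ ((P3 : Subgroup (Cx u)).map (Cx u).subtype).index := by
    rw [index_map_subtype, (Fact.out : p.Prime).dvd_mul]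
    rintro (h | h)
    · exact P3.not_dvd_index h
    · exact hpi h
  refine ⟨h2.toSylow h3, ?_⟩
  have h4 := hDp (h2.toSylow h3)
  have h5 : v ∈ normalizer ((((h2.toSylow h3 : Sylow p G)) : Subgroup G) : Set G) := by
    rw [Subgroup.mem_normalizer_iff]
    intro w
    have hN : (⟨v, hvu'⟩ : Cx u) ∈ normalizer ((P3 : Subgroup (Cx u)) : Set (Cx u)) :=
      Sylow.smul_eq_iff_mem_normalizer.1 h1
    rw [Subgroup.mem_normalizer_iff] at hN
    show w ∈ (P3 : Subgroup (Cx u)).map (Cx u).subtype ↔
      v * w * v⁻¹ ∈ (P3 : Subgroup (Cx u)).map (Cx u).subtype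
    constructor
    · rintro ⟨w', hw', rfl⟩
      exact ⟨_, (hN w').1 hw', rfl⟩
    · rintro ⟨w', hw', e⟩
      refine ⟨⟨v, hvu'⟩⁻¹ * w' * ⟨v, hvu'⟩, (hN _).2 ?_, ?_⟩
      · have e2 : (⟨v, hvu'⟩ : Cx u) * (⟨v, hvu'⟩⁻¹ * w' * ⟨v, hvu'⟩) * ⟨v, hvu'⟩⁻¹ = w' := by
          group
        rw [e2]
        exact hw'
      · have e' : (w' : G) = v * w * v⁻¹ := e
        show v⁻¹ * (w' : G) * v = w
        rw [e']; group
  have h6 := h4 h5
  intro w hw
  have h7 : w * u = u * w := by
    obtain ⟨w', hw', rfl⟩ := hw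
    exact mem_Cx.1 w'.2
  have h8 : w * v = v * w := mem_centralizer_iff.1 h6 w hw
  rw [mem_Cx, hvu, ← mul_assoc, h8, mul_assoc, h7, mul_assoc]

/-- Two good primes cannot be far apart. -/
theorem not_far (hF : Far G p r) (hDp : DD G p) (hDr : DD G r) : False := by
  classical
  have hpK := hDp.not_dvd
  have hrK := hDr.not_dvd
  -- numbers of Sylow subgroups are coprime
  obtain ⟨x0, hx0, hx0r⟩ := exists_not_inA hDp hDr hF.exp
  obtain ⟨y0, hy0, hy0p⟩ := exists_not_inA hDr hDp hF.exr
  obtain ⟨R0, hR0⟩ := (hF.cov x0).resolve_left hx0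
  obtain ⟨P0, hP0⟩ := (hF.cov y0).resolve_right hy0
  have hidx : ∀ (q : ℕ) [Fact q.Prime] (_ : DD G q) (Q : Sylow q G),
      (centralizer ((Q : Subgroup G) : Set G)).index = Nat.card (Sylow q G) := by
    intro q _ hD Q
    have h1 : centralizer ((Q : Subgroup G) : Set G) = normalizer ((Q : Subgroup G) : Set G) :=
      le_antisymm (centralizer_le_norm Q) (hD Q)
    rw [h1]
    exact (Sylow.card_eq_index_normalizer Q).symm
  have hcop : (Nat.card (Sylow p G)).Coprime (Nat.card (Sylow r G)) := by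
    have h1 : Nat.card (Sylow r G) ∣ (Cx x0).index := by
      rw [← hidx r hDr R0]
      exact index_dvd_of_le (Cx_le_centralizer hF hx0 hx0r hR0)
    have h2 : Nat.card (Sylow p G) ∣ (Cx y0).index := by
      rw [← hidx p hDp P0]
      exact index_dvd_of_le (Cx_le_centralizer hF.symm hy0 hy0p hP0)
    exact ((hF.cop x0 y0 hx0 hy0).coprime_dvd_left h1 |>.coprime_dvd_right h2).symm
  have hone : ∀ (q : ℕ) [Fact q.Prime] (_ : DD G q) (_ : ∃ x : G, ¬ InA q x),
      1 < Nat.card (Sylow q G) := by
    intro q _ hD ⟨x, hx⟩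
    by_contra hcon
    have h1 : Nat.card (Sylow q G) = 1 := by
      have : 0 < Nat.card (Sylow q G) := Nat.card_pos
      omega
    apply hx
    obtain ⟨Q⟩ : Nonempty (Sylow q G) := inferInstance
    refine ⟨Q, ?_⟩
    have h2 := hidx q hD Q
    rw [h1, index_eq_one] at h2
    exact le_Cx_of_mem_centralizer (by rw [h2]; trivial)
  have hNp := hone p hDp hF.exp
  have hNr := hone r hDr hF.exr
  -- relative indices in the commutator subgroup
  set K := commutator G with hK
  have := Fintype.ofFinite G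
  have := Fintype.ofFinite (Sylow p G)
  have := Fintype.ofFinite (Sylow r G)
  have := Fintype.ofFinite K
  have hrel : ∀ (q : ℕ) [Fact q.Prime] (_ : DD G q) (Q : Sylow q G),
      (centralizer ((Q : Subgroup G) : Set G)).relIndex K = Nat.card (Sylow q G) := by
    intro q _ hD Q
    rw [← hidx q hD Q]
    apply relIndex_eq_of_sup_eq_top
    have h1 : centralizer ((Q : Subgroup G) : Set G) = normalizer ((Q : Subgroup G) : Set G) :=
      le_antisymm (centralizer_le_norm Q) (hD Q)
    rw [h1]
    exact commutator_sup_normalizer Q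
  have hcard : ∀ (H : Subgroup G), Nat.card {k : K // (k : G) ∈ H} * H.relIndex K = Nat.card K := by
    intro H
    have h1 := (H.subgroupOf K).card_mul_index
    exact h1
  have hrel2 : ∀ (P : Sylow p G) (R : Sylow r G),
      (centralizer ((P : Subgroup G) : Set G) ⊓ centralizer ((R : Subgroup G) : Set G)).relIndex K =
        Nat.card (Sylow p G) * Nat.card (Sylow r G) := by
    intro P R
    apply le_antisymm
    · refine le_trans (relIndex_inf_le) ?_
      rw [hrel p hDp P, hrel r hDr R]
    · apply Nat.le_of_dvd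
      · exact Nat.pos_of_ne_zero (index_ne_zero_of_finite (H := (_ : Subgroup G).subgroupOf K))
      · apply hcop.mul_dvd_of_dvd_of_dvd
        · rw [← hrel p hDp P]
          exact relIndex_dvd_of_le_left _ inf_le_left
        · rw [← hrel r hDr R]
          exact relIndex_dvd_of_le_left _ inf_le_right
  -- fixed point counts
  let n : (q : ℕ) → G → ℕ := fun q g =>
    Nat.card {Q : Sylow q G // g ∈ centralizer ((Q : Subgroup G) : Set G)}
  have hsum1 : ∀ (q : ℕ) [Fact q.Prime] (_ : DD G q), ∑ k : K, n q k = Nat.card K := by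
    intro q _ hD
    have := Fintype.ofFinite (Sylow q G)
    have h1 : ∑ k : K, n q k = ∑ Q : Sylow q G,
        Nat.card {k : K // (k : G) ∈ centralizer ((Q : Subgroup G) : Set G)} := by
      have e1 : ∀ k : K, n q k = ∑ Q : Sylow q G,
          if (k : G) ∈ centralizer ((Q : Subgroup G) : Set G) then 1 else 0 := by
        intro k
        show Nat.card _ = _
        rw [Nat.card_eq_fintype_card, Fintype.card_subtype, Finset.card_filter]
      have e2 : ∀ Q : Sylow q G,
          Nat.card {k : K // (k : G) ∈ centralizer ((Q : Subgroup G) : Set G)} =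
            ∑ k : K, if (k : G) ∈ centralizer ((Q : Subgroup G) : Set G) then 1 else 0 := by
        intro Q
        rw [Nat.card_eq_fintype_card, Fintype.card_subtype, Finset.card_filter]
      rw [Finset.sum_congr rfl (fun k _ => e1 k), Finset.sum_congr rfl (fun Q _ => e2 Q),
        Finset.sum_comm]
    rw [h1]
    have h2 : ∀ Q : Sylow q G,
        Nat.card {k : K // (k : G) ∈ centralizer ((Q : Subgroup G) : Set G)} =
          Nat.card K / Nat.card (Sylow q G) := by
      intro Q
      have h3 := hcard (centralizer ((Q : Subgroup G) : Set G))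
      rw [hrel q hD Q] at h3
      rw [← h3]
      exact (Nat.mul_div_cancel _ Nat.card_pos).symm
    rw [Finset.sum_congr rfl (fun Q _ => h2 Q), Finset.sum_const, smul_eq_mul, Finset.card_univ,
      ← Nat.card_eq_fintype_card]
    obtain ⟨Q⟩ : Nonempty (Sylow q G) := inferInstance
    apply Nat.mul_div_cancel'
    rw [← hrel q hD Q]
    exact relIndex_dvd_card _ _
  have hsum2 : ∑ k : K, n p k * n r k = Nat.card K := by
    have h1 : ∑ k : K, n p k * n r k = ∑ P : Sylow p G, ∑ R : Sylow r G,
        Nat.card {k : K // (k : G) ∈ centralizer ((P : Subgroup G) : Set G) ⊓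
          centralizer ((R : Subgroup G) : Set G)} := by
      have e1 : ∀ k : K, n p k * n r k = ∑ P : Sylow p G, ∑ R : Sylow r G,
          if (k : G) ∈ centralizer ((P : Subgroup G) : Set G) ⊓
            centralizer ((R : Subgroup G) : Set G) then 1 else 0 := by
        intro k
        show Nat.card _ * Nat.card _ = _
        rw [Nat.card_eq_fintype_card, Fintype.card_subtype, Finset.card_filter,
          Nat.card_eq_fintype_card, Fintype.card_subtype, Finset.card_filter,
          Finset.sum_mul_sum]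
        refine Finset.sum_congr rfl (fun P _ => Finset.sum_congr rfl (fun R _ => ?_))
        by_cases hP : (k : G) ∈ centralizer ((P : Subgroup G) : Set G) <;>
        by_cases hR : (k : G) ∈ centralizer ((R : Subgroup G) : Set G) <;>
        simp only [hP, hR, Subgroup.mem_inf, if_true, if_false, and_true, and_false, true_and,
          false_and, mul_one, mul_zero, zero_mul]
      have e2 : ∀ (P : Sylow p G) (R : Sylow r G),
          Nat.card {k : K // (k : G) ∈ centralizer ((P : Subgroup G) : Set G) ⊓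
          centralizer ((R : Subgroup G) : Set G)} =
            ∑ k : K, if (k : G) ∈ centralizer ((P : Subgroup G) : Set G) ⊓
            centralizer ((R : Subgroup G) : Set G) then 1 else 0 := by
        intro P R
        rw [Nat.card_eq_fintype_card, Fintype.card_subtype, Finset.card_filter]
      rw [Finset.sum_congr rfl (fun k _ => e1 k), Finset.sum_comm]
      refine Finset.sum_congr rfl (fun P _ => ?_)
      rw [Finset.sum_comm]
      exact Finset.sum_congr rfl (fun R _ => (e2 P R).symm)
    rw [h1]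
    have h2 : ∀ (P : Sylow p G) (R : Sylow r G),
        Nat.card {k : K // (k : G) ∈ centralizer ((P : Subgroup G) : Set G) ⊓
          centralizer ((R : Subgroup G) : Set G)} =
          Nat.card K / (Nat.card (Sylow p G) * Nat.card (Sylow r G)) := by
      intro P R
      have h3 := hcard (centralizer ((P : Subgroup G) : Set G) ⊓
          centralizer ((R : Subgroup G) : Set G))
      rw [hrel2 P R] at h3
      rw [← h3]
      exact (Nat.mul_div_cancel _ (Nat.mul_pos Nat.card_pos Nat.card_pos)).symm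
    rw [Finset.sum_congr rfl (fun P _ => Finset.sum_congr rfl (fun R _ => h2 P R)),
      Finset.sum_const, Finset.sum_const, smul_eq_mul, smul_eq_mul, Finset.card_univ,
      Finset.card_univ, ← Nat.card_eq_fintype_card, ← Nat.card_eq_fintype_card, ← mul_assoc]
    apply Nat.mul_div_cancel'
    rw [← hrel2 P0 R0]
    exact relIndex_dvd_card _ _
  -- the product of the two reduced permutation characters sums to zero
  have hzero : ∑ k : K, (((n p k : ℕ) : ℤ) - 1) * (((n r k : ℕ) : ℤ) - 1) = 0 := by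
    have e : ∀ k : K, (((n p k : ℕ) : ℤ) - 1) * (((n r k : ℕ) : ℤ) - 1) =
        ((n p k * n r k : ℕ) : ℤ) - ((n p k : ℕ) : ℤ) - ((n r k : ℕ) : ℤ) + 1 := by
      intro k; push_cast; ring
    rw [Finset.sum_congr rfl (fun k _ => e k), Finset.sum_add_distrib, Finset.sum_sub_distrib,
      Finset.sum_sub_distrib, ← Nat.cast_sum, ← Nat.cast_sum, ← Nat.cast_sum, hsum1 p hDp,
      hsum1 r hDr, hsum2, Finset.sum_const, Finset.card_univ, ← Nat.card_eq_fintype_card]
    simp
  have hnot : ∀ (q : ℕ) (g : G), ¬ InA q g → n q g = 0 := by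
    intro q g hg
    have : IsEmpty {Q : Sylow q G // g ∈ centralizer ((Q : Subgroup G) : Set G)} :=
      ⟨fun Q => hg ⟨Q.1, le_Cx_of_mem_centralizer Q.2⟩⟩
    exact Nat.card_of_isEmpty
  have hyes : ∀ (q : ℕ) (g : G), InA q g → 1 ≤ n q g := by
    rintro q g ⟨Q, hQ⟩
    have : Nonempty {Q : Sylow q G // g ∈ centralizer ((Q : Subgroup G) : Set G)} :=
      ⟨⟨Q, mem_centralizer_of_le_Cx hQ⟩⟩
    exact Nat.card_pos
  have huniq : ∀ (q s : ℕ) [Fact q.Prime] [Fact s.Prime] (_ : Far G q s) (_ : ¬ s ∣ Nat.card K)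
      (k : K), ¬ InA q (k : G) → n s k = 1 := by
    intro q s _ _ hF' hsK k hk
    have hso : ¬ s ∣ orderOf (k : G) := by
      intro hd
      apply hsK
      rw [orderOf_coe] at hd
      exact hd.trans (orderOf_dvd_natCard k)
    obtain ⟨R, hR⟩ := (hF'.cov (k : G)).resolve_left hk
    show Nat.card _ = 1
    rw [Nat.card_eq_one_iff_unique]
    refine ⟨⟨fun a b => Subtype.ext ?_⟩, ⟨⟨R, mem_centralizer_of_le_Cx hR⟩⟩⟩
    exact sylow_unique hF' hk hso (le_Cx_of_mem_centralizer a.2) (le_Cx_of_mem_centralizer b.2)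
  have hnn : ∀ k : K, 0 ≤ (((n p k : ℕ) : ℤ) - 1) * (((n r k : ℕ) : ℤ) - 1) := by
    intro k
    by_cases h1 : InA p (k : G)
    · by_cases h2 : InA r (k : G)
      · have h3 := hyes p k h1
        have h4 := hyes r k h2
        apply mul_nonneg
        · have : (1 : ℤ) ≤ ((n p k : ℕ) : ℤ) := by exact_mod_cast h3
          linarith
        · have : (1 : ℤ) ≤ ((n r k : ℕ) : ℤ) := by exact_mod_cast h4
          linarith
      · rw [huniq r p hF.symm hpK k h2]
        simp
    · rw [huniq p r hF hrK k h1]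
      simp
  have h1 := (Finset.sum_eq_zero_iff_of_nonneg (fun k _ => hnn k)).1 hzero 1 (Finset.mem_univ _)
  have hn1 : ∀ q : ℕ, n q ((1 : K) : G) = Nat.card (Sylow q G) := by
    intro q
    show Nat.card _ = _
    apply Nat.card_congr
    exact Equiv.subtypeUnivEquiv (fun Q => one_mem _)
  rw [hn1, hn1] at h1
  rcases mul_eq_zero.1 h1 with h | h
  · have : (1 : ℤ) < (Nat.card (Sylow p G) : ℤ) := by exact_mod_cast hNp
    linarith
  · have : (1 : ℤ) < (Nat.card (Sylow r G) : ℤ) := by exact_mod_cast hNr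
    linarith

end Cfsg.Agent.H41.ClassGraph
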