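import Mathlib

set_option autoImplicit false
set_option linter.unusedSectionVars false
set_option linter.unusedVariables false

/-! Pairs of conjugate involutions in symmetric groups: a third involution whose products with both have odd order. -/

namespace Cfsg.Agent.H41.InvGraph

open Equiv

variable {α : Type*} [Fintype α] [DecidableEq α]

abbrev OddP (σ : Perm α) : Prop := Odd (orderOf σ)

theorem oddP_of_pow {σ : Perm α} {k : ℕ} (hk : Odd k) (h : σ ^ k = 1) : OddP σ :=
  Odd.of_dvd_nat hk (orderOf_dvd_of_pow_eq_one h)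

theorem oddP_conj {σ τ g : Perm α} (h : OddP σ) (hg : τ * g = g * σ) : OddP τ := by
  have h1 : τ = g * σ * g⁻¹ := by rw [← hg, mul_inv_cancel_right]
  apply oddP_of_pow h
  rw [h1, conj_pow, pow_orderOf_eq_one, mul_one, mul_inv_cancel]

theorem oddP_of_points (σ : Perm α) (h : ∀ w, ∃ k, Odd k ∧ (σ ^ k) w = w) : OddP σ := by
  choose k hk hw using h
  have hodd : Odd (∏ w, k w) := Finset.prod_induction _ Odd (fun _ _ => Odd.mul) odd_one fun w _ => hk w
  apply oddP_of_pow hodd
  ext1 w
  obtain ⟨c, hc⟩ := Finset.dvd_prod_of_mem k (Finset.mem_univ w)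
  rw [hc, pow_mul, Perm.one_apply]
  have h1 : ∀ c : ℕ, ((σ ^ k w) ^ c) w = w := by
    intro c
    induction c with
    | zero => rfl
    | succ c ih => rw [pow_succ, Perm.mul_apply, hw, ih]
  exact h1 c

theorem ext3 {σ : Perm α} (hσ : OddP σ) {a u v : α} (hau : a ≠ u) (hav : a ≠ v) (huv : u ≠ v) (hu : σ u = u) (hv : σ v = v) :
    OddP (σ * (swap a v * swap a u)) := by
  obtain ⟨τ, hτ⟩ : ∃ τ, τ = σ * (swap a v * swap a u) := ⟨_, rfl⟩
  rw [← hτ]
  have ta : τ a = u := by
    rw [hτ, Perm.mul_apply, Perm.mul_apply, swap_apply_left, swap_apply_of_ne_of_ne hau.symm huv, hu]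
  have tu : τ u = v := by
    rw [hτ, Perm.mul_apply, Perm.mul_apply, swap_apply_right, swap_apply_left, hv]
  have tv : τ v = σ a := by
    rw [hτ, Perm.mul_apply, Perm.mul_apply, swap_apply_of_ne_of_ne hav.symm huv.symm, swap_apply_right]
  have tw : ∀ w, w ≠ a → w ≠ u → w ≠ v → τ w = σ w := by
    intro w h1 h2 h3
    rw [hτ, Perm.mul_apply, Perm.mul_apply, swap_apply_of_ne_of_ne h1 h2, swap_apply_of_ne_of_ne h1 h3]
  have hpow : ∀ (ρ : Perm α) (w : α), ρ w = w → ∀ j : ℕ, (ρ ^ j) w = w := by
    intro ρ w hw j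
    induction j with
    | zero => rfl
    | succ j ih => rw [pow_succ, Perm.mul_apply, hw, ih]
  set ℓ := Function.minimalPeriod σ a with hℓ
  have hper : Function.IsPeriodicPt σ (orderOf σ) a := by
    show (σ^[orderOf σ]) a = a
    rw [← Perm.coe_pow, pow_orderOf_eq_one]
    rfl
  have hℓd : ℓ ∣ orderOf σ := hper.minimalPeriod_dvd
  have hℓo : Odd ℓ := Odd.of_dvd_nat hσ hℓd
  have hℓ0 : 1 ≤ ℓ := hℓo.pos
  have claim1 : ∀ j, 1 ≤ j → j ≤ ℓ → (τ ^ (j + 2)) a = (σ ^ j) a := by
    intro j h1
    induction j, h1 using Nat.le_induction with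
    | base =>
      intro _
      rw [show 1 + 2 = 1 + 1 + 1 from rfl, pow_succ', pow_succ', pow_one, Perm.mul_apply, Perm.mul_apply, ta, tu, tv, pow_one]
    | succ j hj ih =>
      intro h2
      rw [show j + 1 + 2 = (j + 2) + 1 from by ring, pow_succ', Perm.mul_apply, ih (by omega), pow_succ', Perm.mul_apply]
      apply tw
      · intro h3
        have h4 : ¬ Function.IsPeriodicPt σ j a := Function.not_isPeriodicPt_of_pos_of_lt_minimalPeriod (by omega) (by omega)
        apply h4
        show (σ^[j]) a = a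
        rw [← Perm.coe_pow]
        exact h3
      · intro h3
        apply hau
        apply (σ ^ j).injective
        rw [h3, hpow σ u hu]
      · intro h3
        apply hav
        apply (σ ^ j).injective
        rw [h3, hpow σ v hv]
  have ha : (τ ^ (ℓ + 2)) a = a := by
    rw [claim1 ℓ hℓ0 le_rfl]
    have : Function.IsPeriodicPt σ ℓ a := Function.isPeriodicPt_minimalPeriod σ a
    have h1 : (σ^[ℓ]) a = a := this
    rw [← Perm.coe_pow] at h1
    exact h1
  apply oddP_of_points
  intro w
  by_cases hw : ∃ j : ℤ, (τ ^ j) a = w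
  · obtain ⟨j, rfl⟩ := hw
    refine ⟨ℓ + 2, by obtain ⟨k, hk⟩ := hℓo; exact ⟨k + 1, by omega⟩, ?_⟩
    rw [← Perm.mul_apply, ← zpow_natCast, ← zpow_add, add_comm, zpow_add, zpow_natCast, Perm.mul_apply, ha]
  · refine ⟨orderOf σ, hσ, ?_⟩
    have claim2 : ∀ j : ℕ, (τ ^ j) w = (σ ^ j) w := by
      intro j
      induction j with
      | zero => rfl
      | succ j ih =>
        rw [pow_succ', Perm.mul_apply, pow_succ', Perm.mul_apply, ih]
        have key : ∀ (b : α) (i : ℤ), (τ ^ i) a = b → (σ ^ j) w ≠ b := by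
          intro b i hb h3
          apply hw
          refine ⟨-j + i, ?_⟩
          rw [← ih] at h3
          rw [zpow_add, Perm.mul_apply, hb, ← h3, zpow_neg, zpow_natCast]
          simp
        apply tw
        · exact key a 0 rfl
        · exact key u 1 (by rw [zpow_one, ta])
        · refine key v 2 ?_
          rw [show (2 : ℤ) = 1 + 1 from rfl, zpow_add, zpow_one, Perm.mul_apply, ta, tu]
    rw [claim2, pow_orderOf_eq_one]
    rfl

/-! ### local patterns -/

section loc
variable {m : ℕ} (e : Fin m ↪ α)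

noncomputable abbrev L : Perm (Fin m) →* Perm α := Perm.viaEmbeddingHom e

theorem L_apply (π : Perm (Fin m)) (i : Fin m) : L e π (e i) = e (π i) := Perm.viaEmbedding_apply π e i

theorem L_not (π : Perm (Fin m)) (w : α) (h : ∀ i, w ≠ e i) : L e π w = w :=
  Perm.viaEmbedding_apply_of_notMem π e w (by rintro ⟨i, rfl⟩; exact h i rfl)

theorem L_swap (i j : Fin m) : L e (swap i j) = swap (e i) (e j) := by
  ext1 w
  by_cases hw : ∃ k, w = e k
  · obtain ⟨k, rfl⟩ := hw
    rw [L_apply]
    exact (e.injective.map_swap ..)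
  · push Not at hw
    rw [L_not e _ _ hw, swap_apply_of_ne_of_ne (hw i) (hw j)]

theorem L_comm (π : Perm (Fin m)) (w : Perm α) (h : ∀ i, π i ≠ i → w (e i) = e i) : w * L e π = L e π * w := by
  apply (Perm.Disjoint.commute _)
  intro p
  by_cases hp : ∃ k, p = e k
  · obtain ⟨k, rfl⟩ := hp
    by_cases hk : π k = k
    · right
      rw [L_apply, hk]
    · left
      exact h k hk
  · push Not at hp
    right
    exact L_not e _ _ hp

abbrev cyc (i j k : Fin m) : Perm (Fin m) := swap i k * swap i j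

theorem ext3L {σ : Perm α} (hσ : OddP σ) {i j k : Fin m} (hij : i ≠ j) (hik : i ≠ k) (hjk : j ≠ k) (hj : σ (e j) = e j) (hk : σ (e k) = e k) :
    OddP (σ * L e (cyc i j k)) := by
  rw [cyc, map_mul, L_swap, L_swap]
  exact ext3 hσ (e.injective.ne hij) (e.injective.ne hik) (e.injective.ne hjk) hj hk

theorem odd_step (y y' y'' z z' : Perm α) (π π' κ : Perm (Fin m)) (hy : y = y'' * L e π) (hy' : y' = y'' * L e π')
    (hc : ∀ i, π i ≠ i → y'' (e i) = e i) (hc' : ∀ i, π' i ≠ i → y'' (e i) = e i) (hπ' : π' * π' = 1) (hz : z = z' * L e κ)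
    (h : OddP (y' * z' * L e (κ * π * π'))) : OddP (y * z) := by
  have h1 := L_comm e π y'' hc
  have h2 := L_comm e π' y'' hc'
  have h3 : L e π' * L e π' = 1 := by rw [← map_mul, hπ', map_one]
  apply oddP_conj h (g := L e π * L e π')
  rw [hy, hy', hz, map_mul, map_mul]
  calc y'' * L e π * (z' * L e κ) * (L e π * L e π')
      = L e π * y'' * (L e π' * L e π') * z' * (L e κ * L e π * L e π') := by rw [h3, ← h1]; group
    _ = L e π * (y'' * L e π') * L e π' * z' * (L e κ * L e π * L e π') := by group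
    _ = L e π * (L e π' * y'') * L e π' * z' * (L e κ * L e π * L e π') := by rw [h2]
    _ = L e π * L e π' * (y'' * L e π' * z' * (L e κ * L e π * L e π')) := by group

end loc

/-! ### removing transpositions -/

theorem rem {x : Perm α} (hx : x * x = 1) {a b : α} (hab : x a = b) (hne : a ≠ b) :
    (x * swap a b) * (x * swap a b) = 1 ∧ (x * swap a b) a = a ∧ (x * swap a b) b = b ∧ (∀ w, w ≠ a → w ≠ b → (x * swap a b) w = x w) ∧
      (x * swap a b).support.card + 2 = x.support.card := by
  have hba : x b = a := by rw [← hab, ← Perm.mul_apply, hx, Perm.one_apply]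
  have h1 : (x * swap a b) a = a := by rw [Perm.mul_apply, swap_apply_left, hba]
  have h2 : (x * swap a b) b = b := by rw [Perm.mul_apply, swap_apply_right, hab]
  have h3 : ∀ w, w ≠ a → w ≠ b → (x * swap a b) w = x w := by
    intro w hwa hwb
    rw [Perm.mul_apply, swap_apply_of_ne_of_ne hwa hwb]
  have hxx : ∀ w, x (x w) = w := fun w => by rw [← Perm.mul_apply, hx, Perm.one_apply]
  refine ⟨?_, h1, h2, h3, ?_⟩
  · ext1 w
    rw [Perm.mul_apply, Perm.one_apply]
    by_cases hwa : w = a
    · rw [hwa, h1, h1]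
    · by_cases hwb : w = b
      · rw [hwb, h2, h2]
      · rw [h3 w hwa hwb, h3, hxx]
        · intro h
          apply hwb
          rw [← hxx w, h, hab]
        · intro h
          apply hwa
          rw [← hxx w, h, hba]
  · have h4 : x.support = insert a (insert b (x * swap a b).support) := by
      ext w
      rw [Finset.mem_insert, Finset.mem_insert, Perm.mem_support, Perm.mem_support]
      constructor
      · intro h
        by_cases hwa : w = a
        · exact Or.inl hwa
        · by_cases hwb : w = b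
          · exact Or.inr (Or.inl hwb)
          · rw [h3 w hwa hwb]
            exact Or.inr (Or.inr h)
      · rintro (rfl | rfl | h)
        · rw [hab]; exact hne.symm
        · rw [hba]; exact hne
        · intro h5
          apply h
          by_cases hwa : w = a
          · rw [hwa, h1]
          · by_cases hwb : w = b
            · rw [hwb, h2]
            · rw [h3 w hwa hwb, h5]
    rw [h4, Finset.card_insert_of_notMem, Finset.card_insert_of_notMem]
    · rw [Perm.mem_support, not_not]
      exact h2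
    · rw [Finset.mem_insert, Perm.mem_support, not_or, not_not]
      exact ⟨hne, h1⟩

/-! ### the statement and the reductions -/

def P (x y : Perm α) : Prop := ∃ z : Perm α, z * z = 1 ∧ (∀ w, x w = w → y w = w → z w = w) ∧ OddP (x * z) ∧ OddP (y * z)

theorem P.symm {x y : Perm α} (h : P x y) : P y x := by
  obtain ⟨z, h1, h2, h3, h4⟩ := h
  exact ⟨z, h1, fun w hy hx => h2 w hx hy, h4, h3⟩

def emb {m : ℕ} (v : Fin m → α) (h : Function.Injective v) : Fin m ↪ α := ⟨v, h⟩

theorem mul_self_of_comm {z' s : Perm α} (hz : z' * z' = 1) (hs : s * s = 1) (hc : z' * s = s * z') : (z' * s) * (z' * s) = 1 := by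
  calc (z' * s) * (z' * s) = z' * (s * z') * s := by group
    _ = (z' * z') * (s * s) := by rw [← hc]; group
    _ = 1 := by rw [hz, hs, one_mul]

/-- removing the end of a path -/
theorem caseE {x y : Perm α} {p1 p2 p3 : α} (h12 : p1 ≠ p2) (h13 : p1 ≠ p3) (h23 : p2 ≠ p3) {x' y' : Perm α}
    (hx : x = x' * swap p2 p3) (hx2 : x' p2 = p2) (hx3 : x' p3 = p3) (hy : y = y' * swap p1 p2) (hy1 : y' p1 = p1) (hy2 : y' p2 = p2) (hy3 : y' p3 = p3)
    (h : P x' y') : P x y := by
  obtain ⟨z', hz, hfix, ho1, ho2⟩ := h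
  have hinj : Function.Injective ![p1, p2, p3] := by
    intro i j hij
    fin_cases i <;> fin_cases j <;> first | rfl | (exfalso; simp at hij; first | exact h12 hij | exact h13 hij | exact h23 hij | exact h12 hij.symm | exact h13 hij.symm | exact h23 hij.symm)
  let e := emb ![p1, p2, p3] hinj
  have e0 : e 0 = p1 := rfl
  have e1 : e 1 = p2 := rfl
  have e2 : e 2 = p3 := rfl
  have z2 : z' p2 = p2 := hfix _ hx2 hy2
  have z3 : z' p3 = p3 := hfix _ hx3 hy3
  have hs23 : swap p2 p3 = L e (swap 1 2) := by rw [L_swap]; rfl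
  have hs12 : swap p1 p2 = L e (swap 0 1) := by rw [L_swap]; rfl
  have hcz : z' * swap p2 p3 = swap p2 p3 * z' := by
    rw [hs23]
    apply L_comm
    intro i hi
    fin_cases i
    · exact absurd rfl hi
    · exact z2
    · exact z3
  refine ⟨z' * swap p2 p3, mul_self_of_comm hz (swap_mul_self _ _) hcz, ?_, ?_, ?_⟩
  · intro w hxw hyw
    have hw2 : w ≠ p2 := by
      rintro rfl
      rw [hy, Perm.mul_apply, swap_apply_right, hy1] at hyw
      exact h12 hyw
    have hw3 : w ≠ p3 := by
      rintro rfl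
      rw [hx, Perm.mul_apply, swap_apply_right, hx2] at hxw
      exact h23 hxw
    have hw1 : w ≠ p1 := by
      rintro rfl
      rw [hy, Perm.mul_apply, swap_apply_left, hy2] at hyw
      exact h12 hyw.symm
    rw [Perm.mul_apply, swap_apply_of_ne_of_ne hw2 hw3]
    apply hfix
    · rw [hx, Perm.mul_apply, swap_apply_of_ne_of_ne hw2 hw3] at hxw
      exact hxw
    · rw [hy, Perm.mul_apply, swap_apply_of_ne_of_ne hw1 hw2] at hyw
      exact hyw
  · have : x * (z' * swap p2 p3) = x' * z' := by
      rw [hx, hcz]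
      calc x' * swap p2 p3 * (swap p2 p3 * z') = x' * (swap p2 p3 * swap p2 p3) * z' := by group
        _ = x' * z' := by rw [swap_mul_self, mul_one]
    rw [this]
    exact ho1
  · apply odd_step e y y' y' _ z' (swap 0 1) 1 (swap 1 2) (by rw [hy, hs12]) (by rw [map_one, mul_one])
    · intro i hi
      fin_cases i
      · exact hy1
      · exact hy2
      · exact absurd rfl hi
    · intro i hi
      exact absurd rfl hi
    · rfl
    · rw [hs23]
    · have : (swap 1 2 * swap 0 1 * 1 : Perm (Fin 3)) = cyc 0 2 1 := by decide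
      rw [this]
      apply ext3L e ho2 (by decide) (by decide) (by decide)
      · rw [e2, Perm.mul_apply, z3, hy3]
      · rw [e1, Perm.mul_apply, z2, hy2]

theorem fix_of_P {x' y' z' : Perm α} (hfix : ∀ w, x' w = w → y' w = w → z' w = w) {w : α} (h : x' w = w ∧ y' w = w) : z' w = w := hfix w h.1 h.2

/-- the general reduction -/
theorem glueP {m : ℕ} (e : Fin m ↪ α) (N : Fin m → Prop) {x y x' y' x'' y'' : Perm α} (πx πx' πy πy' κ : Perm (Fin m))
    (hx : x = x'' * L e πx) (hx' : x' = x'' * L e πx') (hcx : ∀ i, πx i ≠ i → x'' (e i) = e i) (hcx' : ∀ i, πx' i ≠ i → x'' (e i) = e i) (hπx' : πx' * πx' = 1)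
    (hy : y = y'' * L e πy) (hy' : y' = y'' * L e πy') (hcy : ∀ i, πy i ≠ i → y'' (e i) = e i) (hcy' : ∀ i, πy' i ≠ i → y'' (e i) = e i) (hπy' : πy' * πy' = 1)
    (hmv : ∀ i, πx i ≠ i ∨ πy i ≠ i) (hκ : κ * κ = 1) (hN : ∀ i, N i → x' (e i) = e i ∧ y' (e i) = e i) (hκN : ∀ i, κ i ≠ i → N i)
    (hox : ∀ σ : Perm α, (∀ i, N i → σ (e i) = e i) → OddP σ → OddP (σ * L e (κ * πx * πx')))
    (hoy : ∀ σ : Perm α, (∀ i, N i → σ (e i) = e i) → OddP σ → OddP (σ * L e (κ * πy * πy')))
    (h : P x' y') : P x y := by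
  obtain ⟨z', hz, hfix, ho1, ho2⟩ := h
  have hzN : ∀ i, N i → z' (e i) = e i := fun i hi => hfix _ (hN i hi).1 (hN i hi).2
  have hcz : z' * L e κ = L e κ * z' := L_comm e κ z' fun i hi => hzN i (hκN i hi)
  refine ⟨z' * L e κ, mul_self_of_comm hz (by rw [← map_mul, hκ, map_one]) hcz, ?_, ?_, ?_⟩
  · intro w hxw hyw
    have hw : ∀ i, w ≠ e i := by
      rintro i rfl
      rcases hmv i with h1 | h1
      · rw [hx, Perm.mul_apply, L_apply, hcx _ (fun h2 => h1 (πx.injective h2))] at hxw
        exact h1 (e.injective hxw)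
      · rw [hy, Perm.mul_apply, L_apply, hcy _ (fun h2 => h1 (πy.injective h2))] at hyw
        exact h1 (e.injective hyw)
    rw [Perm.mul_apply, L_not e _ _ hw]
    apply hfix
    · rw [hx, Perm.mul_apply, L_not e _ _ hw] at hxw
      rw [hx', Perm.mul_apply, L_not e _ _ hw, hxw]
    · rw [hy, Perm.mul_apply, L_not e _ _ hw] at hyw
      rw [hy', Perm.mul_apply, L_not e _ _ hw, hyw]
  · apply odd_step e x x' x'' _ z' πx πx' κ hx hx' hcx hcx' hπx' rfl
    apply hox _ _ ho1
    intro i hi
    rw [Perm.mul_apply, hzN i hi, (hN i hi).1]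
  · apply odd_step e y y' y'' _ z' πy πy' κ hy hy' hcy hcy' hπy' rfl
    apply hoy _ _ ho2
    intro i hi
    rw [Perm.mul_apply, hzN i hi, (hN i hi).2]

/-- a common transposition -/
theorem caseA {x y : Perm α} {v : Fin 2 → α} (hv : Function.Injective v) {x' y' : Perm α}
    (hx : x = x' * swap (v 0) (v 1)) (hx0 : x' (v 0) = v 0) (hx1 : x' (v 1) = v 1) (hy : y = y' * swap (v 0) (v 1)) (hy0 : y' (v 0) = v 0) (hy1 : y' (v 1) = v 1)
    (h : P x' y') : P x y := by
  have hx01 : ∀ i : Fin 2, x' (emb v hv i) = emb v hv i := by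
    intro i; fin_cases i
    · exact hx0
    · exact hx1
  have hy01 : ∀ i : Fin 2, y' (emb v hv i) = emb v hv i := by
    intro i; fin_cases i
    · exact hy0
    · exact hy1
  apply glueP (emb v hv) (fun _ => True) (swap 0 1) 1 (swap 0 1) 1 (swap 0 1) (x'' := x') (y'' := y')
    (by rw [hx, L_swap]; rfl) (by rw [map_one, mul_one]) (fun i _ => hx01 i) (fun i _ => hx01 i) rfl
    (by rw [hy, L_swap]; rfl) (by rw [map_one, mul_one]) (fun i _ => hy01 i) (fun i _ => hy01 i) rfl
    (by decide) (by decide) (fun i _ => ⟨hx01 i, hy01 i⟩) (fun _ _ => trivial) _ _ h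
  · intro σ _ hσ
    have : (swap 0 1 * swap 0 1 * 1 : Perm (Fin 2)) = 1 := by decide
    rw [this, map_one, mul_one]
    exact hσ
  · intro σ _ hσ
    have : (swap 0 1 * swap 0 1 * 1 : Perm (Fin 2)) = 1 := by decide
    rw [this, map_one, mul_one]
    exact hσ

/-- a pair of paths of length one -/
theorem casePair {x y : Perm α} {v : Fin 4 → α} (hv : Function.Injective v) {x' y' : Perm α}
    (hx : x = x' * swap (v 0) (v 1)) (hxf : ∀ i, x' (v i) = v i) (hy : y = y' * swap (v 2) (v 3)) (hyf : ∀ i, y' (v i) = v i)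
    (h : P x' y') : P x y := by
  apply glueP (emb v hv) (fun _ => True) (swap 0 1) 1 (swap 2 3) 1 (swap 1 2) (x'' := x') (y'' := y')
    (by rw [hx, L_swap]; rfl) (by rw [map_one, mul_one]) (fun i _ => hxf i) (fun i _ => hxf i) rfl
    (by rw [hy, L_swap]; rfl) (by rw [map_one, mul_one]) (fun i _ => hyf i) (fun i _ => hyf i) rfl
    (by decide) (by decide) (fun i _ => ⟨hxf i, hyf i⟩) (fun _ _ => trivial) _ _ h
  · intro σ hN hσ
    have : (swap 1 2 * swap 0 1 * 1 : Perm (Fin 4)) = cyc 0 2 1 := by decide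
    rw [this]
    exact ext3L _ hσ (by decide) (by decide) (by decide) (hN _ trivial) (hN _ trivial)
  · intro σ hN hσ
    have : (swap 1 2 * swap 2 3 * 1 : Perm (Fin 4)) = cyc 1 2 3 := by decide
    rw [this]
    exact ext3L _ hσ (by decide) (by decide) (by decide) (hN _ trivial) (hN _ trivial)

/-- contracting four vertices -/
theorem caseC {x y : Perm α} {v : Fin 6 → α} (hv : Function.Injective v) {x' y' y'' : Perm α}
    (hx : x = x' * swap (v 2) (v 3) * swap (v 0) (v 1)) (hxf : ∀ i : Fin 6, (i : ℕ) < 4 → x' (v i) = v i)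
    (hy : y = y'' * swap (v 3) (v 5) * swap (v 1) (v 2) * swap (v 0) (v 4)) (hyf : ∀ i : Fin 6, y'' (v i) = v i) (hy' : y' = y'' * swap (v 4) (v 5))
    (h : P x' y') : P x y := by
  have hyf' : ∀ i : Fin 6, (i : ℕ) < 4 → y' (v i) = v i := by
    intro i hi
    rw [hy', Perm.mul_apply, swap_apply_of_ne_of_ne, hyf]
    · exact hv.ne (by rintro rfl; exact absurd hi (by decide))
    · exact hv.ne (by rintro rfl; exact absurd hi (by decide))
  apply glueP (emb v hv) (fun i => (i : ℕ) < 4) (swap 2 3 * swap 0 1) 1 (swap 3 5 * swap 1 2 * swap 0 4) (swap 4 5) (swap 2 3 * swap 0 1) (x'' := x') (y'' := y'')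
    (by rw [hx, map_mul, L_swap, L_swap, mul_assoc]; rfl) (by rw [map_one, mul_one]) (fun i hi => hxf i ?_) (fun i hi => absurd rfl hi) rfl
    (by rw [hy, map_mul, map_mul, L_swap, L_swap, L_swap, mul_assoc, mul_assoc, mul_assoc]; rfl) (by rw [hy', L_swap]; rfl) (fun i _ => hyf i) (fun i _ => hyf i) (by decide)
    (by decide) (by decide) (fun i hi => ⟨hxf i hi, hyf' i hi⟩) (by decide) _ _ h
  · intro σ hN hσ
    have : (swap 2 3 * swap 0 1 * (swap 2 3 * swap 0 1) * 1 : Perm (Fin 6)) = 1 := by decide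
    rw [this, map_one, mul_one]
    exact hσ
  · intro σ hN hσ
    have : (swap 2 3 * swap 0 1 * (swap 3 5 * swap 1 2 * swap 0 4) * swap 4 5 : Perm (Fin 6)) = cyc 4 2 0 * cyc 5 1 3 := by decide
    rw [this, map_mul, ← mul_assoc]
    apply ext3L _ _ (by decide) (by decide) (by decide)
    · rw [Perm.mul_apply, L_apply]
      exact hN 1 (by decide)
    · rw [Perm.mul_apply, L_apply]
      exact hN 3 (by decide)
    · exact ext3L _ hσ (by decide) (by decide) (by decide) (hN _ (by decide)) (hN _ (by decide))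
  · revert i
    decide

/-- absorbing a four-cycle into a transposition of `z` -/
theorem caseB {x y : Perm α} {v : Fin 4 → α} (hv : Function.Injective v) {x' y' : Perm α} (hx'1 : x' ≠ 1) (hx'2 : x' * x' = 1)
    (hx : x = x' * swap (v 2) (v 3) * swap (v 0) (v 1)) (hxf : ∀ i, x' (v i) = v i)
    (hy : y = y' * swap (v 3) (v 0) * swap (v 1) (v 2)) (hyf : ∀ i, y' (v i) = v i)
    (h : P x' y') : P x y := by
  obtain ⟨z', hz, hfix, ho1, ho2⟩ := h
  have hzf : ∀ i, z' (v i) = v i := fun i => hfix _ (hxf i) (hyf i)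
  have hz1 : z' ≠ 1 := by
    intro h1
    rw [h1, mul_one] at ho1
    apply hx'1
    have h2 : orderOf x' ∣ 2 := orderOf_dvd_of_pow_eq_one (by rw [sq, hx'2])
    rcases (Nat.dvd_prime Nat.prime_two).1 h2 with h3 | h3
    · exact orderOf_eq_one_iff.1 h3
    · rw [OddP, h3] at ho1
      exact absurd ho1 (by decide)
  obtain ⟨u, hu⟩ : ∃ u, z' u ≠ u := by
    by_contra hcon
    push Not at hcon
    exact hz1 (Equiv.ext hcon)
  obtain ⟨w, hw⟩ : ∃ w, z' u = w := ⟨_, rfl⟩
  rw [hw] at hu
  have hwu : z' w = u := by rw [← hw, ← Perm.mul_apply, hz, Perm.one_apply]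
  have huv : ∀ i, u ≠ v i := by
    rintro i rfl
    rw [hzf] at hw
    exact hu hw.symm
  have hwv : ∀ i, w ≠ v i := by
    rintro i rfl
    rw [hzf] at hwu
    exact hu hwu
  obtain ⟨r1, r2, r3, r4, -⟩ := rem hz hw (Ne.symm hu)
  set z'' := z' * swap u w with hz''
  let v6 : Fin 6 → α := ![v 0, v 1, v 2, v 3, u, w]
  have hv6 : Function.Injective v6 := by
    intro i j hij
    fin_cases i <;> fin_cases j <;> first
      | rfl
      | (exfalso; first
        | exact absurd (hv hij) (by decide)
        | exact huv _ hij.symm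
        | exact huv _ hij
        | exact hwv _ hij.symm
        | exact hwv _ hij
        | exact hu hij
        | exact hu hij.symm)
  let e := emb v6 hv6
  have hx6 : ∀ i : Fin 6, (i : ℕ) < 4 → x' (e i) = e i := by
    intro i hi
    fin_cases i
    · exact hxf 0
    · exact hxf 1
    · exact hxf 2
    · exact hxf 3
    · exact absurd hi (by decide)
    · exact absurd hi (by decide)
  have hy6 : ∀ i : Fin 6, (i : ℕ) < 4 → y' (e i) = e i := by
    intro i hi
    fin_cases i
    · exact hyf 0
    · exact hyf 1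
    · exact hyf 2
    · exact hyf 3
    · exact absurd hi (by decide)
    · exact absurd hi (by decide)
  have hz6 : ∀ i : Fin 6, (i : ℕ) < 4 → z' (e i) = e i := fun i hi => hfix _ (hx6 i hi) (hy6 i hi)
  have hz'6 : ∀ i : Fin 6, z'' (e i) = e i := by
    intro i
    fin_cases i
    · exact (r4 _ (Ne.symm (huv 0)) (Ne.symm (hwv 0))).trans (hzf 0)
    · exact (r4 _ (Ne.symm (huv 1)) (Ne.symm (hwv 1))).trans (hzf 1)
    · exact (r4 _ (Ne.symm (huv 2)) (Ne.symm (hwv 2))).trans (hzf 2)
    · exact (r4 _ (Ne.symm (huv 3)) (Ne.symm (hwv 3))).trans (hzf 3)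
    · exact r2
    · exact r3
  have hsw : swap u w = L e (swap 4 5) := by rw [L_swap]; rfl
  have hzz : z' = z'' * L e (swap 4 5) := by
    rw [← hsw, hz'', mul_assoc, swap_mul_self, mul_one]
  have hzz2 : z'' * L e (swap 4 0 * swap 5 2 * swap 1 3) = z' * L e (swap 4 5 * swap 4 0 * swap 5 2 * swap 1 3) := by
    rw [hz'', hsw, mul_assoc, ← map_mul]
    congr 2
  have hcz : z'' * L e (swap 4 0 * swap 5 2 * swap 1 3) = L e (swap 4 0 * swap 5 2 * swap 1 3) * z'' := L_comm e _ _ fun i _ => hz'6 i
  refine ⟨z'' * L e (swap 4 0 * swap 5 2 * swap 1 3), mul_self_of_comm r1 (by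
    have h1 : (swap 4 0 * swap 5 2 * swap 1 3 : Perm (Fin 6)) * (swap 4 0 * swap 5 2 * swap 1 3) = 1 := by decide
    rw [← map_mul, h1, map_one]) hcz, ?_, ?_, ?_⟩
  · intro p hxp hyp
    have hp : ∀ i : Fin 4, p ≠ v i := by
      rintro i rfl
      rw [hx, Perm.mul_apply, Perm.mul_apply] at hxp
      fin_cases i
      · rw [show ((⟨0, by decide⟩ : Fin 4)) = 0 from rfl, swap_apply_left, swap_apply_of_ne_of_ne (hv.ne (by decide)) (hv.ne (by decide)), hxf] at hxp
        exact absurd (hv hxp) (by decide)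
      · rw [show ((⟨1, by decide⟩ : Fin 4)) = 1 from rfl, swap_apply_right, swap_apply_of_ne_of_ne (hv.ne (by decide)) (hv.ne (by decide)), hxf] at hxp
        exact absurd (hv hxp) (by decide)
      · rw [show ((⟨2, by decide⟩ : Fin 4)) = 2 from rfl, swap_apply_of_ne_of_ne (hv.ne (by decide)) (hv.ne (by decide)), swap_apply_left, hxf] at hxp
        exact absurd (hv hxp) (by decide)
      · rw [show ((⟨3, by decide⟩ : Fin 4)) = 3 from rfl, swap_apply_of_ne_of_ne (hv.ne (by decide)) (hv.ne (by decide)), swap_apply_right, hxf] at hxp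
        exact absurd (hv hxp) (by decide)
    have hx'p : x' p = p := by
      rw [hx, Perm.mul_apply, Perm.mul_apply, swap_apply_of_ne_of_ne (hp 0) (hp 1), swap_apply_of_ne_of_ne (hp 2) (hp 3)] at hxp
      exact hxp
    have hy'p : y' p = p := by
      rw [hy, Perm.mul_apply, Perm.mul_apply, swap_apply_of_ne_of_ne (hp 1) (hp 2), swap_apply_of_ne_of_ne (hp 3) (hp 0)] at hyp
      exact hyp
    have hz'p : z' p = p := hfix p hx'p hy'p
    have hpu : p ≠ u := by
      rintro rfl
      rw [hw] at hz'p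
      exact hu hz'p
    have hpw : p ≠ w := by
      rintro rfl
      rw [hwu] at hz'p
      exact hu hz'p.symm
    rw [Perm.mul_apply, L_not, r4 p hpu hpw, hz'p]
    intro i
    fin_cases i
    · exact hp 0
    · exact hp 1
    · exact hp 2
    · exact hp 3
    · exact hpu
    · exact hpw
  · apply odd_step e x x' x' _ z' (swap 2 3 * swap 0 1) 1 (swap 4 5 * swap 4 0 * swap 5 2 * swap 1 3) (by rw [hx, map_mul, L_swap, L_swap, mul_assoc]; rfl) (by rw [map_one, mul_one])
      (fun i hi => hx6 i ?_) (fun i hi => absurd rfl hi) rfl hzz2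
    · have : (swap 4 5 * swap 4 0 * swap 5 2 * swap 1 3 * (swap 2 3 * swap 0 1) * 1 : Perm (Fin 6)) = cyc 4 0 3 * cyc 5 2 1 := by decide
      rw [this, map_mul, ← mul_assoc]
      apply ext3L _ _ (by decide) (by decide) (by decide)
      · rw [Perm.mul_apply, L_apply]
        show (x' * z') (e 2) = e 2
        rw [Perm.mul_apply, hz6 2 (by decide), hx6 2 (by decide)]
      · rw [Perm.mul_apply, L_apply]
        show (x' * z') (e 1) = e 1
        rw [Perm.mul_apply, hz6 1 (by decide), hx6 1 (by decide)]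
      · apply ext3L _ ho1 (by decide) (by decide) (by decide)
        · rw [Perm.mul_apply, hz6 0 (by decide), hx6 0 (by decide)]
        · rw [Perm.mul_apply, hz6 3 (by decide), hx6 3 (by decide)]
    · revert i
      decide
  · apply odd_step e y y' y' _ z' (swap 3 0 * swap 1 2) 1 (swap 4 5 * swap 4 0 * swap 5 2 * swap 1 3) (by rw [hy, map_mul, L_swap, L_swap, mul_assoc]; rfl) (by rw [map_one, mul_one])
      (fun i hi => hy6 i ?_) (fun i hi => absurd rfl hi) rfl hzz2
    · have : (swap 4 5 * swap 4 0 * swap 5 2 * swap 1 3 * (swap 3 0 * swap 1 2) * 1 : Perm (Fin 6)) = cyc 4 0 1 * cyc 5 2 3 := by decide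
      rw [this, map_mul, ← mul_assoc]
      apply ext3L _ _ (by decide) (by decide) (by decide)
      · rw [Perm.mul_apply, L_apply]
        show (y' * z') (e 2) = e 2
        rw [Perm.mul_apply, hz6 2 (by decide), hy6 2 (by decide)]
      · rw [Perm.mul_apply, L_apply]
        show (y' * z') (e 3) = e 3
        rw [Perm.mul_apply, hz6 3 (by decide), hy6 3 (by decide)]
      · apply ext3L _ ho2 (by decide) (by decide) (by decide)
        · rw [Perm.mul_apply, hz6 0 (by decide), hy6 0 (by decide)]
        · rw [Perm.mul_apply, hz6 1 (by decide), hy6 1 (by decide)]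
    · revert i
      decide

/-- purely local solutions -/
theorem caseL {m : ℕ} (e : Fin m ↪ α) (πx πy πz : Perm (Fin m)) (hz : πz * πz = 1) (hmv : ∀ i, πx i ≠ i ∨ πy i ≠ i) (k : ℕ) (hk : Odd k)
    (h1 : (πx * πz) ^ k = 1) (h2 : (πy * πz) ^ k = 1) : P (L e πx) (L e πy) := by
  refine ⟨L e πz, by rw [← map_mul, hz, map_one], ?_, ?_, ?_⟩
  · intro w hxw hyw
    apply L_not
    rintro i rfl
    rw [L_apply] at hxw hyw
    rcases hmv i with h | h
    · exact h (e.injective hxw)
    · exact h (e.injective hyw)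
  · exact oddP_of_pow hk (by rw [← map_mul, ← map_pow, h1, map_one])
  · exact oddP_of_pow hk (by rw [← map_mul, ← map_pow, h2, map_one])

/-- two four-cycles -/
theorem caseB2 {v : Fin 8 → α} (hv : Function.Injective v) :
    P (swap (v 6) (v 7) * swap (v 4) (v 5) * swap (v 2) (v 3) * swap (v 0) (v 1)) (swap (v 7) (v 4) * swap (v 5) (v 6) * swap (v 3) (v 0) * swap (v 1) (v 2)) := by
  have h := caseL (emb v hv) (swap 6 7 * swap 4 5 * swap 2 3 * swap 0 1) (swap 7 4 * swap 5 6 * swap 3 0 * swap 1 2) (swap 0 1 * swap 5 6 * swap 2 4 * swap 3 7)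
    (by decide) (by decide) 3 (by decide) (by decide +kernel) (by decide +kernel)
  rw [map_mul, map_mul, map_mul, map_mul, map_mul, map_mul, L_swap, L_swap, L_swap, L_swap, L_swap, L_swap, L_swap, L_swap] at h
  exact h

/-- an eight-cycle -/
theorem caseC4 {v : Fin 8 → α} (hv : Function.Injective v) :
    P (swap (v 4) (v 5) * swap (v 6) (v 7) * swap (v 2) (v 3) * swap (v 0) (v 1)) (swap (v 5) (v 6) * swap (v 3) (v 4) * swap (v 1) (v 2) * swap (v 0) (v 7)) := by
  have h := caseL (emb v hv) (swap 4 5 * swap 6 7 * swap 2 3 * swap 0 1) (swap 5 6 * swap 3 4 * swap 1 2 * swap 0 7) (swap 0 1 * swap 3 4 * swap 2 6 * swap 5 7)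
    (by decide) (by decide) 3 (by decide) (by decide +kernel) (by decide +kernel)
  rw [map_mul, map_mul, map_mul, map_mul, map_mul, map_mul, L_swap, L_swap, L_swap, L_swap, L_swap, L_swap, L_swap, L_swap] at h
  exact h

/-- the exceptional pair with an additional point -/
theorem caseBad {v : Fin 5 → α} (hv : Function.Injective v) : ∃ z : Perm α, z * z = 1 ∧ OddP (swap (v 2) (v 3) * swap (v 0) (v 1) * z) ∧ OddP (swap (v 3) (v 0) * swap (v 1) (v 2) * z) := by
  refine ⟨swap (v 1) (v 2) * swap (v 0) (v 4), ?_, ?_, ?_⟩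
  · have h : (swap 1 2 * swap 0 4 : Perm (Fin 5)) * (swap 1 2 * swap 0 4) = 1 := by decide
    have h2 := congrArg (L (emb v hv)) h
    rw [map_one (L (emb v hv)), map_mul, map_mul, L_swap, L_swap] at h2
    exact h2
  · have h : (swap 2 3 * swap 0 1 * (swap 1 2 * swap 0 4) : Perm (Fin 5)) ^ 5 = 1 := by decide +kernel
    have h2 := congrArg (L (emb v hv)) h
    rw [map_one (L (emb v hv)), map_pow, map_mul, map_mul, map_mul, L_swap, L_swap, L_swap, L_swap] at h2
    exact oddP_of_pow (by decide) h2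
  · have h : (swap 3 0 * swap 1 2 * (swap 1 2 * swap 0 4) : Perm (Fin 5)) ^ 3 = 1 := by decide +kernel
    have h2 := congrArg (L (emb v hv)) h
    rw [map_one (L (emb v hv)), map_pow, map_mul, map_mul, map_mul, L_swap, L_swap, L_swap] at h2
    exact oddP_of_pow (by decide) h2

/-! ### the induction -/

def Bad (x y : Perm α) : Prop := ∃ v : Fin 4 → α, Function.Injective v ∧ x = swap (v 2) (v 3) * swap (v 0) (v 1) ∧ y = swap (v 3) (v 0) * swap (v 1) (v 2)

def C2 (x y : Perm α) : Prop := ∃ v : Fin 4 → α, Function.Injective v ∧ x (v 0) = v 1 ∧ x (v 2) = v 3 ∧ y (v 1) = v 2 ∧ y (v 3) = v 0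

theorem Bad.facts {x y : Perm α} {v : Fin 4 → α} (hv : Function.Injective v) (hx : x = swap (v 2) (v 3) * swap (v 0) (v 1)) (hy : y = swap (v 3) (v 0) * swap (v 1) (v 2)) :
    x (v 0) = v 1 ∧ x (v 1) = v 0 ∧ x (v 2) = v 3 ∧ x (v 3) = v 2 ∧ y (v 1) = v 2 ∧ y (v 2) = v 1 ∧ y (v 3) = v 0 ∧ y (v 0) = v 3 := by
  have h01 : v 0 ≠ v 1 := hv.ne (by decide)
  have h02 : v 0 ≠ v 2 := hv.ne (by decide)
  have h03 : v 0 ≠ v 3 := hv.ne (by decide)
  have h12 : v 1 ≠ v 2 := hv.ne (by decide)
  have h13 : v 1 ≠ v 3 := hv.ne (by decide)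
  have h23 : v 2 ≠ v 3 := hv.ne (by decide)
  rw [hx, hy]
  refine ⟨?_, ?_, ?_, ?_, ?_, ?_, ?_, ?_⟩
  · rw [Perm.mul_apply, swap_apply_left, swap_apply_of_ne_of_ne h12 h13]
  · rw [Perm.mul_apply, swap_apply_right, swap_apply_of_ne_of_ne h02 h03]
  · rw [Perm.mul_apply, swap_apply_of_ne_of_ne h02.symm h12.symm, swap_apply_left]
  · rw [Perm.mul_apply, swap_apply_of_ne_of_ne h03.symm h13.symm, swap_apply_right]
  · rw [Perm.mul_apply, swap_apply_left, swap_apply_of_ne_of_ne h23 h02.symm]
  · rw [Perm.mul_apply, swap_apply_right, swap_apply_of_ne_of_ne h13 h01.symm]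
  · rw [Perm.mul_apply, swap_apply_of_ne_of_ne h13.symm h23.symm, swap_apply_left]
  · rw [Perm.mul_apply, swap_apply_of_ne_of_ne h01 h02, swap_apply_right]

theorem not_bad {x y x' y' : Perm α} (hC : ¬ C2 x y) (h : ∀ p, x' p ≠ p → y' p ≠ p → x p = x' p ∧ y p = y' p) : ¬ Bad x' y' := by
  rintro ⟨v, hv, hx, hy⟩
  obtain ⟨a1, a2, a3, a4, b1, b2, b3, b4⟩ := Bad.facts hv hx hy
  apply hC
  have h01 : v 0 ≠ v 1 := hv.ne (by decide)
  have h03 : v 0 ≠ v 3 := hv.ne (by decide)
  have h12 : v 1 ≠ v 2 := hv.ne (by decide)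
  have h23 : v 2 ≠ v 3 := hv.ne (by decide)
  refine ⟨v, hv, ?_, ?_, ?_, ?_⟩
  · rw [(h (v 0) (by rw [a1]; exact h01.symm) (by rw [b4]; exact h03.symm)).1, a1]
  · rw [(h (v 2) (by rw [a3]; exact h23.symm) (by rw [b2]; exact h12)).1, a3]
  · rw [(h (v 1) (by rw [a2]; exact h01) (by rw [b1]; exact h12.symm)).2, b1]
  · rw [(h (v 3) (by rw [a4]; exact h23) (by rw [b3]; exact h03)).2, b3]

theorem swap_comm4 {a b c d : α} (h1 : a ≠ c) (h2 : a ≠ d) (h3 : b ≠ c) (h4 : b ≠ d) : swap a b * swap c d = swap c d * swap a b := by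
  apply (Perm.Disjoint.commute _)
  intro p
  by_cases hpa : p = a
  · right; rw [hpa, swap_apply_of_ne_of_ne h1 h2]
  · by_cases hpb : p = b
    · right; rw [hpb, swap_apply_of_ne_of_ne h3 h4]
    · left; exact swap_apply_of_ne_of_ne hpa hpb

theorem Bad.relabel {x y : Perm α} (h : Bad x y) {a : α} (ha : y a ≠ a) :
    ∃ v : Fin 4 → α, Function.Injective v ∧ x = swap (v 2) (v 3) * swap (v 0) (v 1) ∧ y = swap (v 3) (v 0) * swap (v 1) (v 2) ∧ v 1 = a := by
  obtain ⟨v, hv, hx, hy⟩ := h
  have h01 : v 0 ≠ v 1 := hv.ne (by decide)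
  have h02 : v 0 ≠ v 2 := hv.ne (by decide)
  have h03 : v 0 ≠ v 3 := hv.ne (by decide)
  have h12 : v 1 ≠ v 2 := hv.ne (by decide)
  have h13 : v 1 ≠ v 3 := hv.ne (by decide)
  have h23 : v 2 ≠ v 3 := hv.ne (by decide)
  have key : a = v 1 ∨ a = v 2 ∨ a = v 3 ∨ a = v 0 := by
    by_contra hcon
    push Not at hcon
    apply ha
    rw [hy, Perm.mul_apply, swap_apply_of_ne_of_ne hcon.1 hcon.2.1, swap_apply_of_ne_of_ne hcon.2.2.1 hcon.2.2.2]
  have hinj : ∀ σ : Perm (Fin 4), Function.Injective (v ∘ σ) := fun σ => hv.comp σ.injective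
  rcases key with rfl | rfl | rfl | rfl
  · exact ⟨v, hv, hx, hy, rfl⟩
  · refine ⟨v ∘ (swap 0 3 * swap 1 2 : Perm (Fin 4)), hinj _, ?_, ?_, rfl⟩
    · rw [hx]
      show _ = swap (v 1) (v 0) * swap (v 3) (v 2)
      rw [swap_comm (v 1) (v 0), swap_comm (v 3) (v 2)]
      exact swap_comm4 h02.symm h12.symm h03.symm h13.symm
    · rw [hy]
      show _ = swap (v 0) (v 3) * swap (v 2) (v 1)
      rw [swap_comm (v 0) (v 3), swap_comm (v 2) (v 1)]
  · refine ⟨v ∘ (swap 0 2 * swap 1 3 : Perm (Fin 4)), hinj _, ?_, ?_, rfl⟩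
    · rw [hx]
      show _ = swap (v 0) (v 1) * swap (v 2) (v 3)
      exact swap_comm4 h02.symm h12.symm h03.symm h13.symm
    · rw [hy]
      show _ = swap (v 1) (v 2) * swap (v 3) (v 0)
      exact swap_comm4 h13.symm h23.symm h01 h02
  · refine ⟨v ∘ (swap 0 1 * swap 2 3 : Perm (Fin 4)), hinj _, ?_, ?_, rfl⟩
    · rw [hx]
      show _ = swap (v 3) (v 2) * swap (v 1) (v 0)
      rw [swap_comm (v 3) (v 2), swap_comm (v 1) (v 0)]
    · rw [hy]
      show _ = swap (v 2) (v 1) * swap (v 0) (v 3)
      rw [swap_comm (v 2) (v 1), swap_comm (v 0) (v 3)]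
      exact swap_comm4 h13.symm h23.symm h01 h02

theorem fixm {ρ : Perm α} {a b w : α} (h : ρ w = w) (ha : w ≠ a) (hb : w ≠ b) : (ρ * swap a b) w = w := by
  rw [Perm.mul_apply, swap_apply_of_ne_of_ne ha hb, h]

theorem apm {ρ : Perm α} {a b w c : α} (h : ρ w = c) (ha : w ≠ a) (hb : w ≠ b) : (ρ * swap a b) w = c := by
  rw [Perm.mul_apply, swap_apply_of_ne_of_ne ha hb, h]

theorem msm (ρ : Perm α) (a b : α) : ρ * swap a b * swap a b = ρ := by rw [mul_assoc, swap_mul_self, mul_one]

theorem main (m : ℕ) : ∀ x y : Perm α, x * x = 1 → y * y = 1 → x.support.card = m → y.support.card = m → ¬ Bad x y → P x y := by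
  induction m using Nat.strong_induction_on with
  | _ m ih =>
  intro x y hx hy hcx hcy hbad
  have hxx : ∀ w, x (x w) = w := fun w => by rw [← Perm.mul_apply, hx, Perm.one_apply]
  have hyy : ∀ w, y (y w) = w := fun w => by rw [← Perm.mul_apply, hy, Perm.one_apply]
  by_cases hm : m = 0
  · rw [hm, Finset.card_eq_zero, Perm.support_eq_empty_iff] at hcx hcy
    refine ⟨1, one_mul 1, fun w _ _ => rfl, ?_, ?_⟩
    · rw [hcx, OddP, one_mul, orderOf_one]; exact odd_one
    · rw [hcy, OddP, one_mul, orderOf_one]; exact odd_one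
  by_cases hC : C2 x y
  · -- there is a four-cycle
    obtain ⟨v, hv, a1, a2, a3, a4⟩ := hC
    have h01 : v 0 ≠ v 1 := hv.ne (by decide)
    have h02 : v 0 ≠ v 2 := hv.ne (by decide)
    have h03 : v 0 ≠ v 3 := hv.ne (by decide)
    have h12 : v 1 ≠ v 2 := hv.ne (by decide)
    have h13 : v 1 ≠ v 3 := hv.ne (by decide)
    have h23 : v 2 ≠ v 3 := hv.ne (by decide)
    obtain ⟨r1, r2, r3, r4, r5⟩ := rem hx a1 h01
    obtain ⟨s1, s2, s3, s4, s5⟩ := rem r1 (apm a2 h02.symm h12.symm) h23
    obtain ⟨t1, t2, t3, t4, t5⟩ := rem hy a3 h12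
    obtain ⟨u1, u2, u3, u4, u5⟩ := rem t1 (apm a4 h13.symm h23.symm) h03.symm
    obtain ⟨x', hx'⟩ : ∃ x', x' = x * swap (v 0) (v 1) * swap (v 2) (v 3) := ⟨_, rfl⟩
    obtain ⟨y', hy'⟩ : ∃ y', y' = y * swap (v 1) (v 2) * swap (v 3) (v 0) := ⟨_, rfl⟩
    rw [← hx'] at s1 s2 s3 s4 s5
    rw [← hy'] at u1 u2 u3 u4 u5
    have ex : x = x' * swap (v 2) (v 3) * swap (v 0) (v 1) := by rw [hx', msm, msm]
    have ey : y = y' * swap (v 3) (v 0) * swap (v 1) (v 2) := by rw [hy', msm, msm]
    have fx : ∀ i, x' (v i) = v i := by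
      intro i; fin_cases i
      · exact (s4 _ h02 h03).trans r2
      · exact (s4 _ h12 h13).trans r3
      · exact s2
      · exact s3
    have fy : ∀ i, y' (v i) = v i := by
      intro i; fin_cases i
      · exact u3
      · exact (u4 _ h13 h01.symm).trans t2
      · exact (u4 _ h23 h02.symm).trans t3
      · exact u2
    have cx : x'.support.card + 4 = m := by omega
    have cy : y'.support.card + 4 = m := by omega
    by_cases hx1 : x' = 1
    · exfalso
      apply hbad
      have hy1 : y' = 1 := by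
        rw [← Perm.support_eq_empty_iff, ← Finset.card_eq_zero]
        rw [hx1, Perm.support_one, Finset.card_empty] at cx
        omega
      exact ⟨v, hv, by rw [ex, hx1, one_mul], by rw [ey, hy1, one_mul]⟩
    · by_cases hb : Bad x' y'
      · obtain ⟨w, hw, e1, e2⟩ := hb
        have hvw : ∀ i j, v i ≠ w j := by
          intro i j h
          have h1 := fx i
          obtain ⟨b1, b2, b3, b4, -⟩ := Bad.facts hw e1 e2
          rw [h] at h1
          fin_cases j
          · exact absurd (hw (b1.symm.trans h1)) (by decide)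
          · exact absurd (hw (b2.symm.trans h1)) (by decide)
          · exact absurd (hw (b3.symm.trans h1)) (by decide)
          · exact absurd (hw (b4.symm.trans h1)) (by decide)
        let v8 : Fin 8 → α := ![v 0, v 1, v 2, v 3, w 0, w 1, w 2, w 3]
        have hv8 : Function.Injective v8 := by
          intro i j hij
          fin_cases i <;> fin_cases j <;> first
            | rfl
            | (exfalso; first
              | exact absurd (hv hij) (by decide)
              | exact absurd (hw hij) (by decide)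
              | exact hvw _ _ hij
              | exact hvw _ _ hij.symm)
        have h8 := caseB2 hv8
        rw [ex, ey, e1, e2]
        exact h8
      · exact caseB hv hx1 s1 ex fx ey fy (ih (m - 4) (by omega) x' y' s1 u1 (by omega) (by omega) hb)
  by_cases hs : x.support = y.support
  · have hsupp : ∀ w, x w ≠ w ↔ y w ≠ w := by
      intro w
      rw [← Perm.mem_support, hs, Perm.mem_support]
    obtain ⟨p0, hp0⟩ : x.support.Nonempty := by
      rw [← Finset.card_pos]; omega
    rw [Perm.mem_support] at hp0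
    obtain ⟨p1, e1⟩ : ∃ p, x p0 = p := ⟨_, rfl⟩
    have e1' : x p1 = p0 := by rw [← e1, hxx]
    have h01 : p0 ≠ p1 := by rw [← e1]; exact hp0.symm
    have hp1 : y p1 ≠ p1 := (hsupp p1).1 (by rw [e1']; exact h01)
    obtain ⟨p2, e2⟩ : ∃ p, y p1 = p := ⟨_, rfl⟩
    have e2' : y p2 = p1 := by rw [← e2, hyy]
    have h12 : p1 ≠ p2 := by rw [← e2]; exact hp1.symm
    by_cases h02 : p0 = p2
    · -- a common transposition
      rw [← h02] at e2 e2'
      obtain ⟨r1, r2, r3, r4, r5⟩ := rem hx e1 h01
      obtain ⟨t1, t2, t3, t4, t5⟩ := rem hy e2' h01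
      have hinj : Function.Injective ![p0, p1] := by
        intro i j hij
        fin_cases i <;> fin_cases j <;> first | rfl | (exfalso; first | exact h01 hij | exact h01 hij.symm)
      refine caseA hinj (x' := x * swap p0 p1) (y' := y * swap p0 p1) (msm _ _ _).symm r2 r3 (msm _ _ _).symm t2 t3
        (ih (m - 2) (by omega) _ _ r1 t1 (by omega) (by omega) (not_bad hC ?_))
      intro p h1 h2
      have hpa : p ≠ p0 := by rintro rfl; exact h1 r2
      have hpb : p ≠ p1 := by rintro rfl; exact h1 r3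
      exact ⟨(r4 p hpa hpb).symm, (t4 p hpa hpb).symm⟩
    · have hp2 : x p2 ≠ p2 := (hsupp p2).2 (by rw [e2']; exact h12)
      obtain ⟨p3, e3⟩ : ∃ p, x p2 = p := ⟨_, rfl⟩
      have e3' : x p3 = p2 := by rw [← e3, hxx]
      have h23 : p2 ≠ p3 := by rw [← e3]; exact hp2.symm
      have h03 : p0 ≠ p3 := by
        rintro h
        rw [← h, e1] at e3'
        exact h12 e3'
      have h13 : p1 ≠ p3 := by
        rintro h
        rw [← h, e1'] at e3'
        exact h02 e3'
      have hp0' : y p0 ≠ p0 := (hsupp p0).1 hp0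
      obtain ⟨a, ea⟩ : ∃ p, y p0 = p := ⟨_, rfl⟩
      have ea' : y a = p0 := by rw [← ea, hyy]
      have h0a : p0 ≠ a := by rw [← ea]; exact hp0'.symm
      have h1a : p1 ≠ a := by
        rintro h
        rw [← h, e2] at ea'
        exact h02 ea'.symm
      have h2a : p2 ≠ a := by
        rintro h
        rw [← h, e2'] at ea'
        exact h01 ea'.symm
      have h3a : p3 ≠ a := by
        rintro h
        rw [← h] at ea'
        apply hC
        refine ⟨![p0, p1, p2, p3], ?_, e1, e3, e2, ea'⟩
        intro i j hij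
        fin_cases i <;> fin_cases j <;> first | rfl | (exfalso; first | exact h01 hij | exact h01 hij.symm | exact h02 hij | exact h02 hij.symm | exact h03 hij | exact h03 hij.symm | exact h12 hij | exact h12 hij.symm | exact h13 hij | exact h13 hij.symm | exact h23 hij | exact h23 hij.symm)
      have hp3 : y p3 ≠ p3 := (hsupp p3).1 (by rw [e3']; exact h23)
      obtain ⟨b, eb⟩ : ∃ p, y p3 = p := ⟨_, rfl⟩
      have eb' : y b = p3 := by rw [← eb, hyy]
      have h3b : p3 ≠ b := by rw [← eb]; exact hp3.symm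
      have h0b : p0 ≠ b := by
        rintro h
        rw [← h, ea] at eb'
        exact h3a eb'.symm
      have h1b : p1 ≠ b := by
        rintro h
        rw [← h, e2] at eb'
        exact h23 eb'
      have h2b : p2 ≠ b := by
        rintro h
        rw [← h, e2'] at eb'
        exact h13 eb'
      have hab : a ≠ b := by
        rintro h
        rw [← h, ea'] at eb'
        exact h03 eb'
      have hinj : Function.Injective ![p0, p1, p2, p3, a, b] := by
        intro i j hij
        fin_cases i <;> fin_cases j <;> first | rfl | (exfalso; first | exact h01 hij | exact h01 hij.symm | exact h02 hij | exact h02 hij.symm | exact h03 hij | exact h03 hij.symm | exact h12 hij | exact h12 hij.symm | exact h13 hij | exact h13 hij.symm | exact h23 hij | exact h23 hij.symm | exact h0a hij | exact h0a hij.symm | exact h1a hij | exact h1a hij.symm | exact h2a hij | exact h2a hij.symm | exact h3a hij | exact h3a hij.symm | exact h0b hij | exact h0b hij.symm | exact h1b hij | exact h1b hij.symm | exact h2b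 hij | exact h2b hij.symm | exact h3b hij | exact h3b hij.symm | exact hab hij | exact hab hij.symm)
      -- removals
      obtain ⟨r1, r2, r3, r4, r5⟩ := rem hx e1 h01
      obtain ⟨s1, s2, s3, s4, s5⟩ := rem r1 (apm e3 (Ne.symm h02) h12.symm) h23
      obtain ⟨t1, t2, t3, t4, t5⟩ := rem hy ea h0a
      obtain ⟨u1, u2, u3, u4, u5⟩ := rem t1 (apm e2 h01.symm h1a) h12
      obtain ⟨w1, w2, w3, w4, w5⟩ := rem u1 (apm (apm eb h03.symm h3a) h13.symm h23.symm) h3b
      obtain ⟨x', hx'⟩ : ∃ x', x' = x * swap p0 p1 * swap p2 p3 := ⟨_, rfl⟩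
      obtain ⟨y'', hy''⟩ : ∃ y'', y'' = y * swap p0 a * swap p1 p2 * swap p3 b := ⟨_, rfl⟩
      rw [← hx'] at s1 s2 s3 s4 s5
      rw [← hy''] at w1 w2 w3 w4 w5
      have ex : x = x' * swap p2 p3 * swap p0 p1 := by rw [hx', msm, msm]
      have ey : y = y'' * swap p3 b * swap p1 p2 * swap p0 a := by rw [hy'', msm, msm, msm]
      have fx : ∀ i : Fin 6, (i : ℕ) < 4 → x' (![p0, p1, p2, p3, a, b] i) = ![p0, p1, p2, p3, a, b] i := by
        intro i hi; fin_cases i
        · exact (s4 _ h02 h03).trans r2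
        · exact (s4 _ h12 h13).trans r3
        · exact s2
        · exact s3
        · exact absurd hi (by decide)
        · exact absurd hi (by decide)
      have fy : ∀ i : Fin 6, y'' (![p0, p1, p2, p3, a, b] i) = ![p0, p1, p2, p3, a, b] i := by
        intro i; fin_cases i
        · exact (w4 _ h03 h0b).trans ((u4 _ h01 h02).trans t2)
        · exact (w4 _ h13 h1b).trans u2
        · exact (w4 _ h23 h2b).trans u3
        · exact w2
        · exact (w4 _ h3a.symm hab).trans ((u4 _ h1a.symm h2a.symm).trans t3)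
        · exact w3
      have fa : y'' a = a := fy 4
      have fb : y'' b = b := fy 5
      have hyab : (y'' * swap a b) a = b := by rw [Perm.mul_apply, swap_apply_left, fb]
      have hcom : y'' * swap a b = swap a b * y'' := by
        apply (Perm.Disjoint.commute _)
        intro p
        by_cases hpa : p = a
        · left; rw [hpa, fa]
        · by_cases hpb : p = b
          · left; rw [hpb, fb]
          · right; exact swap_apply_of_ne_of_ne hpa hpb
      have hyi : (y'' * swap a b) * (y'' * swap a b) = 1 := mul_self_of_comm w1 (swap_mul_self _ _) hcom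
      obtain ⟨-, -, -, -, q5⟩ := rem hyi hyab hab
      rw [msm] at q5
      by_cases hb : Bad x' (y'' * swap a b)
      · obtain ⟨v, hv, g1, g2, g3⟩ := hb.relabel (a := a) (by rw [hyab]; exact hab.symm)
        obtain ⟨b1, b2, b3, b4, b5, b6, b7, b8⟩ := Bad.facts hv g1 g2
        have hv2 : v 2 = b := by rw [← b5, g3, hyab]
        have hv4 : Function.Injective ![p0, p1, p2, p3] := by
          intro i j hij
          fin_cases i <;> fin_cases j <;> first | rfl | (exfalso; first | exact h01 hij | exact h01 hij.symm | exact h02 hij | exact h02 hij.symm | exact h03 hij | exact h03 hij.symm | exact h12 hij | exact h12 hij.symm | exact h13 hij | exact h13 hij.symm | exact h23 hij | exact h23 hij.symm)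
        have hpv : ∀ i j, ![p0, p1, p2, p3] i ≠ v j := by
          intro i j h
          have h1 : x' (![p0, p1, p2, p3] i) = ![p0, p1, p2, p3] i := by
            fin_cases i
            · exact fx 0 (by decide)
            · exact fx 1 (by decide)
            · exact fx 2 (by decide)
            · exact fx 3 (by decide)
          rw [h] at h1
          fin_cases j
          · exact absurd (hv (b1.symm.trans h1)) (by decide)
          · exact absurd (hv (b2.symm.trans h1)) (by decide)
          · exact absurd (hv (b3.symm.trans h1)) (by decide)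
          · exact absurd (hv (b4.symm.trans h1)) (by decide)
        have hv8 : Function.Injective ![p0, p1, p2, p3, v 2, v 3, v 0, v 1] := by
          intro i j hij
          fin_cases i <;> fin_cases j <;> first | rfl | (exfalso; first | exact absurd (hv hij) (by decide) | exact hpv 0 _ hij | exact hpv 1 _ hij | exact hpv 2 _ hij | exact hpv 3 _ hij | exact hpv 0 _ hij.symm | exact hpv 1 _ hij.symm | exact hpv 2 _ hij.symm | exact hpv 3 _ hij.symm | exact h01 hij | exact h01 hij.symm | exact h02 hij | exact h02 hij.symm | exact h03 hij | exact h03 hij.symm | exact h12 hij | exact h12 hij.symm | exact h13 hij | exact h13 hij.symm | exact h23 hij | exact h23 hij.symm)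
        have h8 := caseC4 hv8
        have ey2 : y'' = swap (v 3) (v 0) := by
          rw [hv2, g3] at g2
          exact mul_right_cancel g2
        rw [ex, ey, g1, ey2, ← hv2, ← g3]
        exact h8
      · have hcy' : (y'' * swap a b).support.card = m - 4 := by omega
        exact caseC hinj ex fx ey fy rfl (ih (m - 4) (by omega) _ _ s1 hyi (by omega) hcy' hb)
  · -- the supports differ
    obtain ⟨v, hvx, hvy⟩ : ∃ v, x v ≠ v ∧ y v = v := by
      by_contra hcon
      push Not at hcon
      apply hs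
      apply Finset.eq_of_subset_of_card_le
      · intro w hw
        rw [Perm.mem_support] at hw ⊢
        exact hcon w hw
      · omega
    obtain ⟨v', hvy', hvx'⟩ : ∃ v, y v ≠ v ∧ x v = v := by
      by_contra hcon
      push Not at hcon
      apply hs
      symm
      apply Finset.eq_of_subset_of_card_le
      · intro w hw
        rw [Perm.mem_support] at hw ⊢
        exact hcon w hw
      · omega
    obtain ⟨w, ew⟩ : ∃ p, x v = p := ⟨_, rfl⟩
    have ew' : x w = v := by rw [← ew, hxx]
    have hvw : w ≠ v := by rw [← ew]; exact hvx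
    obtain ⟨w', ew1⟩ : ∃ p, y v' = p := ⟨_, rfl⟩
    have ew1' : y w' = v' := by rw [← ew1, hyy]
    have hvw' : w' ≠ v' := by rw [← ew1]; exact hvy'
    by_cases hyw : y w = w
    · by_cases hxw : x w' = w'
      · -- a pair of short paths
        have d1 : v ≠ v' := by rintro rfl; exact hvx hvx'
        have d2 : v ≠ w' := by rintro rfl; exact hvx hxw
        have d3 : w ≠ v' := by rintro rfl; rw [hvx'] at ew'; exact hvw ew'
        have d4 : w ≠ w' := by rintro rfl; rw [hxw] at ew'; exact hvw ew'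
        have hinj : Function.Injective ![v, w, v', w'] := by
          intro i j hij
          fin_cases i <;> fin_cases j <;> first | rfl | (exfalso; first | exact d1 hij | exact d1 hij.symm | exact d2 hij | exact d2 hij.symm | exact d3 hij | exact d3 hij.symm | exact d4 hij | exact d4 hij.symm | exact hvw hij | exact hvw hij.symm | exact hvw' hij | exact hvw' hij.symm)
        obtain ⟨r1, r2, r3, r4, r5⟩ := rem hx ew hvw.symm
        obtain ⟨t1, t2, t3, t4, t5⟩ := rem hy ew1 hvw'.symm
        refine casePair hinj (x' := x * swap v w) (y' := y * swap v' w') (msm _ _ _).symm ?_ (msm _ _ _).symm ?_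
          (ih (m - 2) (by omega) _ _ r1 t1 (by omega) (by omega) (not_bad hC ?_))
        · intro i; fin_cases i
          · exact r2
          · exact r3
          · exact (r4 _ d1.symm d3.symm).trans hvx'
          · exact (r4 _ d2.symm d4.symm).trans hxw
        · intro i; fin_cases i
          · exact (t4 _ d1 d2).trans hvy
          · exact (t4 _ d3 d4).trans hyw
          · exact t2
          · exact t3
        · intro p h1 h2
          have hp1 : p ≠ v := by rintro rfl; exact h1 r2
          have hp2 : p ≠ w := by rintro rfl; exact h1 r3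
          have hp3 : p ≠ v' := by rintro rfl; exact h2 t2
          have hp4 : p ≠ w' := by rintro rfl; exact h2 t3
          exact ⟨(r4 p hp1 hp2).symm, (t4 p hp3 hp4).symm⟩
      · -- the end of a path, roles exchanged
        obtain ⟨q, eq⟩ : ∃ p, x w' = p := ⟨_, rfl⟩
        have eq' : x q = w' := by rw [← eq, hxx]
        have hqw : q ≠ w' := by rw [← eq]; exact hxw
        have hqv : q ≠ v' := by
          rintro h
          rw [h, hvx'] at eq'
          exact hvw' eq'.symm
        obtain ⟨r1, r2, r3, r4, r5⟩ := rem hy ew1' hvw'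
        obtain ⟨t1, t2, t3, t4, t5⟩ := rem hx eq' hqw
        have h1 := not_bad hC (x' := x * swap q w') (y' := y * swap w' v') (fun p h1 h2 => by
          have hp1 : p ≠ q := by rintro rfl; exact h1 t2
          have hp2 : p ≠ w' := by rintro rfl; exact h1 t3
          have hp3 : p ≠ v' := by rintro rfl; exact h2 r3
          exact ⟨(t4 p hp1 hp2).symm, (r4 p hp2 hp3).symm⟩)
        exact (caseE hqw hqv hvw' (x' := y * swap w' v') (y' := x * swap q w') (msm _ _ _).symm r2 r3 (msm _ _ _).symm t2 t3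
          ((t4 _ hqv.symm hvw'.symm).trans hvx')
          (ih (m - 2) (by omega) _ _ t1 r1 (by omega) (by omega) h1).symm).symm
    · obtain ⟨q, eq⟩ : ∃ p, y w = p := ⟨_, rfl⟩
      have eq' : y q = w := by rw [← eq, hyy]
      have hqw : q ≠ w := by rw [← eq]; exact hyw
      have hqv : q ≠ v := by
        rintro h
        rw [h, hvy] at eq'
        exact hvw eq'.symm
      obtain ⟨r1, r2, r3, r4, r5⟩ := rem hx ew' hvw
      obtain ⟨t1, t2, t3, t4, t5⟩ := rem hy eq' hqw
      exact caseE hqw hqv hvw (x' := x * swap w v) (y' := y * swap q w) (msm _ _ _).symm r2 r3 (msm _ _ _).symm t2 t3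
        ((t4 _ hqv.symm hvw.symm).trans hvy)
        (ih (m - 2) (by omega) _ _ r1 t1 (by omega) (by omega) (not_bad hC (fun p h1 h2 => by
          have hp1 : p ≠ w := by rintro rfl; exact h1 r2
          have hp2 : p ≠ v := by rintro rfl; exact h1 r3
          have hp3 : p ≠ q := by rintro rfl; exact h2 t2
          exact ⟨(r4 p hp1 hp2).symm, (t4 p hp3 hp1).symm⟩)))

end Cfsg.Agent.H41.InvGraph
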