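import Mathlib
import Cfsg.Agent.H43.InvolOmega2

set_option autoImplicit false
set_option linter.unusedSectionVars false

/-! Conjugacy of involutions in orthogonal groups in characteristic two. -/

namespace Cfsg.Agent.H41

open Cfsg.Agent.Orth Cfsg.Agent.H43 QuadraticMap

section
variable {F : Type*} [Field F] [Fintype F] [CharP F 2] {ι : Type} [Fintype ι] [DecidableEq ι] (Q : QuadraticForm F (ι → F))

theorem nn_bridge (g : ↥(Cfsg.isometryGroup F ⇑Q)) :
    nn ((bridge Q g : OGrp Q) : (ι → F) ≃ₗ[F] (ι → F)) =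
      Matrix.toLin' (((g : Matrix.GeneralLinearGroup ι F) : Matrix ι ι F) - 1) := by
  apply LinearMap.ext
  intro v
  rw [nn_apply, bridge_apply, Matrix.toLin'_apply, Matrix.sub_mulVec, Matrix.one_mulVec]
  have h := add_self_zero F v
  rw [sub_eq_add_neg, ← eq_neg_of_add_eq_zero_left h]

theorem rank_bridge (g : ↥(Cfsg.isometryGroup F ⇑Q)) :
    Module.finrank F (LinearMap.range (nn ((bridge Q g : OGrp Q) : (ι → F) ≃ₗ[F] (ι → F)))) =
      (((g : Matrix.GeneralLinearGroup ι F) : Matrix ι ι F) - 1).rank := by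
  rw [nn_bridge, Matrix.toLin'_apply', Matrix.rank]

theorem invol_bridge (g : ↥(Cfsg.isometryGroup F ⇑Q)) (hg : orderOf g = 2) (v : ι → F) :
    ((bridge Q g : OGrp Q) : (ι → F) ≃ₗ[F] (ι → F)) (((bridge Q g : OGrp Q) : (ι → F) ≃ₗ[F] (ι → F)) v) = v := by
  have h1 : g ^ 2 = 1 := by rw [← hg]; exact pow_orderOf_eq_one g
  have h2 : bridge Q g * bridge Q g = 1 := by rw [← _root_.map_mul, ← pow_two, h1, map_one]
  exact congrArg (fun z : OGrp Q => (z : (ι → F) ≃ₗ[F] (ι → F)) v) h2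

theorem conj_iff_pres (hQ : (polarBilin Q).Nondegenerate) (t s : ↥(Cfsg.isometryGroup F ⇑Q)) (ht : orderOf t = 2) (hs : orderOf s = 2) :
    IsConj t s ↔ ∃ g ∈ Cfsg.preserving (Units.coeHom (Matrix ι ι F)) (fun u v => Q (u + v) - Q u - Q v),
      g * (t : Matrix.GeneralLinearGroup ι F) * g⁻¹ = (s : Matrix.GeneralLinearGroup ι F) := by
  constructor
  · intro h
    obtain ⟨c, hc⟩ := isConj_iff.mp h
    refine ⟨(c : Matrix.GeneralLinearGroup ι F), ?_, by rw [← hc]; rfl⟩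
    intro u v
    have h1 : ∀ w, Q (((c : Matrix.GeneralLinearGroup ι F) : Matrix ι ι F).mulVec w) = Q w := fun w => c.2 w w
    show Q (((c : Matrix.GeneralLinearGroup ι F) : Matrix ι ι F).mulVec u + ((c : Matrix.GeneralLinearGroup ι F) : Matrix ι ι F).mulVec v) -
      Q (((c : Matrix.GeneralLinearGroup ι F) : Matrix ι ι F).mulVec u) - Q (((c : Matrix.GeneralLinearGroup ι F) : Matrix ι ι F).mulVec v) = _
    rw [← Matrix.mulVec_add, h1, h1, h1]
  · rintro ⟨g, hg, hgt⟩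
    obtain ⟨k, hk⟩ : ∃ k : (ι → F) ≃ₗ[F] (ι → F), ∀ v, k v = (g : Matrix ι ι F).mulVec v :=
      ⟨LinearMap.GeneralLinearGroup.generalLinearEquiv F _ (Matrix.GeneralLinearGroup.toLin g), fun v => rfl⟩
    have hkp : ∀ x y, polarBilin Q (k x) (k y) = polarBilin Q x y := by
      intro x y
      rw [hk, hk, pbil, pbil]
      exact hg x y
    rw [mul_inv_eq_iff_eq_mul] at hgt
    have hgt2 := congrArg Units.val hgt
    rw [Units.val_mul, Units.val_mul] at hgt2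
    have hkt : k * ((bridge Q t : OGrp Q) : (ι → F) ≃ₗ[F] (ι → F)) = ((bridge Q s : OGrp Q) : (ι → F) ≃ₗ[F] (ι → F)) * k := by
      apply LinearEquiv.ext
      intro v
      show k (((bridge Q t : OGrp Q) : (ι → F) ≃ₗ[F] (ι → F)) v) = ((bridge Q s : OGrp Q) : (ι → F) ≃ₗ[F] (ι → F)) (k v)
      rw [bridge_apply, bridge_apply, hk, hk, Matrix.mulVec_mulVec, Matrix.mulVec_mulVec, hgt2]
    have hkt' : k⁻¹ * ((bridge Q s : OGrp Q) : (ι → F) ≃ₗ[F] (ι → F)) = ((bridge Q t : OGrp Q) : (ι → F) ≃ₗ[F] (ι → F)) * k⁻¹ := by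
      rw [inv_mul_eq_iff_eq_mul, ← mul_assoc, hkt, mul_assoc, mul_inv_cancel, mul_one]
    have hkp' : ∀ x y, polarBilin Q (k⁻¹ x) (k⁻¹ y) = polarBilin Q x y := by
      intro x y
      have h := hkp (k⁻¹ x) (k⁻¹ y)
      have h1 : ∀ z, k (k⁻¹ z) = z := fun z => LinearEquiv.apply_symm_apply k z
      rw [h1, h1] at h
      exact h.symm
    obtain ⟨c, hc, hct⟩ := conj_of_inv (f := polarBilin Q) (G := OGrp Q) hsq_of (pB_alt Q) (nd_of_nondegenerate hQ) (fun g hg => O_isom g hg)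
      (O_witt hQ) (bridge Q t).2 (bridge Q s).2 (invol_bridge Q t ht) (invol_bridge Q s hs) (finrank_nn_conj hkt)
      ⟨alt_conj hkp hkt, alt_conj hkp' hkt'⟩
    have h3 : (⟨c, hc⟩ : OGrp Q) * bridge Q t = bridge Q s * ⟨c, hc⟩ := Subtype.ext hct
    rw [isConj_iff]
    refine ⟨(bridge Q).symm ⟨c, hc⟩, ?_⟩
    rw [mul_inv_eq_iff_eq_mul]
    apply (bridge Q).injective
    rw [_root_.map_mul, _root_.map_mul, MulEquiv.apply_symm_apply]
    exact h3

theorem mem_Omega_iff_even (hQ : (polarBilin Q).Nondegenerate) (hR : RGrp Q = ⊤) (t : ↥(Cfsg.isometryGroup F ⇑Q)) :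
    t ∈ Cfsg.Omega F ⇑Q ↔ Even (((t : Matrix.GeneralLinearGroup ι F) : Matrix ι ι F) - 1).rank := by
  rw [← rank_bridge, ← mem_comm_iff hQ hR]
  exact mem_commutator_equiv (bridge Q) t

theorem mem_Omega_iff (t : ↥(Cfsg.isometryGroup F ⇑Q)) : t ∈ Cfsg.Omega F ⇑Q ↔ bridge Q t ∈ commutator (OGrp Q) :=
  mem_commutator_equiv (bridge Q) t

theorem omega_conj (hQ : (polarBilin Q).Nondegenerate) (hR : RGrp Q = ⊤) {m : ℕ} (hm : Module.finrank F (ι → F) = 2 * m)
    (t s : ↥(Cfsg.isometryGroup F ⇑Q)) (ht : orderOf t = 2) (hconj : IsConj t s)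
    (h : (∃ v, Q (v + (((t : Matrix.GeneralLinearGroup ι F) : Matrix ι ι F)).mulVec v) ≠ 0) ∨ (((t : Matrix.GeneralLinearGroup ι F) : Matrix ι ι F) - 1).rank < m) :
    ∃ g ∈ Cfsg.Omega F ⇑Q, g * t * g⁻¹ = s := by
  obtain ⟨c, hc⟩ := isConj_iff.mp hconj
  by_cases hcO : c ∈ Cfsg.Omega F ⇑Q
  · exact ⟨c, hcO, hc⟩
  · have h' : (∃ v, polarBilin Q v (nn ((bridge Q t : OGrp Q) : (ι → F) ≃ₗ[F] (ι → F)) v) ≠ 0) ∨
        Module.finrank F (LinearMap.range (nn ((bridge Q t : OGrp Q) : (ι → F) ≃ₗ[F] (ι → F)))) < m := by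
      rcases h with ⟨v, hv⟩ | h
      · left
        refine ⟨v, ?_⟩
        rw [← Q_nn (bridge Q t).2, nn_apply, bridge_apply, add_comm]
        exact hv
      · right
        rw [rank_bridge]; exact h
    obtain ⟨u, hu, htu⟩ := exists_fixed hQ hm (bridge Q t) (invol_bridge Q t ht) h'
    obtain ⟨r, hr⟩ : ∃ r, r = (bridge Q).symm (refl Q u hu) := ⟨_, rfl⟩
    have hbr : bridge Q r = refl Q u hu := by rw [hr, MulEquiv.apply_symm_apply]
    have hrt : r * t = t * r := by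
      apply (bridge Q).injective
      rw [_root_.map_mul, _root_.map_mul, hbr]
      exact refl_comm hu htu
    refine ⟨c * r, ?_, ?_⟩
    · rw [mem_Omega_iff, _root_.map_mul]
      apply not_mem_mul hQ hR
      · rw [← mem_Omega_iff]; exact hcO
      · rw [hbr]; exact refl_not_mem hQ hR hu
    · rw [← hc, mul_assoc c r t, hrt]
      group

theorem omega_conj_iff (hQ : (polarBilin Q).Nondegenerate) (hR : RGrp Q = ⊤) {m : ℕ} (hm : Module.finrank F (ι → F) = 2 * m)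
    (t s : ↥(Cfsg.isometryGroup F ⇑Q)) (ht : orderOf t = 2) (htO : t ∈ Cfsg.Omega F ⇑Q) (hconj : IsConj t s)
    (hr : (((t : Matrix.GeneralLinearGroup ι F) : Matrix ι ι F) - 1).rank = m)
    (h : ∀ v, Q (v + (((t : Matrix.GeneralLinearGroup ι F) : Matrix ι ι F)).mulVec v) = 0) :
    (∃ g ∈ Cfsg.Omega F ⇑Q, g * t * g⁻¹ = s) ↔
      Even (Module.finrank F ↥(LinearMap.range (Matrix.toLin' (((t : Matrix.GeneralLinearGroup ι F) : Matrix ι ι F) - 1)) ⊓
        LinearMap.range (Matrix.toLin' (((s : Matrix.GeneralLinearGroup ι F) : Matrix ι ι F) - 1)))) := by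
  obtain ⟨c, hc⟩ := isConj_iff.mp hconj
  have hal : ∀ v, polarBilin Q v (nn ((bridge Q t : OGrp Q) : (ι → F) ≃ₗ[F] (ι → F)) v) = 0 := by
    intro v
    rw [← Q_nn (bridge Q t).2, nn_apply, bridge_apply, add_comm]
    exact h v
  have h1 : (∃ g ∈ Cfsg.Omega F ⇑Q, g * t * g⁻¹ = s) ↔ c ∈ Cfsg.Omega F ⇑Q := by
    constructor
    · rintro ⟨g, hg, hgt⟩
      have h2 : (g⁻¹ * c) * t = t * (g⁻¹ * c) := by
        rw [← hc] at hgt
        rw [mul_assoc, inv_mul_eq_iff_eq_mul, ← mul_assoc, ← mul_assoc, eq_comm]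
        rw [mul_inv_eq_iff_eq_mul] at hgt
        rw [hgt]
        group
      have h3 : bridge Q (g⁻¹ * c) ∈ commutator (OGrp Q) := by
        apply comm_mem hQ hR hm (bridge Q t) (invol_bridge Q t ht) hal
        · rw [rank_bridge]; exact hr
        · rw [← _root_.map_mul, h2, _root_.map_mul]
      rw [← mem_Omega_iff] at h3
      have h4 := Subgroup.mul_mem _ hg h3
      rwa [mul_inv_cancel_left] at h4
    · intro h
      exact ⟨c, h, hc⟩
  rw [h1, mem_Omega_iff]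
  obtain ⟨l, hl⟩ := exists_reflProd hR (bridge Q c)
  have hTS : TS Q (LinearMap.range (nn ((bridge Q t : OGrp Q) : (ι → F) ≃ₗ[F] (ι → F)))) := by
    rintro _ ⟨x, rfl⟩
    rw [Q_nn (bridge Q t).2, hal]
  have hpar := parity_TS hQ hm hTS (by rw [rank_bridge]; exact hr) l
  rw [← hl, list_mem_iff hQ hR, ← hpar, hl]
  have hU : (LinearMap.range (nn ((bridge Q t : OGrp Q) : (ι → F) ≃ₗ[F] (ι → F)))).map (((bridge Q c : OGrp Q) : (ι → F) ≃ₗ[F] (ι → F)) : (ι → F) →ₗ[F] (ι → F)) =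
      LinearMap.range (nn ((bridge Q s : OGrp Q) : (ι → F) ≃ₗ[F] (ι → F))) := by
    have hct : ((bridge Q c : OGrp Q) : (ι → F) ≃ₗ[F] (ι → F)) * ((bridge Q t : OGrp Q) : (ι → F) ≃ₗ[F] (ι → F)) =
        ((bridge Q s : OGrp Q) : (ι → F) ≃ₗ[F] (ι → F)) * ((bridge Q c : OGrp Q) : (ι → F) ≃ₗ[F] (ι → F)) := by
      rw [mul_inv_eq_iff_eq_mul] at hc
      have h5 : bridge Q c * bridge Q t = bridge Q s * bridge Q c := by
        rw [← _root_.map_mul, hc, _root_.map_mul]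
      exact congrArg Subtype.val h5
    ext v
    rw [Submodule.mem_map]
    constructor
    · rintro ⟨_, ⟨x, rfl⟩, rfl⟩
      exact ⟨_, (nn_conj hct x).symm⟩
    · rintro ⟨x, rfl⟩
      refine ⟨nn ((bridge Q t : OGrp Q) : (ι → F) ≃ₗ[F] (ι → F)) (((bridge Q c : OGrp Q) : (ι → F) ≃ₗ[F] (ι → F)).symm x), ⟨_, rfl⟩, ?_⟩
      show ((bridge Q c : OGrp Q) : (ι → F) ≃ₗ[F] (ι → F)) _ = _
      rw [nn_conj hct, LinearEquiv.apply_symm_apply]
  rw [hU, nn_bridge, nn_bridge]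
  have hme : Even m := by
    rw [← hr, ← mem_Omega_iff_even Q hQ hR]; exact htO
  have hle : Module.finrank F ↥(LinearMap.range (Matrix.toLin' (((t : Matrix.GeneralLinearGroup ι F) : Matrix ι ι F) - 1)) ⊓
        LinearMap.range (Matrix.toLin' (((s : Matrix.GeneralLinearGroup ι F) : Matrix ι ι F) - 1))) ≤ m := by
    refine (Submodule.finrank_mono inf_le_left).trans ?_
    rw [Matrix.toLin'_apply', ← Matrix.rank, hr]
  rw [Nat.even_sub hle]
  exact ⟨fun h => h.mp hme, fun h => ⟨fun _ => h, fun _ => hme⟩⟩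

end

end Cfsg.Agent.H41
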