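import Mathlib
import Cfsg.Agent.H43.InvolSp

set_option autoImplicit false
set_option linter.unusedSectionVars false

/-! Involutions of symplectic groups in characteristic two. -/

namespace Cfsg.Agent.H41

open Cfsg.Agent.H43 Cfsg.Agent.ClGeo

section
variable {F : Type*} [Field F] {m : ℕ}

theorem sp_surj (g : (Fin m ⊕ Fin m → F) ≃ₗ[F] (Fin m ⊕ Fin m → F)) (hg : g ∈ spG F m) :
    ∃ x : Matrix.symplecticGroup (Fin m) F, spHom F m x = g := by
  have h1 : LinearMap.toMatrix' (g : (Fin m ⊕ Fin m → F) →ₗ[F] (Fin m ⊕ Fin m → F)) ∈ Matrix.symplecticGroup (Fin m) F := by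
    rw [mem_symplecticGroup_iff]
    intro x y
    rw [LinearMap.toMatrix'_mulVec, LinearMap.toMatrix'_mulVec]
    have := hg x y
    rw [sB_apply, sB_apply] at this
    exact this
  refine ⟨⟨_, h1⟩, ?_⟩
  apply LinearEquiv.ext
  intro v
  rw [spHom_apply]
  exact LinearMap.toMatrix'_mulVec _ _

theorem sp_inj {x y : Matrix.symplecticGroup (Fin m) F} (h : spHom F m x = spHom F m y) : x = y := by
  apply Subtype.ext
  apply ext_mulVec
  intro v
  rw [← spHom_apply, h, spHom_apply]

theorem nn_spHom [CharP F 2] (g : Matrix.symplecticGroup (Fin m) F) :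
    nn (spHom F m g) = Matrix.toLin' ((g : Matrix (Fin m ⊕ Fin m) (Fin m ⊕ Fin m) F) - 1) := by
  apply LinearMap.ext
  intro v
  rw [nn_apply, spHom_apply, Matrix.toLin'_apply, Matrix.sub_mulVec, Matrix.one_mulVec]
  have h := add_self_zero F v
  rw [sub_eq_add_neg, ← eq_neg_of_add_eq_zero_left h]

theorem rank_spHom [CharP F 2] (g : Matrix.symplecticGroup (Fin m) F) :
    Module.finrank F (LinearMap.range (nn (spHom F m g))) = ((g : Matrix (Fin m ⊕ Fin m) (Fin m ⊕ Fin m) F) - 1).rank := by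
  rw [nn_spHom, Matrix.toLin'_apply', Matrix.rank]

theorem invol_spHom (g : Matrix.symplecticGroup (Fin m) F) (hg : g ^ 2 = 1) (v : Fin m ⊕ Fin m → F) :
    spHom F m g (spHom F m g v) = v := by
  have h2 : spHom F m g * spHom F m g = 1 := by rw [← map_mul, ← pow_two, hg, map_one]
  exact congrArg (fun z : (Fin m ⊕ Fin m → F) ≃ₗ[F] (Fin m ⊕ Fin m → F) => z v) h2

theorem f_nn_eq [CharP F 2] (g : Matrix.symplecticGroup (Fin m) F) (v : Fin m ⊕ Fin m → F) :
    sB F m v (nn (spHom F m g) v) = Cfsg.sympForm m F v ((g : Matrix (Fin m ⊕ Fin m) (Fin m ⊕ Fin m) F).mulVec v) := by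
  rw [nn_apply, map_add, (sB_isAlt m) v, add_zero, spHom_apply, sB_apply]

end

end Cfsg.Agent.H41
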