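import Mathlib
import Cfsg.Agent.H43.Jordan2
import Cfsg.Agent.H99.CentDet

set_option autoImplicit false
set_option linter.unusedSimpArgs false

namespace Cfsg.Agent.H41

open Cfsg.Agent.H43

variable {F : Type*} [Field F]

/-- Nilpotent endomorphisms with the same ranks of powers are conjugate. -/
theorem exists_conj_of_finrank_range {V W : Type*} [AddCommGroup V] [Module F V] [FiniteDimensional F V]
    [AddCommGroup W] [Module F W] [FiniteDimensional F W]
    (N : Module.End F V) (N' : Module.End F W) (hN : IsNilpotent N) (hN' : IsNilpotent N')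
    (h : ∀ j, Module.finrank F (LinearMap.range (N ^ j)) = Module.finrank F (LinearMap.range (N' ^ j))) :
    ∃ g : V ≃ₗ[F] W, ∀ x, g (N x) = N' (g x) := by
  obtain ⟨t, d, b, hd, hb⟩ := exists_JB N hN
  obtain ⟨t', d', b', hd', hb'⟩ := exists_JB N' hN'
  have h1 : ∀ j, (Finset.univ.filter (fun k => d k = j)).card = (Finset.univ.filter (fun k => d' k = j)).card := by
    intro j
    by_cases hj : 1 ≤ j
    · apply card_eq_of_sums d d' _ j hj
      intro j
      rw [← hb.finrank_range, ← hb'.finrank_range, h]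
    · have hj0 : j = 0 := by omega
      subst hj0
      rw [Finset.filter_false_of_mem (fun k _ hk => by have := hd k; omega),
        Finset.filter_false_of_mem (fun k _ hk => by have := hd' k; omega)]
      simp
  obtain ⟨σ, hσ⟩ := exists_equiv_of_card d d' h1
  obtain ⟨b'', hb''⟩ := hb.reindex σ hσ
  exact hb''.exists_conj hb'

/-- Matrices of square zero with the same rank are conjugate. -/
theorem exists_conj_of_sq_zero {n : ℕ} (A B : Matrix (Fin n) (Fin n) F) (hA : A ^ 2 = 0) (hB : B ^ 2 = 0)
    (h : A.rank = B.rank) : ∃ P : Matrix (Fin n) (Fin n) F, P.det ≠ 0 ∧ P * A = B * P := by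
  have hn : ∀ C : Matrix (Fin n) (Fin n) F, C ^ 2 = 0 → (Matrix.toLin' C) ^ 2 = 0 := by
    intro C hC
    rw [← Matrix.toLin'_pow, hC]; simp
  have hr : ∀ C : Matrix (Fin n) (Fin n) F, Module.finrank F (LinearMap.range (Matrix.toLin' C)) = C.rank := by
    intro C
    rfl
  obtain ⟨g, hg⟩ := exists_conj_of_finrank_range (Matrix.toLin' A) (Matrix.toLin' B) ⟨2, hn A hA⟩ ⟨2, hn B hB⟩ (by
    intro j
    match j with
    | 0 => rw [pow_zero, pow_zero]
    | 1 => rw [pow_one, pow_one, hr, hr, h]
    | (j+2) =>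
      rw [pow_add, pow_add, hn A hA, hn B hB, mul_zero, mul_zero])
  refine ⟨LinearMap.toMatrix' (g : (Fin n → F) →ₗ[F] (Fin n → F)), ?_, ?_⟩
  · rw [LinearMap.det_toMatrix']
    exact (LinearEquiv.isUnit_det' g).ne_zero
  · apply Matrix.toLin'.injective
    rw [Matrix.toLin'_mul, Matrix.toLin'_mul, Matrix.toLin'_toMatrix']
    ext x
    exact congrFun (hg _) _

end Cfsg.Agent.H41
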