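import Mathlib

set_option autoImplicit false
set_option linter.unusedSectionVars false
set_option linter.unusedVariables false

/-! Counting arguments in matrix rings. -/

namespace Cfsg.Agent.H41

open Polynomial

theorem fix_mod {α : Type*} [Finite α] (p : ℕ) [Fact p.Prime] (f : α → α) (h : f^[p] = id) :
    Nat.card α ≡ Nat.card {a // f a = a} [MOD p] := by
  classical
  have := Fintype.ofFinite α
  let f' : Function.End α := f
  have h1 : f' ^ p ^ 1 = 1 := by
    rw [pow_one]
    have h2 : ∀ (n : ℕ) (x : α), (f' ^ n) x = f^[n] x := by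
      intro n
      induction n with
      | zero => intro x; rfl
      | succ n ih => intro x; rw [pow_succ, Function.iterate_succ_apply]; exact ih (f x)
    funext x
    rw [h2, h]; rfl
  have h2 := Equiv.Perm.card_fixedPoints_modEq h1
  rw [Nat.card_eq_fintype_card, Nat.card_eq_fintype_card]
  convert h2 using 1
  apply Fintype.card_congr
  exact Equiv.refl _

theorem closure_sub_range {F : Type*} [Field F] {ι : Type*} [Fintype ι] [DecidableEq ι] [Nonempty ι] (X : Matrix ι ι F) (a : Matrix ι ι F)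
    (ha : a ∈ Subring.closure {X}) : ∃ c : Fin (Fintype.card ι) → F, a = ∑ i, c i • X ^ (i : ℕ) := by
  have h1 : ∃ p : F[X], a = aeval X p := by
    induction ha using Subring.closure_induction with
    | mem x hx =>
      rw [Set.mem_singleton_iff] at hx
      exact ⟨Polynomial.X, by rw [aeval_X, hx]⟩
    | zero => exact ⟨0, by rw [map_zero]⟩
    | one => exact ⟨1, by rw [map_one]⟩
    | add x y _ _ hx hy =>
      obtain ⟨p, hp⟩ := hx
      obtain ⟨q, hq⟩ := hy
      exact ⟨p + q, by rw [map_add, hp, hq]⟩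
    | neg x _ hx =>
      obtain ⟨p, hp⟩ := hx
      exact ⟨-p, by rw [map_neg, hp]⟩
    | mul x y _ _ hx hy =>
      obtain ⟨p, hp⟩ := hx
      obtain ⟨q, hq⟩ := hy
      exact ⟨p * q, by rw [map_mul, hp, hq]⟩
  obtain ⟨p, hp⟩ := h1
  set q := p %ₘ X.charpoly with hq
  have h2 : aeval X q = aeval X p := aeval_modByMonic_eq_self_of_root (Matrix.aeval_self_charpoly X)
  have h3 : q.degree < (Fintype.card ι : ℕ) := by
    rw [← Matrix.charpoly_degree_eq_dim X]
    exact degree_modByMonic_lt _ X.charpoly_monic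
  refine ⟨fun i => q.coeff i, ?_⟩
  rw [hp, ← h2, aeval_eq_sum_range' (n := Fintype.card ι)]
  · rw [Finset.sum_range]
  · rcases eq_or_ne q 0 with h | h
    · rw [h, natDegree_zero]
      exact Fintype.card_pos
    · exact (natDegree_lt_iff_degree_lt h).2 h3

theorem card_closure_le {F : Type*} [Field F] [Fintype F] {ι : Type*} [Fintype ι] [DecidableEq ι] [Nonempty ι] (X : Matrix ι ι F) :
    Nat.card (Subring.closure {X}) ≤ Fintype.card F ^ Fintype.card ι := by
  have h1 : (Subring.closure {X} : Set (Matrix ι ι F)) ⊆ Set.range (fun c : Fin (Fintype.card ι) → F => ∑ i, c i • X ^ (i : ℕ)) := by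
    intro a ha
    obtain ⟨c, hc⟩ := closure_sub_range X a ha
    exact ⟨c, hc.symm⟩
  calc Nat.card (Subring.closure {X}) = Nat.card (Subring.closure {X} : Set (Matrix ι ι F)) := rfl
    _ ≤ Nat.card (Set.range (fun c : Fin (Fintype.card ι) → F => ∑ i, c i • X ^ (i : ℕ))) := Nat.card_mono (Set.toFinite _) h1
    _ ≤ Nat.card (Fin (Fintype.card ι) → F) := Finite.card_range_le _
    _ = _ := by rw [Nat.card_fun, Nat.card_fin, Nat.card_eq_fintype_card]

theorem card_addSub_pow {F : Type*} [Field F] [Fintype F] {ι : Type*} [Fintype ι] [DecidableEq ι] (p k : ℕ) (hp : p.Prime) (hF : Fintype.card F = p ^ k)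
    (S : AddSubgroup (Matrix ι ι F)) : ∃ d, Nat.card S = p ^ d := by
  have h1 : Nat.card S ∣ Nat.card (Matrix ι ι F) := AddSubgroup.card_addSubgroup_dvd_card S
  have h2 : Nat.card (Matrix ι ι F) = p ^ (k * (Fintype.card ι * Fintype.card ι)) := by
    have : Nat.card (ι → ι → F) = p ^ (k * (Fintype.card ι * Fintype.card ι)) := by
      rw [Nat.card_fun, Nat.card_fun, Nat.card_eq_fintype_card, Nat.card_eq_fintype_card, hF, ← pow_mul, ← pow_mul]
    exact this
  rw [h2] at h1
  obtain ⟨d, -, hd⟩ := (Nat.dvd_prime_pow hp).1 h1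
  exact ⟨d, hd⟩

/-- fixed points of a multiplication on a stable additive subgroup -/
theorem fix_mul {R : Type*} [Ring R] [Finite R] (S : AddSubgroup R) (p : ℕ) [Fact p.Prime] (x : R) (hx : x ^ p = 1) (hS : ∀ a ∈ S, x * a ∈ S) :
    Nat.card S ≡ Nat.card (S ⊓ (AddMonoidHom.mulLeft (x - 1)).ker : AddSubgroup R) [MOD p] := by
  let f : S → S := fun a => ⟨x * a, hS a a.2⟩
  have h1 : ∀ (n : ℕ) (a : S), ((f^[n] a : S) : R) = x ^ n * a := by
    intro n
    induction n with
    | zero => intro a; rw [pow_zero, one_mul]; rfl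
    | succ n ih => intro a; rw [Function.iterate_succ_apply, ih, pow_succ, mul_assoc]
  have h2 : f^[p] = id := by
    funext a
    apply Subtype.ext
    rw [h1, hx, one_mul]; rfl
  have h3 := fix_mod p f h2
  convert h3 using 1
  apply Nat.card_congr
  refine ⟨fun a => ⟨⟨a.1, a.2.1⟩, ?_⟩, fun a => ⟨a.1.1, a.1.2, ?_⟩, fun _ => rfl, fun _ => rfl⟩
  · apply Subtype.ext
    have h4 : (x - 1) * a.1 = 0 := a.2.2
    have h5 : x * a.1 = a.1 := by rw [sub_mul, one_mul] at h4; exact sub_eq_zero.1 h4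
    exact h5
  · have h4 : x * a.1.1 = a.1.1 := congrArg Subtype.val a.2
    change (x - 1) * a.1.1 = 0
    rw [sub_mul, one_mul, h4, sub_self]

theorem card_lt_of_ne {R : Type*} [Ring R] [Finite R] (S : AddSubgroup R) (x : R) (h1 : (1 : R) ∈ S) (hx : x ≠ 1) :
    Nat.card (S ⊓ (AddMonoidHom.mulLeft (x - 1)).ker : AddSubgroup R) < Nat.card S := by
  apply lt_of_le_of_ne
  · exact Nat.card_mono (Set.toFinite _) (fun a ha => ha.1)
  · intro h
    have h3 : (S ⊓ (AddMonoidHom.mulLeft (x - 1)).ker : AddSubgroup R) = S := by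
      apply AddSubgroup.eq_of_le_of_card_ge inf_le_left
      exact h.ge
    have h4 : (1 : R) ∈ (S ⊓ (AddMonoidHom.mulLeft (x - 1)).ker : AddSubgroup R) := h3.symm ▸ h1
    have h5 : (x - 1) * 1 = 0 := h4.2
    rw [mul_one] at h5
    exact hx (sub_eq_zero.1 h5)

/-- a matrix of order 13 over the field with 8 elements: the scalars lie in the ring it generates -/
theorem scalar_mem {F : Type*} [Field F] [Fintype F] (hF : Fintype.card F = 2 ^ 3) (X : Matrix (Fin 4) (Fin 4) F) (hX : X ^ 13 = 1) (hX1 : X ≠ 1) (ω : F) :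
    ω • (1 : Matrix (Fin 4) (Fin 4) F) ∈ Subring.closure {X} := by
  have : Fact (Nat.Prime 13) := ⟨by norm_num⟩
  let A := (Subring.closure {X} : Subring (Matrix (Fin 4) (Fin 4) F)).toAddSubgroup
  have hXA : X ∈ Subring.closure {X} := Subring.subset_closure rfl
  obtain ⟨d, hd⟩ := card_addSub_pow 2 3 Nat.prime_two hF A
  obtain ⟨f, hf⟩ := card_addSub_pow 2 3 Nat.prime_two hF (A ⊓ (AddMonoidHom.mulLeft (X - 1)).ker)
  have h1 := fix_mul A 13 X hX (fun a ha => Subring.mul_mem _ hXA ha)
  have h2 := card_lt_of_ne A X (Subring.one_mem _) hX1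
  have h3 : Nat.card A ≤ 2 ^ 12 := by
    have h4 := card_closure_le X
    rw [hF, Fintype.card_fin, ← pow_mul] at h4
    exact h4
  rw [hd, hf] at h1
  rw [hd, hf] at h2
  rw [hd] at h3
  have h5 : f < d := (Nat.pow_lt_pow_iff_right (by norm_num)).1 h2
  have h6 : d ≤ 12 := (Nat.pow_le_pow_iff_right (by norm_num)).1 h3
  have h7 : d = 12 := by
    have key : ∀ d ∈ Finset.range 13, ∀ f ∈ Finset.range 13, f < d → 2 ^ d % 13 = 2 ^ f % 13 → d = 12 := by decide
    exact key d (by rw [Finset.mem_range]; omega) f (by rw [Finset.mem_range]; omega) h5 h1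
  have h8 : (A : Set (Matrix (Fin 4) (Fin 4) F)) ⊆ Set.range (fun c : Fin (Fintype.card (Fin 4)) → F => ∑ i, c i • X ^ (i : ℕ)) := by
    intro a ha
    obtain ⟨c, hc⟩ := closure_sub_range X a ha
    exact ⟨c, hc.symm⟩
  have h9 : Nat.card (Set.range (fun c : Fin (Fintype.card (Fin 4)) → F => ∑ i, c i • X ^ (i : ℕ))) ≤ 2 ^ 12 := by
    refine (Finite.card_range_le _).trans ?_
    rw [Nat.card_fun, Nat.card_fin, Nat.card_eq_fintype_card, hF, Fintype.card_fin, ← pow_mul]
  have h10 : (A : Set (Matrix (Fin 4) (Fin 4) F)) = Set.range (fun c : Fin (Fintype.card (Fin 4)) → F => ∑ i, c i • X ^ (i : ℕ)) := by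
    apply Set.eq_of_subset_of_ncard_le h8
    · rw [← Nat.card_coe_set_eq, ← Nat.card_coe_set_eq]
      refine h9.trans ?_
      rw [← h7, ← hd]
      exact le_rfl
  have h11 : ω • (1 : Matrix (Fin 4) (Fin 4) F) ∈ (A : Set (Matrix (Fin 4) (Fin 4) F)) := by
    rw [h10]
    refine ⟨fun i => if (i : ℕ) = 0 then ω else 0, ?_⟩
    have : Fintype.card (Fin 4) = 4 := Fintype.card_fin 4
    change (∑ i : Fin (Fintype.card (Fin 4)), (if (i : ℕ) = 0 then ω else 0) • X ^ (i : ℕ)) = ω • 1
    rw [Finset.sum_eq_single (⟨0, by rw [this]; norm_num⟩ : Fin (Fintype.card (Fin 4)))]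
    · rw [if_pos rfl, pow_zero]
    · intro b _ hb
      rw [if_neg, zero_smul]
      intro h
      exact hb (Fin.ext h)
    · intro h; exact absurd (Finset.mem_univ _) h
  exact h11

end Cfsg.Agent.H41
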