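import Cfsg.Agent.H41.StarRing
import Cfsg.Agent.ClassSp.Order
import Cfsg.Agent.ClassSp.Simple
import Cfsg.Prelude.Def_Classical

set_option autoImplicit false
set_option linter.unusedSectionVars false
set_option linter.unusedVariables false

/-! The prime graph of `PSp(6,3)`. -/

namespace Cfsg.Agent.H41.PSpSix

open Matrix Cfsg.Agent.H41

section gen
variable {F : Type*} [Field F] [Fintype F] (hF : Fintype.card F = 3)

abbrev MM (F : Type*) : Type _ := Matrix (Fin 3 ⊕ Fin 3) (Fin 3 ⊕ Fin 3) F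

/-- the adjoint -/
def adj (M : MM F) : MM F := -(J (Fin 3) F * Mᵀ * J (Fin 3) F)

theorem adj_add (M N : MM F) : adj (M + N) = adj M + adj N := by
  unfold adj
  rw [Matrix.transpose_add, mul_add, add_mul, neg_add]

theorem adj_mul (M N : MM F) : adj (M * N) = adj N * adj M := by
  unfold adj
  rw [Matrix.transpose_mul, neg_mul_neg]
  have h := J_squared (Fin 3) F
  calc -(J (Fin 3) F * (Nᵀ * Mᵀ) * J (Fin 3) F) = J (Fin 3) F * Nᵀ * (-1) * Mᵀ * J (Fin 3) F := by noncomm_ring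
    _ = J (Fin 3) F * Nᵀ * (J (Fin 3) F * J (Fin 3) F) * Mᵀ * J (Fin 3) F := by rw [h]
    _ = _ := by noncomm_ring

theorem adj_one : adj (1 : MM F) = 1 := by
  unfold adj
  rw [Matrix.transpose_one, mul_one, J_squared, neg_neg]

theorem mul_adj (z : symplecticGroup (Fin 3) F) : (z : MM F) * adj (z : MM F) = 1 := by
  unfold adj
  have h1 : (z : MM F) * J (Fin 3) F * (z : MM F)ᵀ = J (Fin 3) F := SymplecticGroup.mem_iff.1 z.2
  calc (z : MM F) * -(J (Fin 3) F * (z : MM F)ᵀ * J (Fin 3) F) = -(((z : MM F) * J (Fin 3) F * (z : MM F)ᵀ) * J (Fin 3) F) := by noncomm_ring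
    _ = 1 := by rw [h1, J_squared, neg_neg]

theorem adj_mul_self (z : symplecticGroup (Fin 3) F) : adj (z : MM F) * (z : MM F) = 1 := mul_eq_one_comm.1 (mul_adj z)

include hF in
theorem three_zero : (3 : F) = 0 := by
  have h1 : ((Fintype.card F : ℕ) : F) = 0 := FiniteField.cast_card_eq_zero F
  rw [hF] at h1
  exact_mod_cast h1

include hF in
theorem three_zero_mat : (3 : MM F) = 0 := by
  have h1 : (3 : MM F) = (3 : F) • 1 := by
    ext i j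
    rw [Matrix.smul_apply]
    have : (3 : MM F) = ((3 : ℕ) : MM F) := by norm_num
    rw [this, Matrix.natCast_apply, Matrix.one_apply]
    split_ifs <;> simp
  rw [h1, three_zero hF, zero_smul]

include hF in
theorem hpow (S : AddSubgroup (MM F)) : ∃ d, Nat.card S = 3 ^ d := card_addSub_pow 3 1 Nat.prime_three (by rw [hF]; norm_num) S

include hF in
theorem hB (z : MM F) : Nat.card (Subring.closure {z}) ≤ 3 ^ 6 := by
  have h1 := card_closure_le z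
  rw [hF] at h1
  simpa using h1

theorem sp_pow (z : symplecticGroup (Fin 3) F) (n : ℕ) : ((z ^ n : symplecticGroup (Fin 3) F) : MM F) = (z : MM F) ^ n := by
  exact map_pow (symplecticGroup (Fin 3) F).subtype z n

/-- the quotient map -/
def qm (F : Type*) [Field F] : symplecticGroup (Fin 3) F →* Cfsg.PSp 3 F := QuotientGroup.mk' _

theorem qm_surj (x : Cfsg.PSp 3 F) : ∃ z, qm F z = x := QuotientGroup.mk'_surjective _ x

theorem qm_eq_one (z : symplecticGroup (Fin 3) F) : qm F z = 1 ↔ (z : MM F) = 1 ∨ (z : MM F) = -1 := by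
  have h1 : qm F z = 1 ↔ z ∈ Subgroup.center (symplecticGroup (Fin 3) F) := QuotientGroup.eq_one_iff z
  rw [h1, Cfsg.Agent.ClassSp.mem_center_iff]
  constructor
  · rintro ⟨a, ha, h⟩
    have h2 : a = 1 ∨ a = -1 := by
      have h4 : (a - 1) * (a + 1) = 0 := by linear_combination ha
      rcases mul_eq_zero.1 h4 with h5 | h5
      · exact Or.inl (sub_eq_zero.1 h5)
      · exact Or.inr (by linear_combination h5)
    have h3 : (z : MM F) = a • 1 := by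
      apply Matrix.mulVec_injective
      funext v
      rw [h v, smul_mulVec, one_mulVec]
    rcases h2 with h2 | h2 <;> rw [h3, h2]
    · left; rw [one_smul]
    · right; rw [neg_one_smul]
  · rintro (h | h)
    · exact ⟨1, by norm_num, fun v => by rw [h, one_mulVec, one_smul]⟩
    · exact ⟨-1, by norm_num, fun v => by rw [h, neg_mulVec, one_mulVec, neg_one_smul]⟩

/-- the power used -/
theorem qm_pow_ne (z : symplecticGroup (Fin 3) F) (n : ℕ) : (qm F z) ^ n = 1 ↔ (z : MM F) ^ n = 1 ∨ (z : MM F) ^ n = -1 := by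
  rw [← map_pow, qm_eq_one, sp_pow]

theorem adj_pow (M : MM F) (n : ℕ) : adj (M ^ n) = adj M ^ n := by
  induction n with
  | zero => rw [pow_zero, pow_zero, adj_one]
  | succ n ih => rw [pow_succ, adj_mul, ih, ← pow_succ']

theorem adj_pow_mul (M : MM F) (h : adj M * M = 1) (n : ℕ) : adj (M ^ n) * M ^ n = 1 := by
  rw [adj_pow]
  induction n with
  | zero => rw [pow_zero, pow_zero, mul_one]
  | succ n ih => rw [pow_succ, pow_succ', ← mul_assoc, mul_assoc (adj M ^ n), h, mul_one, ih]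

theorem mem_cl (M : MM F) (k : ℕ) : M ^ k ∈ Subring.closure {M} :=
  Subring.pow_mem _ (Subring.subset_closure (Set.mem_singleton M)) k

theorem seven_aux (σ : MM F → MM F) (hadd : ∀ a b, σ (a + b) = σ a + σ b) (hmul : ∀ a b, σ (a * b) = σ b * σ a) (hone : σ 1 = 1)
    (h3 : (3 : MM F) = 0) (M : MM F) (h : σ M * M = 1) (k : ℕ) (h7 : (M ^ k) ^ 7 = 1) (h1 : M ^ k ≠ 1)
    (hpow : ∀ S : AddSubgroup (MM F), ∃ d, Nat.card S = 3 ^ d) (hB : Nat.card (Subring.closure {M}) ≤ 3 ^ 6) (h2 : σ (M ^ k) * (M ^ k) = 1) :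
    M ^ 28 = 1 :=
  StarRing.seven σ hadd hmul hone h3 hpow M h hB (M ^ k) (mem_cl M k) h7 h1 h2

theorem thirteen_aux (σ : MM F → MM F) (hadd : ∀ a b, σ (a + b) = σ a + σ b) (hmul : ∀ a b, σ (a * b) = σ b * σ a) (hone : σ 1 = 1)
    (h3 : (3 : MM F) = 0) (M : MM F) (h : σ M * M = 1) (h' : M * σ M = 1) (k : ℕ) (h7 : (M ^ k) ^ 13 = 1) (h1 : M ^ k ≠ 1)
    (hpow : ∀ S : AddSubgroup (MM F), ∃ d, Nat.card S = 3 ^ d) (hB : Nat.card (Subring.closure {M}) ≤ 3 ^ 6) (h2 : σ (M ^ k) * (M ^ k) = 1) :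
    M ^ 13 = 1 ∨ M ^ 13 = -1 :=
  StarRing.thirteen σ hadd hmul hone h3 hpow M hB (M ^ k) (mem_cl M k) h7 h1 h2 h h'

include hF in
theorem seven_M (M : MM F) (h : adj M * M = 1) (k : ℕ) (h7 : (M ^ k) ^ 7 = 1) (h1 : M ^ k ≠ 1) : M ^ 28 = 1 := by
  obtain ⟨σ, hσ⟩ : ∃ σ : MM F → MM F, σ = adj := ⟨_, rfl⟩
  have hadd : ∀ a b, σ (a + b) = σ a + σ b := by intro a b; rw [hσ, adj_add]
  have hmul : ∀ a b, σ (a * b) = σ b * σ a := by intro a b; rw [hσ, adj_mul]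
  have hone : σ 1 = 1 := by rw [hσ, adj_one]
  have h2 : σ (M ^ k) * (M ^ k) = 1 := by rw [hσ, adj_pow_mul M h]
  rw [← hσ] at h
  exact seven_aux σ hadd hmul hone (three_zero_mat hF) M h k h7 h1 (hpow hF) (hB hF M) h2

include hF in
theorem thirteen_M (M : MM F) (h : adj M * M = 1) (h' : M * adj M = 1) (k : ℕ) (h7 : (M ^ k) ^ 13 = 1) (h1 : M ^ k ≠ 1) : M ^ 13 = 1 ∨ M ^ 13 = -1 := by
  obtain ⟨σ, hσ⟩ : ∃ σ : MM F → MM F, σ = adj := ⟨_, rfl⟩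
  have hadd : ∀ a b, σ (a + b) = σ a + σ b := by intro a b; rw [hσ, adj_add]
  have hmul : ∀ a b, σ (a * b) = σ b * σ a := by intro a b; rw [hσ, adj_mul]
  have hone : σ 1 = 1 := by rw [hσ, adj_one]
  have h2 : σ (M ^ k) * (M ^ k) = 1 := by rw [hσ, adj_pow_mul M h]
  rw [← hσ] at h h'
  exact thirteen_aux σ hadd hmul hone (three_zero_mat hF) M h h' k h7 h1 (hpow hF) (hB hF M) h2

theorem pow_two_mul {M : MM F} {p s : ℕ} (h : M ^ (p * s) = 1 ∨ M ^ (p * s) = -1) : (M ^ (2 * s)) ^ p = 1 := by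
  have : 2 * s * p = p * s * 2 := by ring
  rw [← pow_mul, this, pow_mul]
  rcases h with h1 | h1 <;> rw [h1]
  · rw [one_pow]
  · rw [neg_one_sq]

include hF in
theorem not_seven (x : Cfsg.PSp 3 F) (s : ℕ) (hs : s.Prime) (hs2 : s ≠ 2) : orderOf x ≠ 7 * s := by
  intro h
  obtain ⟨z, rfl⟩ := qm_surj x
  have h1 := (qm_pow_ne z (7 * s)).1 (by rw [← h, pow_orderOf_eq_one])
  have hg7 := pow_two_mul h1
  have hg1 : (z : MM F) ^ (2 * s) ≠ 1 := by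
    intro h2
    have h3 := (qm_pow_ne z (2 * s)).2 (Or.inl h2)
    have h4 := orderOf_dvd_of_pow_eq_one h3
    rw [h] at h4
    have h5 := Nat.dvd_of_mul_dvd_mul_right hs.pos h4
    norm_num at h5
  have h28 := seven_M hF (z : MM F) (adj_mul_self z) (2 * s) hg7 hg1
  have h3 := (qm_pow_ne z 28).2 (Or.inl h28)
  have h4 := orderOf_dvd_of_pow_eq_one h3
  rw [h] at h4
  have h5 : s ∣ 4 := by
    have : (28 : ℕ) = 7 * 4 := by norm_num
    rw [this] at h4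
    exact Nat.dvd_of_mul_dvd_mul_left (by norm_num) h4
  have h6 : s ∣ 2 := hs.dvd_of_dvd_pow (show s ∣ 2 ^ 2 from h5)
  exact hs2 ((Nat.prime_dvd_prime_iff_eq hs Nat.prime_two).1 h6)

include hF in
theorem not_thirteen (x : Cfsg.PSp 3 F) (s : ℕ) (hs : s.Prime) : orderOf x ≠ 13 * s := by
  intro h
  obtain ⟨z, rfl⟩ := qm_surj x
  have h1 := (qm_pow_ne z (13 * s)).1 (by rw [← h, pow_orderOf_eq_one])
  have hg7 := pow_two_mul h1
  have hg1 : (z : MM F) ^ (2 * s) ≠ 1 := by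
    intro h2
    have h3 := (qm_pow_ne z (2 * s)).2 (Or.inl h2)
    have h4 := orderOf_dvd_of_pow_eq_one h3
    rw [h] at h4
    have h5 := Nat.dvd_of_mul_dvd_mul_right hs.pos h4
    norm_num at h5
  have h13 := thirteen_M hF (z : MM F) (adj_mul_self z) (mul_adj z) (2 * s) hg7 hg1
  have h3 := (qm_pow_ne z 13).2 h13
  have h4 := orderOf_dvd_of_pow_eq_one h3
  rw [h] at h4
  have h5 : s ∣ 1 := by
    have : 13 * s ∣ 13 * 1 := by rw [mul_one]; exact h4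
    exact Nat.dvd_of_mul_dvd_mul_left (by norm_num) this
  exact hs.one_lt.ne' (Nat.dvd_one.1 h5)

/-! ### existence -/

theorem exists_order [CharP F 3] (A : MM (ZMod 3)) (hA : A * J (Fin 3) (ZMod 3) * Aᵀ = J (Fin 3) (ZMod 3)) (n : ℕ) (hn : 0 < n) (h1 : A ^ n = 1 ∨ A ^ n = -1)
    (h2 : ∀ p : ℕ, p.Prime → p ∣ n → A ^ (n / p) ≠ 1 ∧ A ^ (n / p) ≠ -1) : ∃ x : Cfsg.PSp 3 F, orderOf x = n := by
  let c : ZMod 3 →+* F := ZMod.castHom (dvd_refl 3) F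
  have hinj : Function.Injective (c.mapMatrix (m := Fin 3 ⊕ Fin 3)) := by
    intro A B hAB
    ext i j
    exact c.injective (congrFun (congrFun hAB i) j)
  have hJ : c.mapMatrix (J (Fin 3) (ZMod 3)) = J (Fin 3) F := by
    ext i j
    rw [RingHom.mapMatrix_apply, Matrix.map_apply]
    rcases i with i | i <;> rcases j with j | j <;> simp [J, Matrix.one_apply, apply_ite c]
  let z : symplecticGroup (Fin 3) F := ⟨c.mapMatrix A, by
    rw [SymplecticGroup.mem_iff]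
    have h3 := congrArg c.mapMatrix hA
    rw [map_mul, map_mul, hJ] at h3
    exact h3⟩
  refine ⟨qm F z, ?_⟩
  apply orderOf_eq_of_pow_and_pow_div_prime hn
  · rw [qm_pow_ne]
    change (c.mapMatrix A) ^ n = 1 ∨ (c.mapMatrix A) ^ n = -1
    rw [← map_pow]
    rcases h1 with h | h <;> rw [h]
    · left; rw [map_one]
    · right; rw [map_neg, map_one]
  · intro p hp hpn
    rw [Ne, qm_pow_ne]
    change ¬ ((c.mapMatrix A) ^ (n / p) = 1 ∨ (c.mapMatrix A) ^ (n / p) = -1)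
    rw [← map_pow]
    rintro (h | h)
    · exact (h2 p hp hpn).1 (hinj (by rw [h, map_one]))
    · exact (h2 p hp hpn).2 (hinj (by rw [h, map_neg, map_one]))

/-- matrix literals -/
def ml (l : List (List (ZMod 3))) : MM (ZMod 3) := fun i j =>
  (l.getD (Sum.elim (fun a : Fin 3 => (a : ℕ)) (fun a : Fin 3 => 3 + (a : ℕ)) i) []).getD (Sum.elim (fun a : Fin 3 => (a : ℕ)) (fun a : Fin 3 => 3 + (a : ℕ)) j) 0

end gen

theorem pow_comb {A B C D : MM (ZMod 3)} {a b k : ℕ} (hk : a + b = k) (ha : A ^ a = B) (hb : A ^ b = C) (hm : B * C = D) : A ^ k = D := by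
  rw [← hk, pow_add, ha, hb, hm]

def a6_1 : MM (ZMod 3) := ml [[2, 0, 0, 0, 0, 0], [0, 1, 0, 0, 0, 0], [0, 0, 1, 0, 0, 0], [1, 0, 0, 2, 0, 0], [0, 0, 0, 0, 1, 0], [0, 0, 0, 0, 0, 1]]
def a6_2 : MM (ZMod 3) := ml [[1, 0, 0, 0, 0, 0], [0, 1, 0, 0, 0, 0], [0, 0, 1, 0, 0, 0], [1, 0, 0, 1, 0, 0], [0, 0, 0, 0, 1, 0], [0, 0, 0, 0, 0, 1]]
def a6_3 : MM (ZMod 3) := ml [[2, 0, 0, 0, 0, 0], [0, 1, 0, 0, 0, 0], [0, 0, 1, 0, 0, 0], [0, 0, 0, 2, 0, 0], [0, 0, 0, 0, 1, 0], [0, 0, 0, 0, 0, 1]]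
def a6_6 : MM (ZMod 3) := ml [[1, 0, 0, 0, 0, 0], [0, 1, 0, 0, 0, 0], [0, 0, 1, 0, 0, 0], [0, 0, 0, 1, 0, 0], [0, 0, 0, 0, 1, 0], [0, 0, 0, 0, 0, 1]]
theorem a6_m2 : a6_1 * a6_1 = a6_2 := by decide +kernel
theorem a6_m3 : a6_2 * a6_1 = a6_3 := by decide +kernel
theorem a6_m6 : a6_3 * a6_3 = a6_6 := by decide +kernel
theorem a6_p1 : a6_1 ^ 1 = a6_1 := pow_one _
theorem a6_p2 : a6_1 ^ 2 = a6_2 := pow_comb (a := 1) (b := 1) rfl a6_p1 a6_p1 a6_m2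
theorem a6_p3 : a6_1 ^ 3 = a6_3 := pow_comb (a := 2) (b := 1) rfl a6_p2 a6_p1 a6_m3
theorem a6_p6 : a6_1 ^ 6 = a6_6 := pow_comb (a := 3) (b := 3) rfl a6_p3 a6_p3 a6_m6
theorem a6_e : a6_1 ^ 6 = 1 := by rw [a6_p6]; decide +kernel
theorem a6_sp : a6_1 * J (Fin 3) (ZMod 3) * a6_1ᵀ = J (Fin 3) (ZMod 3) := by decide +kernel
def a10_1 : MM (ZMod 3) := ml [[0, 1, 0, 1, 0, 0], [1, 0, 0, 0, 1, 0], [0, 0, 1, 0, 0, 0], [0, 1, 0, 1, 1, 0], [0, 0, 0, 1, 0, 0], [0, 0, 0, 0, 0, 1]]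
def a10_2 : MM (ZMod 3) := ml [[1, 1, 0, 1, 2, 0], [0, 1, 0, 2, 0, 0], [0, 0, 1, 0, 0, 0], [1, 1, 0, 2, 2, 0], [0, 1, 0, 1, 1, 0], [0, 0, 0, 0, 0, 1]]
def a10_4 : MM (ZMod 3) := ml [[2, 2, 0, 1, 0, 0], [2, 0, 0, 0, 1, 0], [0, 0, 1, 0, 0, 0], [0, 0, 0, 0, 2, 0], [1, 0, 0, 2, 0, 0], [0, 0, 0, 0, 0, 1]]
def a10_5 : MM (ZMod 3) := ml [[2, 0, 0, 0, 0, 0], [0, 2, 0, 0, 0, 0], [0, 0, 1, 0, 0, 0], [0, 0, 0, 2, 0, 0], [0, 0, 0, 0, 2, 0], [0, 0, 0, 0, 0, 1]]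
def a10_10 : MM (ZMod 3) := ml [[1, 0, 0, 0, 0, 0], [0, 1, 0, 0, 0, 0], [0, 0, 1, 0, 0, 0], [0, 0, 0, 1, 0, 0], [0, 0, 0, 0, 1, 0], [0, 0, 0, 0, 0, 1]]
theorem a10_m2 : a10_1 * a10_1 = a10_2 := by decide +kernel
theorem a10_m4 : a10_2 * a10_2 = a10_4 := by decide +kernel
theorem a10_m5 : a10_4 * a10_1 = a10_5 := by decide +kernel
theorem a10_m10 : a10_5 * a10_5 = a10_10 := by decide +kernel
theorem a10_p1 : a10_1 ^ 1 = a10_1 := pow_one _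
theorem a10_p2 : a10_1 ^ 2 = a10_2 := pow_comb (a := 1) (b := 1) rfl a10_p1 a10_p1 a10_m2
theorem a10_p4 : a10_1 ^ 4 = a10_4 := pow_comb (a := 2) (b := 2) rfl a10_p2 a10_p2 a10_m4
theorem a10_p5 : a10_1 ^ 5 = a10_5 := pow_comb (a := 4) (b := 1) rfl a10_p4 a10_p1 a10_m5
theorem a10_p10 : a10_1 ^ 10 = a10_10 := pow_comb (a := 5) (b := 5) rfl a10_p5 a10_p5 a10_m10
theorem a10_e : a10_1 ^ 10 = 1 := by rw [a10_p10]; decide +kernel
theorem a10_sp : a10_1 * J (Fin 3) (ZMod 3) * a10_1ᵀ = J (Fin 3) (ZMod 3) := by decide +kernel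
def a15_1 : MM (ZMod 3) := ml [[1, 0, 0, 2, 0, 0], [0, 2, 0, 0, 2, 2], [0, 2, 0, 0, 2, 0], [0, 0, 0, 1, 0, 0], [0, 0, 1, 0, 0, 0], [0, 0, 2, 0, 2, 0]]
def a15_2 : MM (ZMod 3) := ml [[1, 0, 0, 1, 0, 0], [0, 1, 0, 0, 2, 1], [0, 1, 2, 0, 1, 1], [0, 0, 0, 1, 0, 0], [0, 2, 0, 0, 2, 0], [0, 1, 2, 0, 1, 0]]
def a15_3 : MM (ZMod 3) := ml [[1, 0, 0, 0, 0, 0], [0, 2, 1, 0, 1, 2], [0, 0, 0, 0, 2, 2], [0, 0, 0, 1, 0, 0], [0, 1, 2, 0, 1, 1], [0, 0, 1, 0, 0, 2]]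
def a15_5 : MM (ZMod 3) := ml [[1, 0, 0, 1, 0, 0], [0, 1, 0, 0, 0, 0], [0, 0, 1, 0, 0, 0], [0, 0, 0, 1, 0, 0], [0, 0, 0, 0, 1, 0], [0, 0, 0, 0, 0, 1]]
def a15_10 : MM (ZMod 3) := ml [[1, 0, 0, 2, 0, 0], [0, 1, 0, 0, 0, 0], [0, 0, 1, 0, 0, 0], [0, 0, 0, 1, 0, 0], [0, 0, 0, 0, 1, 0], [0, 0, 0, 0, 0, 1]]
def a15_15 : MM (ZMod 3) := ml [[1, 0, 0, 0, 0, 0], [0, 1, 0, 0, 0, 0], [0, 0, 1, 0, 0, 0], [0, 0, 0, 1, 0, 0], [0, 0, 0, 0, 1, 0], [0, 0, 0, 0, 0, 1]]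
theorem a15_m2 : a15_1 * a15_1 = a15_2 := by decide +kernel
theorem a15_m3 : a15_2 * a15_1 = a15_3 := by decide +kernel
theorem a15_m5 : a15_3 * a15_2 = a15_5 := by decide +kernel
theorem a15_m10 : a15_5 * a15_5 = a15_10 := by decide +kernel
theorem a15_m15 : a15_10 * a15_5 = a15_15 := by decide +kernel
theorem a15_p1 : a15_1 ^ 1 = a15_1 := pow_one _
theorem a15_p2 : a15_1 ^ 2 = a15_2 := pow_comb (a := 1) (b := 1) rfl a15_p1 a15_p1 a15_m2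
theorem a15_p3 : a15_1 ^ 3 = a15_3 := pow_comb (a := 2) (b := 1) rfl a15_p2 a15_p1 a15_m3
theorem a15_p5 : a15_1 ^ 5 = a15_5 := pow_comb (a := 3) (b := 2) rfl a15_p3 a15_p2 a15_m5
theorem a15_p10 : a15_1 ^ 10 = a15_10 := pow_comb (a := 5) (b := 5) rfl a15_p5 a15_p5 a15_m10
theorem a15_p15 : a15_1 ^ 15 = a15_15 := pow_comb (a := 10) (b := 5) rfl a15_p10 a15_p5 a15_m15
theorem a15_e : a15_1 ^ 15 = 1 := by rw [a15_p15]; decide +kernel
theorem a15_sp : a15_1 * J (Fin 3) (ZMod 3) * a15_1ᵀ = J (Fin 3) (ZMod 3) := by decide +kernel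
def a14_1 : MM (ZMod 3) := ml [[1, 0, 0, 0, 0, 1], [1, 0, 0, 0, 0, 0], [0, 2, 0, 0, 0, 0], [1, 0, 2, 0, 0, 0], [0, 2, 1, 1, 0, 1], [1, 0, 0, 0, 2, 0]]
def a14_2 : MM (ZMod 3) := ml [[2, 0, 0, 0, 2, 1], [1, 0, 0, 0, 0, 1], [2, 0, 0, 0, 0, 0], [1, 1, 0, 0, 0, 1], [1, 2, 2, 0, 2, 0], [1, 1, 2, 2, 0, 0]]
def a14_4 : MM (ZMod 3) := ml [[1, 2, 0, 2, 2, 2], [0, 1, 2, 2, 2, 1], [1, 0, 0, 0, 1, 2], [1, 1, 2, 2, 2, 2], [1, 1, 1, 0, 0, 0], [0, 2, 0, 0, 2, 1]]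
def a14_6 : MM (ZMod 3) := ml [[1, 2, 2, 1, 0, 2], [1, 1, 0, 2, 1, 0], [2, 1, 0, 1, 1, 1], [1, 2, 2, 1, 0, 1], [2, 0, 0, 0, 2, 2], [2, 2, 0, 2, 1, 2]]
def a14_7 : MM (ZMod 3) := ml [[0, 1, 2, 0, 1, 1], [1, 2, 2, 1, 0, 2], [2, 2, 0, 1, 2, 0], [2, 1, 2, 0, 2, 1], [1, 1, 2, 2, 1, 1], [2, 2, 2, 1, 1, 0]]
def a14_14 : MM (ZMod 3) := ml [[2, 0, 0, 0, 0, 0], [0, 2, 0, 0, 0, 0], [0, 0, 2, 0, 0, 0], [0, 0, 0, 2, 0, 0], [0, 0, 0, 0, 2, 0], [0, 0, 0, 0, 0, 2]]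
theorem a14_m2 : a14_1 * a14_1 = a14_2 := by decide +kernel
theorem a14_m4 : a14_2 * a14_2 = a14_4 := by decide +kernel
theorem a14_m6 : a14_4 * a14_2 = a14_6 := by decide +kernel
theorem a14_m7 : a14_6 * a14_1 = a14_7 := by decide +kernel
theorem a14_m14 : a14_7 * a14_7 = a14_14 := by decide +kernel
theorem a14_p1 : a14_1 ^ 1 = a14_1 := pow_one _
theorem a14_p2 : a14_1 ^ 2 = a14_2 := pow_comb (a := 1) (b := 1) rfl a14_p1 a14_p1 a14_m2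
theorem a14_p4 : a14_1 ^ 4 = a14_4 := pow_comb (a := 2) (b := 2) rfl a14_p2 a14_p2 a14_m4
theorem a14_p6 : a14_1 ^ 6 = a14_6 := pow_comb (a := 4) (b := 2) rfl a14_p4 a14_p2 a14_m6
theorem a14_p7 : a14_1 ^ 7 = a14_7 := pow_comb (a := 6) (b := 1) rfl a14_p6 a14_p1 a14_m7
theorem a14_p14 : a14_1 ^ 14 = a14_14 := pow_comb (a := 7) (b := 7) rfl a14_p7 a14_p7 a14_m14
theorem a14_e : a14_1 ^ 14 = -1 := by rw [a14_p14]; decide +kernel
theorem a14_sp : a14_1 * J (Fin 3) (ZMod 3) * a14_1ᵀ = J (Fin 3) (ZMod 3) := by decide +kernel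

theorem ne6 : ∀ p : ℕ, p.Prime → p ∣ 6 → a6_1 ^ (6 / p) ≠ 1 ∧ a6_1 ^ (6 / p) ≠ -1 := by
  intro p hp h
  have h1 : p = 2 ∨ p = 3 := by
    have h2 : p ∣ 2 * 3 := h
    rcases hp.dvd_mul.1 h2 with h3 | h3
    · exact Or.inl ((Nat.prime_dvd_prime_iff_eq hp (by norm_num)).1 h3)
    · exact Or.inr ((Nat.prime_dvd_prime_iff_eq hp (by norm_num)).1 h3)
  rcases h1 with rfl | rfl
  · change a6_1 ^ 3 ≠ 1 ∧ a6_1 ^ 3 ≠ -1
    rw [a6_p3]; decide +kernel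
  · change a6_1 ^ 2 ≠ 1 ∧ a6_1 ^ 2 ≠ -1
    rw [a6_p2]; decide +kernel

theorem ne10 : ∀ p : ℕ, p.Prime → p ∣ 10 → a10_1 ^ (10 / p) ≠ 1 ∧ a10_1 ^ (10 / p) ≠ -1 := by
  intro p hp h
  have h1 : p = 2 ∨ p = 5 := by
    have h2 : p ∣ 2 * 5 := h
    rcases hp.dvd_mul.1 h2 with h3 | h3
    · exact Or.inl ((Nat.prime_dvd_prime_iff_eq hp (by norm_num)).1 h3)
    · exact Or.inr ((Nat.prime_dvd_prime_iff_eq hp (by norm_num)).1 h3)
  rcases h1 with rfl | rfl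
  · change a10_1 ^ 5 ≠ 1 ∧ a10_1 ^ 5 ≠ -1
    rw [a10_p5]; decide +kernel
  · change a10_1 ^ 2 ≠ 1 ∧ a10_1 ^ 2 ≠ -1
    rw [a10_p2]; decide +kernel

theorem ne14 : ∀ p : ℕ, p.Prime → p ∣ 14 → a14_1 ^ (14 / p) ≠ 1 ∧ a14_1 ^ (14 / p) ≠ -1 := by
  intro p hp h
  have h1 : p = 2 ∨ p = 7 := by
    have h2 : p ∣ 2 * 7 := h
    rcases hp.dvd_mul.1 h2 with h3 | h3
    · exact Or.inl ((Nat.prime_dvd_prime_iff_eq hp (by norm_num)).1 h3)
    · exact Or.inr ((Nat.prime_dvd_prime_iff_eq hp (by norm_num)).1 h3)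
  rcases h1 with rfl | rfl
  · change a14_1 ^ 7 ≠ 1 ∧ a14_1 ^ 7 ≠ -1
    rw [a14_p7]; decide +kernel
  · change a14_1 ^ 2 ≠ 1 ∧ a14_1 ^ 2 ≠ -1
    rw [a14_p2]; decide +kernel

theorem ne15 : ∀ p : ℕ, p.Prime → p ∣ 15 → a15_1 ^ (15 / p) ≠ 1 ∧ a15_1 ^ (15 / p) ≠ -1 := by
  intro p hp h
  have h1 : p = 3 ∨ p = 5 := by
    have h2 : p ∣ 3 * 5 := h
    rcases hp.dvd_mul.1 h2 with h3 | h3
    · exact Or.inl ((Nat.prime_dvd_prime_iff_eq hp (by norm_num)).1 h3)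
    · exact Or.inr ((Nat.prime_dvd_prime_iff_eq hp (by norm_num)).1 h3)
  rcases h1 with rfl | rfl
  · change a15_1 ^ 5 ≠ 1 ∧ a15_1 ^ 5 ≠ -1
    rw [a15_p5]; decide +kernel
  · change a15_1 ^ 3 ≠ 1 ∧ a15_1 ^ 3 ≠ -1
    rw [a15_p3]; decide +kernel

section fin
variable {F : Type*} [Field F] [Fintype F] (hF : Fintype.card F = 3)

include hF in
theorem exists_all : (∃ x : Cfsg.PSp 3 F, orderOf x = 6) ∧ (∃ x : Cfsg.PSp 3 F, orderOf x = 10) ∧ (∃ x : Cfsg.PSp 3 F, orderOf x = 14) ∧ (∃ x : Cfsg.PSp 3 F, orderOf x = 15) := by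
  have : Fact (Nat.Prime 3) := ⟨Nat.prime_three⟩
  have : CharP F 3 := charP_of_card_eq_prime_pow (p := 3) (f := 1) (by rw [hF]; norm_num)
  exact ⟨exists_order a6_1 a6_sp 6 (by norm_num) (Or.inl a6_e) ne6, exists_order a10_1 a10_sp 10 (by norm_num) (Or.inl a10_e) ne10,
    exists_order a14_1 a14_sp 14 (by norm_num) (Or.inr a14_e) ne14, exists_order a15_1 a15_sp 15 (by norm_num) (Or.inl a15_e) ne15⟩

include hF in
theorem card_psp : Nat.card (Cfsg.PSp 3 F) = 4585351680 := by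
  have h1 : Nat.card (symplecticGroup (Fin 3) F) = Nat.card (Cfsg.PSp 3 F) * Nat.card (Subgroup.center (symplecticGroup (Fin 3) F)) :=
    Subgroup.card_eq_card_quotient_mul_card_subgroup _
  rw [Cfsg.Agent.ClassSp.card_fin, Cfsg.Agent.ClassSp.card_center, hF] at h1
  norm_num [Finset.prod_range_succ] at h1
  omega

include hF in
theorem primes (p : ℕ) (hp : p.Prime) : p ∣ Nat.card (Cfsg.PSp 3 F) ↔ p = 2 ∨ p = 3 ∨ p = 5 ∨ p = 7 ∨ p = 13 := by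
  rw [card_psp hF]
  constructor
  · intro h
    have h3 : p ∈ (4585351680 : ℕ).primeFactors := Nat.mem_primeFactors.2 ⟨hp, h, by norm_num⟩
    have h4 : (4585351680 : ℕ).primeFactors = {2, 3, 5, 7, 13} := by
      have : (4585351680 : ℕ) = 2 ^ 9 * (3 ^ 9 * (5 * (7 * 13))) := by norm_num
      rw [this, Nat.primeFactors_mul (by norm_num) (by norm_num), Nat.primeFactors_mul (by norm_num) (by norm_num), Nat.primeFactors_mul (by norm_num) (by norm_num),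
        Nat.primeFactors_mul (by norm_num) (by norm_num), Nat.primeFactors_pow _ (by norm_num), Nat.primeFactors_pow _ (by norm_num), Nat.Prime.primeFactors Nat.prime_two, Nat.Prime.primeFactors Nat.prime_three,
        Nat.Prime.primeFactors (by norm_num : Nat.Prime 5), Nat.Prime.primeFactors (by norm_num : Nat.Prime 7), Nat.Prime.primeFactors (by norm_num : Nat.Prime 13)]
      rfl
    rw [h4] at h3
    simpa using h3
  · rintro (rfl | rfl | rfl | rfl | rfl) <;> norm_num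

include hF in
theorem edges (p q : ℕ) (hp : p.Prime) (hq : q.Prime) (hpq : p ≠ q) :
    (∃ g : Cfsg.PSp 3 F, orderOf g = p * q) ↔ (p * q = 6 ∨ p * q = 10 ∨ p * q = 14 ∨ p * q = 15) := by
  constructor
  · rintro ⟨g, hg⟩
    have h1 := (primes hF p hp).1 ((dvd_mul_right p q).trans (hg ▸ orderOf_dvd_natCard g))
    have h2 := (primes hF q hq).1 ((dvd_mul_left q p).trans (hg ▸ orderOf_dvd_natCard g))
    have hg' : orderOf g = q * p := by rw [hg, mul_comm]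
    rcases h1 with rfl | rfl | rfl | rfl | rfl <;> rcases h2 with rfl | rfl | rfl | rfl | rfl
    all_goals first
      | exact absurd rfl hpq
      | (left; norm_num; done)
      | (right; left; norm_num; done)
      | (right; right; left; norm_num; done)
      | (right; right; right; norm_num; done)
      | exact absurd hg (not_thirteen hF g _ hq)
      | exact absurd hg' (not_thirteen hF g _ hp)
      | exact absurd hg (not_seven hF g _ hq (by norm_num))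
      | exact absurd hg' (not_seven hF g _ hp (by norm_num))
  · obtain ⟨h6, h10, h14, h15⟩ := exists_all hF
    rintro (h | h | h | h) <;> rw [h]
    · exact h6
    · exact h10
    · exact h14
    · exact h15

end fin

end Cfsg.Agent.H41.PSpSix
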