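import Mathlib
import Cfsg.Agent.Fus.SLn
import Cfsg.Agent.H40.GLBruhat

/-! Sylow 2-subgroups of `SL_n(2)` with trivial intersection are opposite. -/

set_option autoImplicit false
set_option linter.unusedSimpArgs false

open Matrix
open scoped Pointwise

namespace Cfsg.Agent.H41

open Cfsg.Agent.Fus.SLn (U UU UT)

variable {m : ℕ}

local notation "K2" => ZMod 2
local notation "S2" => Matrix.SpecialLinearGroup (Fin (m + 3)) (ZMod 2)

theorem zmod2_eq_one {x : ZMod 2} (hx : x ≠ 0) : x = 1 := by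
  revert x; decide

/-- over `F₂` invertible upper triangular matrices are unitriangular -/
theorem UU_of_UT {g : S2} (hg : UT g) : UU g := by
  exact ⟨hg, fun i => zmod2_eq_one (hg.ne_zero i)⟩

theorem mem_U_of_normalizer {g : S2} (hg : g ∈ Subgroup.normalizer ((U K2 m : Subgroup S2) : Set S2)) : g ∈ U K2 m :=
  UU_of_UT (Cfsg.Agent.Fus.SLn.UT_of_normalizer hg)

theorem exists_sylow_U : ∃ P : Sylow 2 S2, (P : Subgroup S2) = U K2 m :=
  Cfsg.Agent.Fus.exists_sylow_of_normalizer (Cfsg.Agent.Fus.SLn.isPGroup_U 2) fun g hg _ => mem_U_of_normalizer hg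

/-- Conversion from `GL` over `F₂`. -/
def ofGL2 (g : GL (Fin (m + 3)) (ZMod 2)) : S2 :=
  ⟨(g : Matrix (Fin (m + 3)) (Fin (m + 3)) (ZMod 2)), zmod2_eq_one (by
    have := g.det.ne_zero
    simpa using this)⟩

theorem ofGL2_mul (g h : GL (Fin (m + 3)) (ZMod 2)) : ofGL2 (g * h) = ofGL2 g * ofGL2 h := rfl

theorem ofGL2_toGL (g : S2) : ofGL2 (Matrix.SpecialLinearGroup.toGL g) = g := rfl

theorem mem_U_of_blockTriangular {g : GL (Fin (m + 3)) (ZMod 2)}
    (hg : (g : Matrix (Fin (m + 3)) (Fin (m + 3)) (ZMod 2)).BlockTriangular id) : ofGL2 g ∈ U K2 m :=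
  UU_of_UT fun i j hij => hg hij

/-- conjugate of an elementary matrix by a permutation matrix -/
theorem perm_conj_tv (σ : Equiv.Perm (Fin (m + 3))) {i j : Fin (m + 3)} (hij : i ≠ j) :
    ofGL2 (Cfsg.Agent.H40.permGL (ZMod 2) (m + 3) σ) * Matrix.SpecialLinearGroup.transvection hij 1 =
      Matrix.SpecialLinearGroup.transvection (σ.injective.ne hij) 1 * ofGL2 (Cfsg.Agent.H40.permGL (ZMod 2) (m + 3) σ) := by
  apply Subtype.ext
  ext a b
  have h1 : ∀ x y, ((ofGL2 (Cfsg.Agent.H40.permGL (ZMod 2) (m + 3) σ) : S2) : Matrix (Fin (m + 3)) (Fin (m + 3)) (ZMod 2)) x y =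
      if x = σ y then 1 else 0 := fun x y => rfl
  rw [Cfsg.Agent.Fus.SLn.mul_tv_apply, Cfsg.Agent.Fus.SLn.tv_mul_apply, h1, h1, h1]
  congr 1
  by_cases hb : b = j
  · by_cases ha : a = σ i <;> simp [hb, ha]
  · by_cases ha : a = σ i <;> simp [hb, ha, Ne.symm hb]

/-- Two Sylow 2-subgroups `U`, `g U g⁻¹` with trivial intersection are opposite. -/
theorem exists_opp (g : S2) (hg : U K2 m ⊓ MulAut.conj g • U K2 m = ⊥) :
    ∃ u ∈ U K2 m, MulAut.conj g • U K2 m =
      MulAut.conj (u * ofGL2 (Cfsg.Agent.H40.permGL (ZMod 2) (m + 3) Fin.revPerm)) • U K2 m := by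
  obtain ⟨b, b', hb, hb', σ, hσ⟩ := Cfsg.Agent.H40.exists_bruhat (Matrix.SpecialLinearGroup.toGL g)
  have hgeq : g = ofGL2 b * ofGL2 (Cfsg.Agent.H40.permGL (ZMod 2) (m + 3) σ) * ofGL2 b' := by
    rw [← ofGL2_mul, ← ofGL2_mul, ← hσ, ofGL2_toGL]
  have hbU := mem_U_of_blockTriangular hb
  have hbU' := mem_U_of_blockTriangular hb'
  have hgU : MulAut.conj g • U K2 m = MulAut.conj (ofGL2 b * ofGL2 (Cfsg.Agent.H40.permGL (ZMod 2) (m + 3) σ)) • U K2 m := by
    rw [hgeq, map_mul, mul_smul]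
    congr 1
    exact Subgroup.conj_smul_eq_self_of_mem hbU'
  refine ⟨ofGL2 b, hbU, ?_⟩
  rw [hgU]
  -- `σ` is the reversal
  have hanti : ∀ i j : Fin (m + 3), i < j → σ j < σ i := by
    intro i j hij
    by_contra hcon
    have hlt : σ i < σ j := lt_of_le_of_ne (not_lt.mp hcon) (σ.injective.ne hij.ne)
    have h1 : Matrix.SpecialLinearGroup.transvection (hlt.ne) (1 : ZMod 2) ∈ U K2 m := Cfsg.Agent.Fus.SLn.tv_mem_U hlt 1
    have h2 : Matrix.SpecialLinearGroup.transvection (hij.ne) (1 : ZMod 2) ∈ U K2 m := Cfsg.Agent.Fus.SLn.tv_mem_U hij 1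
    have h3 : ofGL2 b * Matrix.SpecialLinearGroup.transvection (hlt.ne) (1 : ZMod 2) * (ofGL2 b)⁻¹ ∈ U K2 m ⊓ MulAut.conj g • U K2 m := by
      refine Subgroup.mem_inf.mpr ⟨mul_mem (mul_mem hbU h1) (inv_mem hbU), ?_⟩
      rw [hgU]
      rw [Subgroup.mem_pointwise_smul_iff_inv_smul_mem]
      have h4 := perm_conj_tv σ hij.ne
      have h5 : Matrix.SpecialLinearGroup.transvection (hlt.ne) (1 : ZMod 2) =
          ofGL2 (Cfsg.Agent.H40.permGL (ZMod 2) (m + 3) σ) * Matrix.SpecialLinearGroup.transvection (hij.ne) (1 : ZMod 2) *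
            (ofGL2 (Cfsg.Agent.H40.permGL (ZMod 2) (m + 3) σ))⁻¹ := by
        rw [eq_mul_inv_iff_mul_eq]; exact h4.symm
      rw [h5, ← map_inv, MulAut.smul_def, MulAut.conj_apply]
      convert h2 using 1
      group
    rw [hg, Subgroup.mem_bot] at h3
    have h6 : Matrix.SpecialLinearGroup.transvection (hlt.ne) (1 : ZMod 2) = (1 : S2) := by
      have : Matrix.SpecialLinearGroup.transvection (hlt.ne) (1 : ZMod 2) = (ofGL2 b)⁻¹ * (ofGL2 b * Matrix.SpecialLinearGroup.transvection (hlt.ne) (1 : ZMod 2) * (ofGL2 b)⁻¹) * ofGL2 b := by group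
      rw [this, h3]; group
    have h7 := Cfsg.Agent.Fus.SLn.tv_apply (K := ZMod 2) hlt.ne 1 (σ i) (σ j)
    rw [h6, Matrix.SpecialLinearGroup.coe_one, Matrix.one_apply_ne hlt.ne] at h7
    simp [hlt.ne] at h7
  have hrev : σ = Fin.revPerm := by
    have hmono : StrictMono (fun i => σ (Fin.rev i)) := fun i j hij => hanti _ _ (Fin.rev_lt_rev.mpr hij)
    have h8 : ∀ i, σ (Fin.rev i) = i := by
      intro i
      have := (StrictMono.range_inj hmono strictMono_id).mp (by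
        rw [Set.range_id]
        exact (σ.surjective.comp Fin.rev_surjective).range_eq)
      exact congrFun this i
    ext i
    have := h8 (Fin.rev i)
    rw [Fin.rev_rev] at this
    rw [this]; rfl
  rw [hrev]

/-- Ordered pairs of Sylow 2-subgroups with trivial intersection form one orbit. -/
theorem sylow_pair (P Q : Sylow 2 S2) (hPQ : (P : Subgroup S2) ⊓ Q = ⊥) :
    ∃ s : S2, MulAut.conj s • U K2 m = P ∧
      MulAut.conj (s * ofGL2 (Cfsg.Agent.H40.permGL (ZMod 2) (m + 3) Fin.revPerm)) • U K2 m = Q := by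
  obtain ⟨R, hR⟩ := exists_sylow_U (m := m)
  obtain ⟨a, ha⟩ := MulAction.exists_smul_eq S2 R P
  obtain ⟨c, hc⟩ := MulAction.exists_smul_eq S2 R Q
  have ha' : MulAut.conj a • U K2 m = P := by rw [← hR, ← ha]; rfl
  have hc' : MulAut.conj c • U K2 m = Q := by rw [← hR, ← hc]; rfl
  have h1 : U K2 m ⊓ MulAut.conj (a⁻¹ * c) • U K2 m = ⊥ := by
    rw [← ha', ← hc'] at hPQ
    have h2 : MulAut.conj a • (U K2 m ⊓ MulAut.conj (a⁻¹ * c) • U K2 m) = ⊥ := by
      rw [Subgroup.smul_inf, ← mul_smul, ← map_mul, mul_inv_cancel_left, hPQ]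
    rw [← inv_smul_smul (MulAut.conj a) (U K2 m ⊓ MulAut.conj (a⁻¹ * c) • U K2 m), h2, Subgroup.smul_bot]
  obtain ⟨u, hu, h3⟩ := exists_opp _ h1
  refine ⟨a * u, ?_, ?_⟩
  · rw [map_mul, mul_smul, Subgroup.conj_smul_eq_self_of_mem hu, ha']
  · rw [mul_assoc, map_mul, mul_smul, ← h3, ← mul_smul, ← map_mul, mul_inv_cancel_left, hc']

end Cfsg.Agent.H41
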