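import Mathlib
import Cfsg.Agent.Uni.SU

set_option autoImplicit false
set_option linter.unusedSectionVars false

/-! Determinants on centralizers of involutions in unitary groups in characteristic two. -/

namespace Cfsg.Agent.H41

open Cfsg.Agent.Uni Matrix

section
variable {F : Type*} [Field F] [Fintype F] {n q : ℕ}

/-- a hermitian form which is not zero has an anisotropic vector (abstract version) -/
theorem exists_form_one (hF : Fintype.card F = q ^ 2) (k : (Fin n → F) → (Fin n → F) → F)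
    (hadd : ∀ u u' v, k (u + u') v = k u v + k u' v) (hsm : ∀ (c : F) u v, k (c • u) v = c * k u v)
    (hsym : ∀ u v, (k u v) ^ q = k v u) (hne : ∃ u v, k u v ≠ 0) : ∃ v, k v v = 1 := by
  have haddr : ∀ u v v', k u (v + v') = k u v + k u v' := by
    intro u v v'
    rw [← hsym, hadd, add_pow_q hF, hsym, hsym]
  have hsmr : ∀ (c : F) u v, k u (c • v) = c ^ q * k u v := by
    intro c u v
    rw [← hsym, hsm, mul_pow, hsym]
  have h1 : ∃ v, k v v ≠ 0 := by
    obtain ⟨w, u, hwu⟩ := hne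
    by_contra hcon
    push Not at hcon
    obtain ⟨z, hz⟩ := exists_trace_eq hF (c := 1) (one_pow q)
    have h2 := hcon (w + ((z / k w u) ^ q) • u)
    rw [hadd, haddr, haddr, hcon w, hsm, hsmr, hsm, hsmr, hcon u, pow_q_pow_q hF, ← hsym w u, ← mul_pow] at h2
    rw [div_mul_cancel₀ z hwu] at h2
    apply one_ne_zero (α := F)
    rw [← hz]
    linear_combination h2
  obtain ⟨v, hv⟩ := h1
  have h2 : ((k v v)⁻¹) ^ q = (k v v)⁻¹ := by rw [inv_pow, hsym]
  obtain ⟨d, hd⟩ := exists_norm_eq hF h2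
  refine ⟨d • v, ?_⟩
  rw [hsm, hsmr, ← mul_assoc, ← pow_succ', hd, inv_mul_cancel₀ hv]

theorem exists_centralizing_det [CharP F 2] (hF : Fintype.card F = q ^ 2) (A : Matrix (Fin n) (Fin n) F) (hA : Pres q A)
    (hA2 : A * A = 1) (hA1 : A ≠ 1) (δ : F) (hδ : δ ^ (q + 1) = 1) :
    ∃ U : Matrix (Fin n) (Fin n) F, Pres q U ∧ U * A = A * U ∧ U.det = δ := by
  obtain ⟨h, hh⟩ : ∃ h, h = Cfsg.hermForm n F q := ⟨_, rfl⟩
  have hadd : ∀ u u' v, h (u + u') v = h u v + h u' v := by rw [hh]; exact hermForm_add_left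
  have hsm : ∀ (c : F) u v, h (c • u) v = c * h u v := by rw [hh]; exact hermForm_smul_left
  have haddr : ∀ u v v', h u (v + v') = h u v + h u v' := by rw [hh]; exact hermForm_add_right hF
  have hsmr : ∀ (c : F) u v, h u (c • v) = c ^ q * h u v := by rw [hh]; exact hermForm_smul_right
  have hsym : ∀ u v, (h u v) ^ q = h v u := by rw [hh]; exact hermForm_symm hF
  have hsub : ∀ u u' v, h (u - u') v = h u v - h u' v := by rw [hh]; exact hermForm_sub_left
  have hsubr : ∀ u v v', h u (v - v') = h u v - h u v' := by rw [hh]; exact hermForm_sub_right hF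
  have hA' : ∀ u v, h (A *ᵥ u) (A *ᵥ v) = h u v := by rw [hh]; exact hA
  obtain ⟨N, hN⟩ : ∃ N, N = A - 1 := ⟨_, rfl⟩
  have hAN : A = 1 + N := by rw [hN]; abel
  have hN0 : N ≠ 0 := by rw [hN]; exact sub_ne_zero.mpr hA1
  have hNv : ∀ v, N *ᵥ v = A *ᵥ v - v := by
    intro v
    rw [hN, sub_mulVec, one_mulVec]
  have hAs : ∀ u v, h (A *ᵥ u) v = h u (A *ᵥ v) := by
    intro u v
    rw [← hA' (A *ᵥ u) v, mulVec_mulVec, hA2, one_mulVec]
  have hNs : ∀ u v, h (N *ᵥ u) v = h u (N *ᵥ v) := by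
    intro u v
    rw [hNv, hNv, hsub, hsubr, hAs]
  have hcM : CharP (Matrix (Fin n) (Fin n) F) 2 ∨ IsEmpty (Fin n) := by
    rcases isEmpty_or_nonempty (Fin n) with h | h
    · exact Or.inr h
    · exact Or.inl (Matrix.charP 2)
  have hNN : N * N = 0 := by
    have h1 : N * N = A * A + 1 - (A + A) := by rw [hN]; noncomm_ring
    have h2 : ∀ M : Matrix (Fin n) (Fin n) F, M + M = 0 := by
      intro M
      ext i j
      exact CharTwo.add_self_eq_zero _
    rw [h1, hA2, h2, h2, sub_zero]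
  have hNNv : ∀ v, N *ᵥ (N *ᵥ v) = 0 := by
    intro v
    rw [mulVec_mulVec, hNN, zero_mulVec]
  have hzr : ∀ u, h u 0 = 0 := by rw [hh]; exact hermForm_zero_right hF
  obtain ⟨v, hv⟩ : ∃ v, h v (N *ᵥ v) = 1 := by
    apply exists_form_one hF (fun u v => h u (N *ᵥ v))
    · intro u u' v; exact hadd _ _ _
    · intro c u v; exact hsm _ _ _
    · intro u v
      rw [hsym, hNs]
    · by_contra hcon
      push Not at hcon
      apply hN0
      have h1 : ∀ v, N *ᵥ v = 0 := by
        intro v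
        apply hermForm_nondeg hF
        intro w
        have h2 := hcon w v
        rw [hh] at h2
        exact (hermForm_eq_zero_comm hF).mp h2
      ext i j
      have h2 := congrFun (h1 (Pi.single j 1)) i
      rw [mulVec_single_one] at h2
      exact h2
  obtain ⟨w, hw⟩ : ∃ w, w = N *ᵥ v := ⟨_, rfl⟩
  rw [← hw] at hv
  have hwv : h w v = 1 := by rw [← hsym, hv, one_pow]
  have hww : h w w = 0 := by
    rw [hw, hNs, hNNv, hzr]
  obtain ⟨c, hc⟩ : ∃ c, c = h v v := ⟨_, rfl⟩
  have hcq : c ^ q = c := by rw [hc]; exact hsym v v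
  -- square root of δ
  obtain ⟨l, hl⟩ : ∃ l : F, l ^ 2 = δ := by
    obtain ⟨b, hb⟩ := FiniteField.isSquare_of_char_two (by rw [ringChar.eq_iff]; infer_instance) δ
    exact ⟨b, by rw [pow_two]; exact hb.symm⟩
  have hlq : l ^ (q + 1) = 1 := by
    have h1 : (l ^ (q + 1)) ^ 2 = 1 := by rw [← pow_mul, mul_comm, pow_mul, hl, hδ]
    have h2 : (l ^ (q + 1) - 1) ^ 2 = 0 := by
      rw [sub_pow_char_of_commute 2 (Commute.one_right _), one_pow, h1, sub_self]
    have h3 := pow_eq_zero_iff (two_ne_zero) |>.mp h2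
    exact sub_eq_zero.mp h3
  let B : Matrix (Fin n) (Fin 2) F := Matrix.of fun i j => if j = 0 then v i else w i
  let R : Matrix (Fin 2) (Fin n) F := Matrix.of fun j i => if j = 0 then (w i) ^ q else (v i) ^ q - c * (w i) ^ q
  have hR0 : ∀ x, (R *ᵥ x) 0 = h x w := by
    intro x
    rw [hh, hermForm_def]
    show ∑ i, R 0 i * x i = _
    apply Finset.sum_congr rfl
    intro i _
    simp only [R, of_apply, if_pos]
    ring
  have hR1 : ∀ x, (R *ᵥ x) 1 = h x v - c * h x w := by
    intro x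
    rw [hh, hermForm_def, hermForm_def, Finset.mul_sum, ← Finset.sum_sub_distrib]
    show ∑ i, R 1 i * x i = _
    apply Finset.sum_congr rfl
    intro i _
    simp only [R, of_apply, if_neg (by decide : (1 : Fin 2) ≠ 0)]
    ring
  have hBy : ∀ y : Fin 2 → F, B *ᵥ y = y 0 • v + y 1 • w := by
    intro y
    funext i
    show ∑ j, B i j * y j = _
    rw [Fin.sum_univ_two]
    simp [B, mul_comm]
  have hRB : R * B = 1 := by
    ext i j
    have h1 : (R * B) i j = (R *ᵥ (fun k => B k j)) i := rfl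
    rw [h1]
    fin_cases j <;> fin_cases i
    · show (R *ᵥ v) 0 = _
      rw [hR0, hv]; rfl
    · show (R *ᵥ v) 1 = _
      rw [hR1, hv, ← hc]; simp
    · show (R *ᵥ w) 0 = _
      rw [hR0, hww]; rfl
    · show (R *ᵥ w) 1 = _
      rw [hR1, hww, hwv]; simp
  obtain ⟨U, hU⟩ : ∃ U : Matrix (Fin n) (Fin n) F, U = 1 + B * ((l - 1) • R) := ⟨_, rfl⟩
  have hUx : ∀ x, U *ᵥ x = x + (l - 1) • (h x w • v + (h x v - c * h x w) • w) := by
    intro x
    rw [hU, add_mulVec, one_mulVec, ← mulVec_mulVec, hBy, smul_mulVec]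
    simp only [Pi.smul_apply, smul_eq_mul, hR0, hR1]
    rw [smul_add, smul_smul, smul_smul]
  refine ⟨U, ?_, ?_, ?_⟩
  · intro x y
    show Cfsg.hermForm n F q (U *ᵥ x) (U *ᵥ y) = Cfsg.hermForm n F q x y
    rw [← hh, hUx, hUx]
    have e1 : h v y = (h y v) ^ q := (hsym y v).symm
    have e2 : h w y = (h y w) ^ q := (hsym y w).symm
    have e3 : (l - 1) ^ q = l ^ q - 1 := by rw [sub_pow_q hF, one_pow]
    have e4 : (h y v - c * h y w) ^ q = (h y v) ^ q - c * (h y w) ^ q := by rw [sub_pow_q hF, mul_pow, hcq]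
    have e5 : l ^ q * l = 1 := by rw [← pow_succ]; exact hlq
    simp only [hadd, haddr, hsm, hsmr, hv, hwv, hww, ← hc, e1, e2, e3, e4]
    linear_combination ((h x w * (h y v) ^ q + (h x v - c * h x w) * (h y w) ^ q)) * e5
  · have key : ∀ x, U *ᵥ (N *ᵥ x) = N *ᵥ (U *ᵥ x) := by
      intro x
      rw [hUx, hUx, mulVec_add, mulVec_smul, mulVec_add, mulVec_smul, mulVec_smul]
      rw [hNs x w, hNs x v, ← hw]
      have h1 : N *ᵥ w = 0 := by rw [hw]; exact hNNv v
      rw [h1, hzr, zero_smul, zero_add, mul_zero, sub_zero, smul_zero, add_zero]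
    have h2 : U * N = N * U := by
      ext i j
      have h3 := congrFun (key (Pi.single j 1)) i
      rw [mulVec_mulVec, mulVec_mulVec, mulVec_single_one, mulVec_single_one] at h3
      exact h3
    rw [hAN, mul_add, add_mul, mul_one, one_mul, h2]
  · rw [hU, det_one_add_mul_comm, Matrix.smul_mul, hRB, ← hl]
    rw [det_fin_two]
    simp
    ring

end

end Cfsg.Agent.H41
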