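import Mathlib
import Cfsg.Agent.H41.Sourour
import Cfsg.Agent.ClassSp.Basic
import Cfsg.Agent.ClassSp.Simple

/-! `Sp₄(F)`: block triangular elements are conjugate to a block diagonal one; LU factorizations. -/

set_option autoImplicit false
set_option linter.unusedSimpArgs false

open Matrix

namespace Cfsg.Agent.H41

variable {F : Type*} [Field F]

local notation "Sp4" => symplecticGroup (Fin 2) F

/-- A nonscalar 2x2 matrix is similar to the companion matrix. -/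
theorem exists_comp_conj2 (b : Matrix (Fin 2) (Fin 2) F) (hb : Nonscalar b) :
    ∃ g : Matrix (Fin 2) (Fin 2) F, g.det ≠ 0 ∧ b * g = g * !![0, - b.det; 1, b.trace] := by
  have key : ∀ x y : F, b * !![x, b 0 0 * x + b 0 1 * y; y, b 1 0 * x + b 1 1 * y] =
      !![x, b 0 0 * x + b 0 1 * y; y, b 1 0 * x + b 1 1 * y] * !![0, - b.det; 1, b.trace] := by
    intro x y
    rw [Matrix.det_fin_two, Matrix.trace_fin_two]
    ext i j
    fin_cases i <;> fin_cases j <;> simp [Matrix.mul_apply, Fin.sum_univ_two] <;> ring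
  by_cases h1 : b 1 0 = 0
  · by_cases h2 : b 0 1 = 0
    · have h3 : b 0 0 ≠ b 1 1 := by
        intro h
        apply hb (b 0 0)
        ext i j
        fin_cases i <;> fin_cases j <;> simp [h1, h2, h]
      refine ⟨_, ?_, key 1 1⟩
      rw [Matrix.det_fin_two_of]
      intro h
      apply h3
      linear_combination -h + h1 - h2
    · refine ⟨_, ?_, key 0 1⟩
      rw [Matrix.det_fin_two_of]
      intro h
      apply h2
      linear_combination -h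
  · refine ⟨_, ?_, key 1 0⟩
    rw [Matrix.det_fin_two_of]
    intro h
    apply h1
    linear_combination h

/-- The block diagonal element. -/
def xel (τ δ : F) (hδ : δ ≠ 0) : symplecticGroup (Fin 2) F :=
  ⟨fromBlocks !![0, -δ; 1, τ] 0 0 !![τ / δ, -δ⁻¹; 1, 0], by
    rw [SymplecticGroup.fromBlocks_mem_iff]
    refine ⟨by simp, by simp, ?_⟩
    ext i j
    fin_cases i <;> fin_cases j <;> simp [Matrix.mul_apply, Fin.sum_univ_two, hδ]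
    field_simp
    ring⟩

/-- Block diagonal element from an invertible matrix. -/
theorem dg_mem (g : Matrix (Fin 2) (Fin 2) F) (hg : g.det ≠ 0) :
    fromBlocks g 0 0 (g⁻¹)ᵀ ∈ symplecticGroup (Fin 2) F := by
  rw [SymplecticGroup.fromBlocks_mem_iff]
  refine ⟨by simp, by simp, ?_⟩
  rw [← Matrix.transpose_mul, Matrix.nonsing_inv_mul g (isUnit_iff_ne_zero.mpr hg)]
  simp

theorem dg_inv_mul (g : Matrix (Fin 2) (Fin 2) F) (hg : g.det ≠ 0) (B : symplecticGroup (Fin 2) F)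
    (b1 M d : Matrix (Fin 2) (Fin 2) F) (hB : (B : Matrix (Fin 2 ⊕ Fin 2) (Fin 2 ⊕ Fin 2) F) = fromBlocks b1 0 M d) :
    (((⟨_, dg_mem g hg⟩ : symplecticGroup (Fin 2) F)⁻¹ * B * ⟨_, dg_mem g hg⟩ : symplecticGroup (Fin 2) F) :
      Matrix (Fin 2 ⊕ Fin 2) (Fin 2 ⊕ Fin 2) F) = fromBlocks (g⁻¹ * b1 * g) 0 (gᵀ * M * g) (gᵀ * d * (g⁻¹)ᵀ) := by
  have hu : IsUnit g.det := isUnit_iff_ne_zero.mpr hg
  have h1 : ((⟨_, dg_mem g hg⟩ : symplecticGroup (Fin 2) F) : Matrix (Fin 2 ⊕ Fin 2) (Fin 2 ⊕ Fin 2) F) = fromBlocks g 0 0 (g⁻¹)ᵀ := rfl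
  have h2 : (((⟨_, dg_mem g hg⟩ : symplecticGroup (Fin 2) F)⁻¹ : symplecticGroup (Fin 2) F) : Matrix (Fin 2 ⊕ Fin 2) (Fin 2 ⊕ Fin 2) F) =
      fromBlocks g⁻¹ 0 0 gᵀ := by
    rw [SymplecticGroup.coe_inv']
    rw [h1]
    apply Matrix.inv_eq_left_inv
    rw [fromBlocks_multiply, ← Matrix.transpose_mul, Matrix.nonsing_inv_mul g hu]
    simp
  rw [Submonoid.coe_mul, Submonoid.coe_mul, h2, h1, hB, fromBlocks_multiply, fromBlocks_multiply]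
  simp [mul_assoc]

theorem lower_conj_aux {τ δ : F} (hδ : δ ≠ 0) (h1 : δ ≠ 1) (h2 : (δ + 1) ^ 2 ≠ τ ^ 2)
    (B : symplecticGroup (Fin 2) F) (M d : Matrix (Fin 2) (Fin 2) F)
    (hB : (B : Matrix (Fin 2 ⊕ Fin 2) (Fin 2 ⊕ Fin 2) F) = fromBlocks !![0, -δ; 1, τ] 0 M d) :
    IsConj (xel τ δ hδ) B := by
  have hmem := B.2
  rw [hB, SymplecticGroup.fromBlocks_mem_iff] at hmem
  obtain ⟨hm1, -, hm3⟩ := hmem
  have hd : d = !![τ / δ, -δ⁻¹; 1, 0] := by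
    have h3 : !![τ / δ, -δ⁻¹; 1, 0] * (!![0, -δ; 1, τ] : Matrix (Fin 2) (Fin 2) F)ᵀ = 1 := by
      ext i j
      fin_cases i <;> fin_cases j <;> simp [Matrix.mul_apply, Fin.sum_univ_two, hδ]
      field_simp
      ring
    have h4 : (!![0, -δ; 1, τ] : Matrix (Fin 2) (Fin 2) F)ᵀ * d = 1 := by simpa using hm3
    calc d = (!![τ / δ, -δ⁻¹; 1, 0] * (!![0, -δ; 1, τ] : Matrix (Fin 2) (Fin 2) F)ᵀ) * d := by rw [h3, one_mul]
      _ = _ := by rw [mul_assoc, h4, mul_one]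
  have hM : M 1 1 = - δ * M 0 0 + τ * M 1 0 := by
    have := congrFun (congrFun hm1 0) 1
    simp [Matrix.mul_apply, Fin.sum_univ_two] at this
    rw [this]; ring
  have hD : (δ - 1) * ((δ + 1) ^ 2 - τ ^ 2) ≠ 0 := mul_ne_zero (sub_ne_zero.mpr h1) (sub_ne_zero.mpr h2)
  obtain ⟨t1, ht1⟩ : ∃ t1 : F, t1 = M 1 0 := ⟨_, rfl⟩
  obtain ⟨t2, ht2⟩ : ∃ t2 : F, t2 = - δ * M 0 0 + τ * M 1 0 := ⟨_, rfl⟩
  obtain ⟨t3, ht3⟩ : ∃ t3 : F, t3 = - δ * M 0 1 + τ * t2 := ⟨_, rfl⟩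
  obtain ⟨y1, hy1⟩ : ∃ y1 : F, y1 = (-2 * δ * τ * (t2 - τ * t1) + (δ + 1) * (t3 - (τ ^ 2 - 1) * t1)) / ((δ - 1) * ((δ + 1) ^ 2 - τ ^ 2)) := ⟨_, rfl⟩
  obtain ⟨y2, hy2⟩ : ∃ y2 : F, y2 = (τ * (t3 - (τ ^ 2 - 1) * t1) - (δ ^ 2 + τ ^ 2 - 1) * (t2 - τ * t1)) / ((δ - 1) * ((δ + 1) ^ 2 - τ ^ 2)) := ⟨_, rfl⟩
  have hy1' : y1 * ((δ - 1) * ((δ + 1) ^ 2 - τ ^ 2)) = (-2 * δ * τ * (t2 - τ * t1) + (δ + 1) * (t3 - (τ ^ 2 - 1) * t1)) := by
    rw [hy1]; field_simp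
  have hy2' : y2 * ((δ - 1) * ((δ + 1) ^ 2 - τ ^ 2)) = (τ * (t3 - (τ ^ 2 - 1) * t1) - (δ ^ 2 + τ ^ 2 - 1) * (t2 - τ * t1)) := by
    rw [hy2]; field_simp
  have e1 : τ * y1 - (δ + 1) * y2 = t2 - τ * t1 := by
    apply mul_right_cancel₀ hD
    linear_combination τ * hy1' - (δ + 1) * hy2'
  have e2 : (δ ^ 2 + τ ^ 2 - 1) * y1 - 2 * δ * τ * y2 = t3 - (τ ^ 2 - 1) * t1 := by
    apply mul_right_cancel₀ hD
    linear_combination (δ ^ 2 + τ ^ 2 - 1) * hy1' - 2 * δ * τ * hy2'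
  let Y : Matrix (Fin 2) (Fin 2) F := !![y1, y2; y2, y1 + t1]
  have hL : fromBlocks 1 0 Y 1 ∈ symplecticGroup (Fin 2) F := by
    rw [SymplecticGroup.fromBlocks_mem_iff]
    refine ⟨?_, by simp, by simp⟩
    rw [transpose_one, one_mul, mul_one]
    ext i j
    fin_cases i <;> fin_cases j <;> simp [Y]
  rw [isConj_iff]
  refine ⟨⟨_, hL⟩, ?_⟩
  rw [mul_inv_eq_iff_eq_mul]
  apply Subtype.ext
  rw [Submonoid.coe_mul, Submonoid.coe_mul, hB, hd]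
  change fromBlocks 1 0 Y 1 * fromBlocks !![0, -δ; 1, τ] 0 0 !![τ / δ, -δ⁻¹; 1, 0] = fromBlocks _ _ _ _ * fromBlocks 1 0 Y 1
  rw [fromBlocks_multiply, fromBlocks_multiply]
  congr 1
  · simp
  · simp
  · have g00 : y2 = M 0 0 + (τ / δ * y1 + -(δ⁻¹ * y2)) := by
      field_simp
      linear_combination -e1 - ht2 + τ * ht1
    have g01 : -(δ * y1) + τ * y2 = M 0 1 + (τ / δ * y2 + -(δ⁻¹ * (y1 + t1))) := by
      field_simp
      linear_combination -e2 + τ * e1 - ht3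
    have g10 : y1 + t1 = M 1 0 + y1 := by rw [ht1]; ring
    have g11 : -(δ * y2) + τ * (y1 + t1) = M 1 1 + y2 := by
      rw [hM]
      linear_combination e1 + ht2
    ext i j
    fin_cases i <;> fin_cases j <;> simp [Y]
    · exact g00
    · rw [mul_comm y1 δ, mul_comm y2 τ]; exact g01
    · exact g10
    · rw [mul_comm y2 δ, mul_comm _ τ]; exact g11
  · simp

/-- Lower block triangular elements. -/
theorem lower_conj {τ δ : F} (hδ : δ ≠ 0) (h1 : δ ≠ 1) (h2 : (δ + 1) ^ 2 ≠ τ ^ 2)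
    (B : symplecticGroup (Fin 2) F) (b1 M d : Matrix (Fin 2) (Fin 2) F)
    (hB : (B : Matrix (Fin 2 ⊕ Fin 2) (Fin 2 ⊕ Fin 2) F) = fromBlocks b1 0 M d)
    (hns : Nonscalar b1) (htr : b1.trace = τ) (hdet : b1.det = δ) :
    IsConj (xel τ δ hδ) B := by
  obtain ⟨g, hg, hgb⟩ := exists_comp_conj2 b1 hns
  rw [htr, hdet] at hgb
  have h3 := dg_inv_mul g hg B b1 M d hB
  have h4 : g⁻¹ * b1 * g = !![0, -δ; 1, τ] := by
    rw [mul_assoc, hgb, ← mul_assoc, Matrix.nonsing_inv_mul g (isUnit_iff_ne_zero.mpr hg), one_mul]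
  rw [h4] at h3
  refine (lower_conj_aux hδ h1 h2 _ _ _ h3).trans ?_
  rw [isConj_iff]
  exact ⟨⟨_, dg_mem g hg⟩, by group⟩

/-- Conjugation by `J` swaps upper and lower block triangular elements. -/
theorem isConj_upper (C : symplecticGroup (Fin 2) F) (c1 N d : Matrix (Fin 2) (Fin 2) F)
    (hC : (C : Matrix (Fin 2 ⊕ Fin 2) (Fin 2 ⊕ Fin 2) F) = fromBlocks c1 N 0 d) :
    ∃ B : symplecticGroup (Fin 2) F, IsConj B C ∧
      (B : Matrix (Fin 2 ⊕ Fin 2) (Fin 2 ⊕ Fin 2) F) = fromBlocks d 0 (-N) c1 := by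
  have hJ : J (Fin 2) F ∈ symplecticGroup (Fin 2) F := SymplecticGroup.J_mem (Fin 2) F
  refine ⟨⟨_, hJ⟩ * C * ⟨_, hJ⟩⁻¹, ?_, ?_⟩
  · rw [isConj_iff]
    exact ⟨⟨_, hJ⟩⁻¹, by group⟩
  · rw [Submonoid.coe_mul, Submonoid.coe_mul, SymplecticGroup.coe_inv', hC]
    have h1 : ((⟨_, hJ⟩ : symplecticGroup (Fin 2) F) : Matrix (Fin 2 ⊕ Fin 2) (Fin 2 ⊕ Fin 2) F) = fromBlocks 0 (-1) 1 0 := rfl
    have h2 : (fromBlocks 0 (-1) 1 0 : Matrix (Fin 2 ⊕ Fin 2) (Fin 2 ⊕ Fin 2) F)⁻¹ = fromBlocks 0 1 (-1) 0 := by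
      apply Matrix.inv_eq_left_inv
      rw [fromBlocks_multiply]; simp
    rw [h1, h2, fromBlocks_multiply, fromBlocks_multiply]
    simp

theorem nonscalar_of_mul_transpose {c d : Matrix (Fin 2) (Fin 2) F} (h : cᵀ * d = 1) (hc : Nonscalar c) :
    Nonscalar d := by
  intro x hx
  have hx0 : x ≠ 0 := by
    rintro rfl
    rw [hx] at h
    simp at h
  apply hc x⁻¹
  rw [hx, Matrix.mul_smul, Matrix.mul_one] at h
  have h2 : cᵀ = x⁻¹ • (1 : Matrix (Fin 2) (Fin 2) F) := by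
    rw [← h, smul_smul, inv_mul_cancel₀ hx0, one_smul]
  rw [← Matrix.transpose_transpose c, h2]
  simp

theorem upper_conj {τ δ : F} (hδ : δ ≠ 0) (h1 : δ ≠ 1) (h2 : (δ + 1) ^ 2 ≠ τ ^ 2)
    (C : symplecticGroup (Fin 2) F) (c1 N d : Matrix (Fin 2) (Fin 2) F)
    (hC : (C : Matrix (Fin 2 ⊕ Fin 2) (Fin 2 ⊕ Fin 2) F) = fromBlocks c1 N 0 d)
    (hns : Nonscalar c1) (htr : c1.trace = τ) (hdet : c1.det = δ) :
    IsConj (xel (τ / δ) δ⁻¹ (inv_ne_zero hδ)) C := by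
  obtain ⟨B, hBC, hB⟩ := isConj_upper C c1 N d hC
  have hmem := C.2
  rw [hC, SymplecticGroup.fromBlocks_mem_iff] at hmem
  have hcd : c1ᵀ * d = 1 := by simpa using hmem.2.2
  have hd2 : dᵀ * c1 = 1 := by
    rw [← Matrix.transpose_transpose c1, ← Matrix.transpose_mul, hcd, transpose_one]
  have hd : d = (c1⁻¹)ᵀ := by
    rw [Matrix.inv_eq_left_inv hd2, transpose_transpose]
  have hdns : Nonscalar d := nonscalar_of_mul_transpose hcd hns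
  have hddet : d.det = δ⁻¹ := by
    have := congrArg Matrix.det hcd
    rw [det_mul, det_transpose, hdet, det_one] at this
    rw [eq_inv_of_mul_eq_one_right this]
  have hdtr : d.trace = τ / δ := by
    rw [hd, Matrix.trace_transpose, Matrix.inv_def, Matrix.trace_smul, Matrix.trace_fin_two, Matrix.adjugate_fin_two,
      Ring.inverse_eq_inv', hdet, ← htr, Matrix.trace_fin_two]
    simp
    field_simp
    ring
  refine (lower_conj (inv_ne_zero hδ) ?_ ?_ B d (-N) c1 hB hdns hdtr hddet).trans hBC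
  · intro h; exact h1 (inv_eq_one.mp h)
  · intro h
    apply h2
    have h5 : (δ⁻¹ + 1) ^ 2 * δ ^ 2 = (τ / δ) ^ 2 * δ ^ 2 := by rw [h]
    field_simp at h5
    linear_combination h5

/-- `x(τ,δ)` is conjugate to `x(τ/δ,1/δ)`. -/
theorem xel_conj {τ δ : F} (hδ : δ ≠ 0) (h1 : δ ≠ 1) (h2 : (δ + 1) ^ 2 ≠ τ ^ 2) :
    IsConj (xel (τ / δ) δ⁻¹ (inv_ne_zero hδ)) (xel τ δ hδ) := by
  refine upper_conj hδ h1 h2 _ _ _ _ rfl ?_ ?_ ?_
  · intro c hc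
    have := congrFun (congrFun hc 1) 0
    simp at this
  · rw [Matrix.trace_fin_two]; simp
  · rw [Matrix.det_fin_two]; simp

/-- LU factorization along the Siegel parabolic. -/
theorem sp_lu (A : symplecticGroup (Fin 2) F) (a s c d b1 c1 : Matrix (Fin 2) (Fin 2) F)
    (hA : (A : Matrix (Fin 2 ⊕ Fin 2) (Fin 2 ⊕ Fin 2) F) = fromBlocks a s c d)
    (habc : a = b1 * c1) (hb : b1.det ≠ 0) (hc : c1.det ≠ 0) :
    ∃ (B C : symplecticGroup (Fin 2) F) (M N d1 d2 : Matrix (Fin 2) (Fin 2) F), A = B * C ∧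
      (B : Matrix (Fin 2 ⊕ Fin 2) (Fin 2 ⊕ Fin 2) F) = fromBlocks b1 0 M d1 ∧
      (C : Matrix (Fin 2 ⊕ Fin 2) (Fin 2 ⊕ Fin 2) F) = fromBlocks c1 N 0 d2 := by
  have hbu : IsUnit b1.det := isUnit_iff_ne_zero.mpr hb
  have hcu : IsUnit c1.det := isUnit_iff_ne_zero.mpr hc
  have hmem := A.2
  rw [hA, SymplecticGroup.fromBlocks_mem_iff, habc] at hmem
  obtain ⟨hm1, hm2, hm3⟩ := hmem
  have hcc : c1 * c1⁻¹ = 1 := Matrix.mul_nonsing_inv c1 hcu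
  have hcc' : c1⁻¹ * c1 = 1 := Matrix.nonsing_inv_mul c1 hcu
  have hbb : b1 * b1⁻¹ = 1 := Matrix.mul_nonsing_inv b1 hbu
  have hbb' : b1⁻¹ * b1 = 1 := Matrix.nonsing_inv_mul b1 hbu
  have hcct : (c1⁻¹)ᵀ * c1ᵀ = 1 := by rw [← transpose_mul, hcc, transpose_one]
  have hbbt : (b1⁻¹)ᵀ * b1ᵀ = 1 := by rw [← transpose_mul, hbb, transpose_one]
  have hbbt' : b1ᵀ * (b1⁻¹)ᵀ = 1 := by rw [← transpose_mul, hbb', transpose_one]
  -- symmetry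
  have hsym : b1ᵀ * (c * c1⁻¹) = (c * c1⁻¹)ᵀ * b1 := by
    rw [transpose_mul]
    calc b1ᵀ * (c * c1⁻¹) = ((c1⁻¹)ᵀ * c1ᵀ) * b1ᵀ * c * c1⁻¹ := by rw [hcct, one_mul]; simp only [mul_assoc]
      _ = (c1⁻¹)ᵀ * ((b1 * c1)ᵀ * c) * c1⁻¹ := by rw [transpose_mul]; simp only [mul_assoc]
      _ = (c1⁻¹)ᵀ * (cᵀ * (b1 * c1)) * c1⁻¹ := by rw [hm1]
      _ = (c1⁻¹)ᵀ * cᵀ * b1 * (c1 * c1⁻¹) := by simp only [mul_assoc]
      _ = _ := by rw [hcc, mul_one]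
  have hBmem : fromBlocks b1 0 (c * c1⁻¹) (b1⁻¹)ᵀ ∈ symplecticGroup (Fin 2) F := by
    rw [SymplecticGroup.fromBlocks_mem_iff]
    exact ⟨hsym, by simp, by rw [hbbt']; simp⟩
  let B : symplecticGroup (Fin 2) F := ⟨_, hBmem⟩
  have hprod : (B : Matrix (Fin 2 ⊕ Fin 2) (Fin 2 ⊕ Fin 2) F) * fromBlocks c1 (b1⁻¹ * s) 0 (c1⁻¹)ᵀ = fromBlocks a s c d := by
    change fromBlocks b1 0 (c * c1⁻¹) (b1⁻¹)ᵀ * _ = _
    rw [fromBlocks_multiply]
    congr 1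
    · rw [habc]; simp
    · rw [← mul_assoc, hbb]; simp
    · rw [mul_assoc, hcc']; simp
    · -- c c1⁻¹ b1⁻¹ s + b1⁻ᵀ c1⁻ᵀ = d
      have h5 : (b1⁻¹)ᵀ * ((c * c1⁻¹)ᵀ * b1) = c * c1⁻¹ := by
        rw [← hsym, ← mul_assoc, hbbt, one_mul]
      have h6 : c1ᵀ * (b1ᵀ * d) = 1 + cᵀ * s := by
        rw [← hm3, transpose_mul]; simp only [mul_assoc]; abel
      have h7 : d = (b1⁻¹)ᵀ * ((c1⁻¹)ᵀ * (1 + cᵀ * s)) := by
        rw [← h6, ← mul_assoc (c1⁻¹)ᵀ, hcct, one_mul, ← mul_assoc, hbbt, one_mul]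
      rw [h7]
      nth_rw 1 [← h5]
      rw [transpose_mul, mul_add, mul_add, mul_one, add_comm]
      congr 1
      calc (b1⁻¹)ᵀ * ((c1⁻¹)ᵀ * cᵀ * b1) * (b1⁻¹ * s) = (b1⁻¹)ᵀ * ((c1⁻¹)ᵀ * cᵀ) * (b1 * b1⁻¹) * s := by simp only [mul_assoc]
        _ = _ := by rw [hbb, mul_one]; simp only [mul_assoc]
  refine ⟨B, B⁻¹ * A, c * c1⁻¹, b1⁻¹ * s, (b1⁻¹)ᵀ, (c1⁻¹)ᵀ, by group, rfl, ?_⟩
  rw [Submonoid.coe_mul, hA, ← hprod, ← mul_assoc, ← Submonoid.coe_mul, inv_mul_cancel, Submonoid.coe_one, one_mul]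

theorem fact_of_block {τ δ : F} (hδ : δ ≠ 0) (h1 : δ ≠ 1) (h2 : (δ + 1) ^ 2 ≠ τ ^ 2)
    (A : symplecticGroup (Fin 2) F) (a s c d b1 c1 : Matrix (Fin 2) (Fin 2) F)
    (hA : (A : Matrix (Fin 2 ⊕ Fin 2) (Fin 2 ⊕ Fin 2) F) = fromBlocks a s c d)
    (habc : a = b1 * c1) (hb : Nonscalar b1) (hbt : b1.trace = τ) (hbd : b1.det = δ)
    (hc : Nonscalar c1) (hc2 : (c1.trace = τ ∧ c1.det = δ) ∨ (c1.trace = τ / δ ∧ c1.det = δ⁻¹)) :
    ∃ B C : symplecticGroup (Fin 2) F, A = B * C ∧ IsConj (xel τ δ hδ) B ∧ IsConj (xel τ δ hδ) C := by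
  have hcd : c1.det ≠ 0 := by
    rcases hc2 with h | h
    · rw [h.2]; exact hδ
    · rw [h.2]; exact inv_ne_zero hδ
  obtain ⟨B, C, M, N, d1, d2, hABC, hB, hC⟩ := sp_lu A a s c d b1 c1 hA habc (by rw [hbd]; exact hδ) hcd
  refine ⟨B, C, hABC, lower_conj hδ h1 h2 B b1 M d1 hB hb hbt hbd, ?_⟩
  rcases hc2 with ⟨ht, hd⟩ | ⟨ht, hd⟩
  · exact (xel_conj hδ h1 h2).symm.trans (upper_conj hδ h1 h2 C c1 N d2 hC hc ht hd)
  · have h1' : δ⁻¹ ≠ 1 := fun h => h1 (inv_eq_one.mp h)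
    have h2' : (δ⁻¹ + 1) ^ 2 ≠ (τ / δ) ^ 2 := by
      intro h
      apply h2
      have h5 : (δ⁻¹ + 1) ^ 2 * δ ^ 2 = (τ / δ) ^ 2 * δ ^ 2 := by rw [h]
      field_simp at h5
      linear_combination h5
    have h6 := upper_conj (inv_ne_zero hδ) h1' h2' C c1 N d2 hC hc ht hd
    have h7 : xel (τ / δ / δ⁻¹) δ⁻¹⁻¹ (inv_ne_zero (inv_ne_zero hδ)) = xel τ δ hδ := by
      congr 1
      · field_simp
      · rw [inv_inv]
    rwa [h7] at h6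

theorem nonscalar_of_10 {b : Matrix (Fin 2) (Fin 2) F} (h : b 1 0 ≠ 0) : Nonscalar b := by
  intro c hc
  apply h
  rw [hc]; simp

/-- the 2x2 factorization, generic case -/
theorem fact22_generic {τ δ : F} (hδ : δ ≠ 0) (hδ2 : δ ^ 2 ≠ 1) (r : F) :
    ∃ b1 c1 : Matrix (Fin 2) (Fin 2) F, !![δ ^ 2, r; 0, 1] = b1 * c1 ∧ Nonscalar b1 ∧ b1.trace = τ ∧ b1.det = δ ∧
      Nonscalar c1 ∧ c1.trace = τ ∧ c1.det = δ := by
  have hD : δ ^ 2 - 1 ≠ 0 := sub_ne_zero.mpr hδ2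
  obtain ⟨v, hv⟩ : ∃ v : F, v * (δ ^ 2 - 1) = τ * (δ - 1) + r := ⟨(τ * (δ - 1) + r) / (δ ^ 2 - 1), by field_simp⟩
  have hδδ : δ * δ⁻¹ = 1 := mul_inv_cancel₀ hδ
  refine ⟨!![τ - v, (τ - v) * v - δ; 1, v], !![v * δ, (v * r - ((τ - v) * v - δ)) * δ⁻¹; -δ, (τ - v - r) * δ⁻¹], ?_, ?_, ?_, ?_, ?_, ?_, ?_⟩
  · ext i j
    fin_cases i <;> fin_cases j <;> simp [Matrix.mul_apply, Fin.sum_univ_two]
    · ring
    · linear_combination (-r) * hδδ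
    · linear_combination (-1) * hδδ
  · apply nonscalar_of_10; simp
  · rw [Matrix.trace_fin_two]; simp
  · rw [Matrix.det_fin_two]; simp
  · apply nonscalar_of_10; simpa using hδ
  · rw [Matrix.trace_fin_two]; simp
    linear_combination δ⁻¹ * hv + (τ - v * δ) * hδδ
  · rw [Matrix.det_fin_two]; simp
    linear_combination (δ) * hδδ

/-- `δ = -1` -/
theorem fact22_neg {τ : F} (hτ : τ ≠ 0) (h2 : (2 : F) ≠ 0) (r : F) (hr : r ≠ 0) :
    ∃ b1 c1 : Matrix (Fin 2) (Fin 2) F, !![1, r; 0, 1] = b1 * c1 ∧ Nonscalar b1 ∧ b1.trace = τ ∧ b1.det = -1 ∧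
      Nonscalar c1 ∧ c1.trace = τ ∧ c1.det = -1 := by
  obtain ⟨u, hu⟩ : ∃ u : F, u * r = 2 * τ := ⟨2 * τ / r, by field_simp⟩
  have hu0 : u ≠ 0 := by
    rintro rfl
    rw [zero_mul] at hu
    exact mul_ne_zero h2 hτ hu.symm
  have huu : u * u⁻¹ = 1 := mul_inv_cancel₀ hu0
  refine ⟨!![τ, u⁻¹; u, 0], !![0, u⁻¹; u, τ], ?_, ?_, ?_, ?_, ?_, ?_, ?_⟩
  · ext i j
    fin_cases i <;> fin_cases j <;> simp [Matrix.mul_apply, Fin.sum_univ_two, hu0]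
    field_simp
    linear_combination hu
  · apply nonscalar_of_10; simpa using hu0
  · rw [Matrix.trace_fin_two]; simp
  · rw [Matrix.det_fin_two]; simp [hu0]
  · apply nonscalar_of_10; simpa using hu0
  · rw [Matrix.trace_fin_two]; simp
  · rw [Matrix.det_fin_two]; simp [hu0]

/-- identity -/
theorem fact22_one {τ δ : F} (hδ : δ ≠ 0) :
    ∃ b1 c1 : Matrix (Fin 2) (Fin 2) F, 1 = b1 * c1 ∧ Nonscalar b1 ∧ b1.trace = τ ∧ b1.det = δ ∧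
      Nonscalar c1 ∧ c1.trace = τ / δ ∧ c1.det = δ⁻¹ := by
  refine ⟨!![0, -δ; 1, τ], !![τ / δ, 1; -δ⁻¹, 0], ?_, ?_, ?_, ?_, ?_, ?_, ?_⟩
  · ext i j
    fin_cases i <;> fin_cases j <;> simp [Matrix.mul_apply, Fin.sum_univ_two, hδ]
    field_simp
    ring
  · apply nonscalar_of_10; simp
  · rw [Matrix.trace_fin_two]; simp
  · rw [Matrix.det_fin_two]; simp
  · apply nonscalar_of_10; simpa using hδ
  · rw [Matrix.trace_fin_two]; simp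
  · rw [Matrix.det_fin_two]; simp

/-- trace zero, determinant one -/
theorem fact22_rot [Finite F] {τ δ : F} (hδ : δ ≠ 0) (hτ : τ ≠ 0) (h2 : (2 : F) ≠ 0) :
    ∃ b1 c1 : Matrix (Fin 2) (Fin 2) F, !![0, -1; 1, 0] = b1 * c1 ∧ Nonscalar b1 ∧ b1.trace = τ ∧ b1.det = δ ∧
      Nonscalar c1 ∧ c1.trace = τ / δ ∧ c1.det = δ⁻¹ := by
  classical
  have := Fintype.ofFinite F
  obtain ⟨x, y, hxy⟩ : ∃ x y : F, x ^ 2 + y ^ 2 = τ ^ 2 / 2 - δ := by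
    have hodd : Fintype.card F % 2 = 1 := by
      apply FiniteField.odd_card_of_char_ne_two
      intro h
      apply h2
      have := ringChar.of_eq h
      exact CharP.cast_eq_zero F 2
    obtain ⟨x, y, hxy⟩ := FiniteField.exists_root_sum_quadratic (R := F) (f := Polynomial.X ^ 2) (g := Polynomial.X ^ 2 - Polynomial.C (τ ^ 2 / 2 - δ))
      (Polynomial.degree_X_pow 2) (Polynomial.degree_X_pow_sub_C (by norm_num) _) hodd
    refine ⟨x, y, ?_⟩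
    simp at hxy
    linear_combination hxy
  obtain ⟨p, hp⟩ : ∃ p : F, p = x + τ / 2 := ⟨_, rfl⟩
  obtain ⟨u, hu⟩ : ∃ u : F, u = y + τ / 2 := ⟨_, rfl⟩
  have hpu : p ^ 2 + u ^ 2 - τ * (p + u) + δ = 0 := by
    rw [hp, hu]
    have : (x + τ / 2) ^ 2 + (y + τ / 2) ^ 2 - τ * (x + τ / 2 + (y + τ / 2)) + δ = x ^ 2 + y ^ 2 - (τ ^ 2 / 2 - δ) := by
      field_simp
      ring
    rw [this, hxy, sub_self]
  have hδδ : δ * δ⁻¹ = 1 := mul_inv_cancel₀ hδ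
  refine ⟨!![p, u - τ; u, τ - p], !![(τ - u) * δ⁻¹, (p - τ) * δ⁻¹; p * δ⁻¹, u * δ⁻¹], ?_, ?_, ?_, ?_, ?_, ?_, ?_⟩
  · ext i j
    fin_cases i <;> fin_cases j <;> simp [Matrix.mul_apply, Fin.sum_univ_two]
    · ring
    · field_simp
      linear_combination -hpu
    · field_simp
      linear_combination hpu
    · ring
  · intro c hc
    have h3 := congrFun (congrFun hc 1) 0
    have h4 := congrFun (congrFun hc 0) 1
    simp at h3 h4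
    apply hτ
    rw [h3] at h4
    linear_combination -h4
  · rw [Matrix.trace_fin_two]; simp
  · rw [Matrix.det_fin_two]; simp
    linear_combination -hpu
  · intro c hc
    have h3 := congrFun (congrFun hc 1) 0
    have h4 := congrFun (congrFun hc 0) 1
    simp [hδ] at h3 h4
    apply hτ
    rw [h3] at h4
    linear_combination -h4
  · rw [Matrix.trace_fin_two]; simp
    field_simp
    ring
  · rw [Matrix.det_fin_two]; simp
    field_simp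
    linear_combination -hpu

open Cfsg.Agent.ClassSp in
/-- A symplectic basis gives an element of the symplectic group. -/
theorem exists_sp_of_basis (e f : Fin 2 → (Fin 2 ⊕ Fin 2 → F)) (hee : sf (e 0) (e 1) = 0) (hff : sf (f 0) (f 1) = 0)
    (h00 : sf (e 0) (f 0) = 1) (h01 : sf (e 0) (f 1) = 0) (h10 : sf (e 1) (f 0) = 0) (h11 : sf (e 1) (f 1) = 1) :
    ∃ P : symplecticGroup (Fin 2) F,
      (∀ i, (P : Matrix (Fin 2 ⊕ Fin 2) (Fin 2 ⊕ Fin 2) F) *ᵥ Pi.single (Sum.inl i) 1 = e i) ∧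
      (∀ i, (P : Matrix (Fin 2 ⊕ Fin 2) (Fin 2 ⊕ Fin 2) F) *ᵥ Pi.single (Sum.inr i) 1 = f i) := by
  set P : Matrix (Fin 2 ⊕ Fin 2) (Fin 2 ⊕ Fin 2) F := Matrix.of fun r c => Sum.elim e f c r with hP
  have hcol : ∀ c, P *ᵥ Pi.single c 1 = Sum.elim e f c := by
    intro c
    ext r
    rw [Matrix.mulVec_single]
    simp [hP]
  have hsf : ∀ c c', sf (Sum.elim e f c) (Sum.elim e f c') = sf (Pi.single c 1 : Fin 2 ⊕ Fin 2 → F) (Pi.single c' 1) := by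
    have hee' : sf (e 1) (e 0) = 0 := by rw [sf_swap, hee, neg_zero]
    have hff' : sf (f 1) (f 0) = 0 := by rw [sf_swap, hff, neg_zero]
    have h00' : sf (f 0) (e 0) = -1 := by rw [sf_swap, h00]
    have h01' : sf (f 1) (e 0) = 0 := by rw [sf_swap, h01, neg_zero]
    have h10' : sf (f 0) (e 1) = 0 := by rw [sf_swap, h10, neg_zero]
    have h11' : sf (f 1) (e 1) = -1 := by rw [sf_swap, h11]
    rintro (c | c) (c' | c')
    · rw [sf_single_inl_left]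
      fin_cases c <;> fin_cases c' <;> simp [sf_self, hee, hee']
    · rw [sf_single_inl_left]
      fin_cases c <;> fin_cases c' <;> simp [h00, h01, h10, h11]
    · rw [sf_single_inr_left]
      fin_cases c <;> fin_cases c' <;> simp [h00', h01', h10', h11']
    · rw [sf_single_inr_left]
      fin_cases c <;> fin_cases c' <;> simp [sf_self, hff, hff']
  have hmem : P ∈ symplecticGroup (Fin 2) F := by
    rw [SymplecticGroup.mem_iff']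
    ext c c'
    have h1 : (Pᵀ * J (Fin 2) F * P) c c' = (P *ᵥ Pi.single c 1) ⬝ᵥ (J (Fin 2) F *ᵥ (P *ᵥ Pi.single c' 1)) := by
      rw [Matrix.mulVec_mulVec, Matrix.dotProduct_mulVec, Matrix.vecMul_mulVec, ← Matrix.dotProduct_mulVec, ← Matrix.mul_assoc]
      simp
    have h2 : (J (Fin 2) F) c c' = (Pi.single c 1) ⬝ᵥ (J (Fin 2) F *ᵥ (Pi.single c' 1)) := by
      simp
    rw [h1, h2, hcol, hcol, ← neg_inj, ← sf_eq_dotProduct, ← sf_eq_dotProduct, hsf]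
  exact ⟨⟨P, hmem⟩, fun i => hcol _, fun i => hcol _⟩

open Cfsg.Agent.ClassSp in
/-- entries of a conjugate through the form -/
theorem conj_entry (A P : symplecticGroup (Fin 2) F) (e f : Fin 2 → (Fin 2 ⊕ Fin 2 → F))
    (he : ∀ i, (P : Matrix (Fin 2 ⊕ Fin 2) (Fin 2 ⊕ Fin 2) F) *ᵥ Pi.single (Sum.inl i) 1 = e i)
    (hf : ∀ i, (P : Matrix (Fin 2 ⊕ Fin 2) (Fin 2 ⊕ Fin 2) F) *ᵥ Pi.single (Sum.inr i) 1 = f i) (i j : Fin 2) :
    ((P⁻¹ * A * P : symplecticGroup (Fin 2) F) : Matrix (Fin 2 ⊕ Fin 2) (Fin 2 ⊕ Fin 2) F) (Sum.inl i) (Sum.inl j) =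
      sf ((A : Matrix (Fin 2 ⊕ Fin 2) (Fin 2 ⊕ Fin 2) F) *ᵥ e j) (f i) := by
  have h1 : ((P⁻¹ * A * P : symplecticGroup (Fin 2) F) : Matrix (Fin 2 ⊕ Fin 2) (Fin 2 ⊕ Fin 2) F) (Sum.inl i) (Sum.inl j) =
      (((P⁻¹ * A * P : symplecticGroup (Fin 2) F) : Matrix (Fin 2 ⊕ Fin 2) (Fin 2 ⊕ Fin 2) F) *ᵥ Pi.single (Sum.inl j) 1) (Sum.inl i) := by
    rw [Matrix.mulVec_single]; simp
  have h2 : ∀ v : Fin 2 ⊕ Fin 2 → F, v (Sum.inl i) = sf v (Pi.single (Sum.inr i) 1) := by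
    intro v
    rw [sf_swap, sf_single_inr_left, neg_neg]
  rw [h1, h2 (_ *ᵥ Pi.single (Sum.inl j) 1), mul_mulVec, mul_mulVec, he]
  rw [← sf_mulVec P, mulVec_inv_mulVec, hf]

open Cfsg.Agent.ClassSp in
theorem fact_of_basis {τ δ : F} (hδ : δ ≠ 0) (h1 : δ ≠ 1) (h2 : (δ + 1) ^ 2 ≠ τ ^ 2) (A : symplecticGroup (Fin 2) F)
    (e f : Fin 2 → (Fin 2 ⊕ Fin 2 → F)) (hee : sf (e 0) (e 1) = 0) (hff : sf (f 0) (f 1) = 0)
    (h00 : sf (e 0) (f 0) = 1) (h01 : sf (e 0) (f 1) = 0) (h10 : sf (e 1) (f 0) = 0) (h11 : sf (e 1) (f 1) = 1)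
    (b1 c1 : Matrix (Fin 2) (Fin 2) F)
    (habc : (Matrix.of fun i j => sf ((A : Matrix (Fin 2 ⊕ Fin 2) (Fin 2 ⊕ Fin 2) F) *ᵥ e j) (f i)) = b1 * c1)
    (hb : Nonscalar b1) (hbt : b1.trace = τ) (hbd : b1.det = δ)
    (hc : Nonscalar c1) (hc2 : (c1.trace = τ ∧ c1.det = δ) ∨ (c1.trace = τ / δ ∧ c1.det = δ⁻¹)) :
    ∃ B C : symplecticGroup (Fin 2) F, A = B * C ∧ IsConj (xel τ δ hδ) B ∧ IsConj (xel τ δ hδ) C := by
  obtain ⟨P, hPe, hPf⟩ := exists_sp_of_basis e f hee hff h00 h01 h10 h11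
  obtain ⟨B, C, hBC, hB, hC⟩ := fact_of_block hδ h1 h2 (P⁻¹ * A * P)
    ((P⁻¹ * A * P : symplecticGroup (Fin 2) F) : Matrix (Fin 2 ⊕ Fin 2) (Fin 2 ⊕ Fin 2) F).toBlocks₁₁
    ((P⁻¹ * A * P : symplecticGroup (Fin 2) F) : Matrix (Fin 2 ⊕ Fin 2) (Fin 2 ⊕ Fin 2) F).toBlocks₁₂
    ((P⁻¹ * A * P : symplecticGroup (Fin 2) F) : Matrix (Fin 2 ⊕ Fin 2) (Fin 2 ⊕ Fin 2) F).toBlocks₂₁
    ((P⁻¹ * A * P : symplecticGroup (Fin 2) F) : Matrix (Fin 2 ⊕ Fin 2) (Fin 2 ⊕ Fin 2) F).toBlocks₂₂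
    b1 c1 (fromBlocks_toBlocks _).symm (by
      rw [← habc]
      ext i j
      exact conj_entry A P e f hPe hPf i j) hb hbt hbd hc hc2
  refine ⟨P * B * P⁻¹, P * C * P⁻¹, ?_, hB.trans (isConj_iff.mpr ⟨P, rfl⟩), hC.trans (isConj_iff.mpr ⟨P, rfl⟩)⟩
  calc A = P * (P⁻¹ * A * P) * P⁻¹ := by group
    _ = _ := by rw [hBC]; group

open Cfsg.Agent.ClassSp in
/-- The case where some vector is not orthogonal to its image. -/
theorem ns_case {τ δ : F} (hδ : δ ≠ 0) (h1 : δ ≠ 1) (h2 : (δ + 1) ^ 2 ≠ τ ^ 2) (hτ : τ ≠ 0)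
    (hcond : δ ^ 2 ≠ 1 ∨ (δ = -1 ∧ (2 : F) ≠ 0)) (A : symplecticGroup (Fin 2) F)
    (e e2 f2 : Fin 2 ⊕ Fin 2 → F)
    (hc : sf e ((A : Matrix (Fin 2 ⊕ Fin 2) (Fin 2 ⊕ Fin 2) F) *ᵥ e) ≠ 0)
    (k1 : sf e e2 = 0) (k2 : sf e f2 = 0) (k3 : sf ((A : Matrix (Fin 2 ⊕ Fin 2) (Fin 2 ⊕ Fin 2) F) *ᵥ e) e2 = 0)
    (k4 : sf ((A : Matrix (Fin 2 ⊕ Fin 2) (Fin 2 ⊕ Fin 2) F) *ᵥ e) f2 = 0) (k5 : sf e2 f2 = 1)
    (k6 : sf ((A : Matrix (Fin 2 ⊕ Fin 2) (Fin 2 ⊕ Fin 2) F) *ᵥ e2) f2 = 1) :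
    ∃ B C : symplecticGroup (Fin 2) F, A = B * C ∧ IsConj (xel τ δ hδ) B ∧ IsConj (xel τ δ hδ) C := by
  set Ae := (A : Matrix (Fin 2 ⊕ Fin 2) (Fin 2 ⊕ Fin 2) F) *ᵥ e with hAe
  set c := sf e Ae with hcdef
  have hcc : c⁻¹ * c = 1 := inv_mul_cancel₀ hc
  set f1 : Fin 2 ⊕ Fin 2 → F := c⁻¹ • (Ae - δ ^ 2 • e) with hf1
  have hswap : sf Ae e = - c := by rw [sf_swap]
  have l1 : sf f1 f2 = 0 := by rw [hf1, sf_smul_left, sf_sub_left, sf_smul_left, k4, k2]; ring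
  have l2 : sf e f1 = 1 := by rw [hf1, sf_smul_right, sf_sub_right, sf_smul_right, sf_self]; linear_combination hcc
  have l3 : sf e2 f1 = 0 := by
    rw [hf1, sf_smul_right, sf_sub_right, sf_smul_right, sf_swap e2 Ae, k3, sf_swap e2 e, k1]; ring
  have l4 : sf Ae f1 = δ ^ 2 := by
    rw [hf1, sf_smul_right, sf_sub_right, sf_smul_right, sf_self, hswap]; linear_combination δ ^ 2 * hcc
  have hmat : (Matrix.of fun i j => sf ((A : Matrix (Fin 2 ⊕ Fin 2) (Fin 2 ⊕ Fin 2) F) *ᵥ (![e, e2] : Fin 2 → (Fin 2 ⊕ Fin 2 → F)) j)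
      ((![f1, f2] : Fin 2 → (Fin 2 ⊕ Fin 2 → F)) i)) =
      !![δ ^ 2, sf ((A : Matrix (Fin 2 ⊕ Fin 2) (Fin 2 ⊕ Fin 2) F) *ᵥ e2) f1; 0, 1] := by
    ext i j
    fin_cases i <;> fin_cases j
    · exact l4
    · rfl
    · exact k4
    · exact k6
  obtain ⟨r, hr⟩ : ∃ r, r = sf ((A : Matrix (Fin 2 ⊕ Fin 2) (Fin 2 ⊕ Fin 2) F) *ᵥ e2) f1 := ⟨_, rfl⟩
  rw [← hr] at hmat
  have hfac : ∃ b1 c1 : Matrix (Fin 2) (Fin 2) F, !![δ ^ 2, r; 0, 1] = b1 * c1 ∧ Nonscalar b1 ∧ b1.trace = τ ∧ b1.det = δ ∧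
      Nonscalar c1 ∧ ((c1.trace = τ ∧ c1.det = δ) ∨ (c1.trace = τ / δ ∧ c1.det = δ⁻¹)) := by
    by_cases hδ2 : δ ^ 2 = 1
    · have hδ1 : δ = -1 ∧ (2 : F) ≠ 0 := hcond.resolve_left (not_not.mpr hδ2)
      by_cases hr0 : r = 0
      · obtain ⟨b1, c1, g1, g2, g3, g4, g5, g6, g7⟩ := fact22_one (τ := τ) hδ
        refine ⟨b1, c1, ?_, g2, g3, g4, g5, Or.inr ⟨g6, g7⟩⟩
        rw [← g1, hδ2, hr0]
        ext i j
        fin_cases i <;> fin_cases j <;> rfl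
      · obtain ⟨b1, c1, g1, g2, g3, g4, g5, g6, g7⟩ := fact22_neg hτ hδ1.2 r hr0
        refine ⟨b1, c1, ?_, g2, g3, g4.trans hδ1.1.symm, g5, Or.inl ⟨g6, g7.trans hδ1.1.symm⟩⟩
        rw [← g1, hδ2]
    · obtain ⟨b1, c1, g1, g2, g3, g4, g5, g6, g7⟩ := fact22_generic (τ := τ) hδ hδ2 r
      exact ⟨b1, c1, g1, g2, g3, g4, g5, Or.inl ⟨g6, g7⟩⟩
  obtain ⟨b1, c1, g1, g2, g3, g4, g5, g6⟩ := hfac
  exact fact_of_basis hδ h1 h2 A ![e, e2] ![f1, f2] k1 l1 l2 k2 l3 k5 b1 c1 (hmat.trans g1) g2 g3 g4 g5 g6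

open Cfsg.Agent.ClassSp in
theorem sf_expand (g : symplecticGroup (Fin 2) F) (u v : Fin 2 ⊕ Fin 2 → F) :
    sf u v = ∑ i, (sf u ((g : Matrix (Fin 2 ⊕ Fin 2) (Fin 2 ⊕ Fin 2) F) *ᵥ Pi.single (Sum.inr i) 1) *
        sf ((g : Matrix (Fin 2 ⊕ Fin 2) (Fin 2 ⊕ Fin 2) F) *ᵥ Pi.single (Sum.inl i) 1) v -
      sf ((g : Matrix (Fin 2 ⊕ Fin 2) (Fin 2 ⊕ Fin 2) F) *ᵥ Pi.single (Sum.inl i) 1) u *
        sf v ((g : Matrix (Fin 2 ⊕ Fin 2) (Fin 2 ⊕ Fin 2) F) *ᵥ Pi.single (Sum.inr i) 1)) := by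
  have h1 : ∀ (w : Fin 2 ⊕ Fin 2 → F) i, sf w ((g : Matrix (Fin 2 ⊕ Fin 2) (Fin 2 ⊕ Fin 2) F) *ᵥ Pi.single (Sum.inr i) 1) =
      (((g⁻¹ : symplecticGroup (Fin 2) F) : Matrix (Fin 2 ⊕ Fin 2) (Fin 2 ⊕ Fin 2) F) *ᵥ w) (Sum.inl i) := by
    intro w i
    rw [← sf_mulVec g⁻¹, inv_mulVec_mulVec, sf_swap, sf_single_inr_left, neg_neg]
  have h2 : ∀ (w : Fin 2 ⊕ Fin 2 → F) i, sf ((g : Matrix (Fin 2 ⊕ Fin 2) (Fin 2 ⊕ Fin 2) F) *ᵥ Pi.single (Sum.inl i) 1) w =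
      (((g⁻¹ : symplecticGroup (Fin 2) F) : Matrix (Fin 2 ⊕ Fin 2) (Fin 2 ⊕ Fin 2) F) *ᵥ w) (Sum.inr i) := by
    intro w i
    rw [← sf_mulVec g⁻¹, inv_mulVec_mulVec, sf_single_inl_left]
  simp only [h1, h2]
  rw [← sf_mulVec g⁻¹, sf]

/-- negative of a symplectic matrix -/
def negSp (A : symplecticGroup (Fin 2) F) : symplecticGroup (Fin 2) F := ⟨-A.1, SymplecticGroup.neg_mem A.2⟩

theorem negSp_mulVec (A : symplecticGroup (Fin 2) F) (v : Fin 2 ⊕ Fin 2 → F) :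
    (negSp A : Matrix (Fin 2 ⊕ Fin 2) (Fin 2 ⊕ Fin 2) F) *ᵥ v = - ((A : Matrix (Fin 2 ⊕ Fin 2) (Fin 2 ⊕ Fin 2) F) *ᵥ v) :=
  Matrix.neg_mulVec _ _

open Cfsg.Agent.ClassSp in
/-- Choice of the second hyperbolic pair for `A` or `-A`. -/
theorem exists_pair_or_neg (A : symplecticGroup (Fin 2) F) (e : Fin 2 ⊕ Fin 2 → F)
    (hc : sf e ((A : Matrix (Fin 2 ⊕ Fin 2) (Fin 2 ⊕ Fin 2) F) *ᵥ e) ≠ 0) :
    ∃ e2 f2 : Fin 2 ⊕ Fin 2 → F, sf e e2 = 0 ∧ sf e f2 = 0 ∧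
      sf ((A : Matrix (Fin 2 ⊕ Fin 2) (Fin 2 ⊕ Fin 2) F) *ᵥ e) e2 = 0 ∧
      sf ((A : Matrix (Fin 2 ⊕ Fin 2) (Fin 2 ⊕ Fin 2) F) *ᵥ e) f2 = 0 ∧ sf e2 f2 = 1 ∧
      (sf ((A : Matrix (Fin 2 ⊕ Fin 2) (Fin 2 ⊕ Fin 2) F) *ᵥ e2) f2 = 1 ∨
        sf ((A : Matrix (Fin 2 ⊕ Fin 2) (Fin 2 ⊕ Fin 2) F) *ᵥ e2) f2 = -1) := by
  obtain ⟨c, hcdef⟩ : ∃ c, c = sf e ((A : Matrix (Fin 2 ⊕ Fin 2) (Fin 2 ⊕ Fin 2) F) *ᵥ e) := ⟨_, rfl⟩
  rw [← hcdef] at hc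
  have hcc : c⁻¹ * c = 1 := inv_mul_cancel₀ hc
  obtain ⟨g, -, hge, hgf⟩ := exists_mem_tvGroup_pair (l := Fin 2) (F := F) (u := Pi.single (Sum.inl 0) 1) (v := Pi.single (Sum.inr 0) 1)
    (u' := e) (v' := c⁻¹ • ((A : Matrix (Fin 2 ⊕ Fin 2) (Fin 2 ⊕ Fin 2) F) *ᵥ e))
    (by rw [sf_single_inl_left]; simp) (by rw [sf_smul_right, ← hcdef, hcc])
  obtain ⟨w1, hw1⟩ : ∃ w, w = (g : Matrix (Fin 2 ⊕ Fin 2) (Fin 2 ⊕ Fin 2) F) *ᵥ Pi.single (Sum.inl 1) 1 := ⟨_, rfl⟩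
  obtain ⟨w2, hw2⟩ : ∃ w, w = (g : Matrix (Fin 2 ⊕ Fin 2) (Fin 2 ⊕ Fin 2) F) *ᵥ Pi.single (Sum.inr 1) 1 := ⟨_, rfl⟩
  have a1 : sf e w1 = 0 := by rw [← hge, hw1, sf_mulVec, sf_single_inl_left]; simp
  have a2 : sf e w2 = 0 := by rw [← hge, hw2, sf_mulVec, sf_single_inl_left]; simp
  have a3 : sf w1 w2 = 1 := by rw [hw1, hw2, sf_mulVec, sf_single_inl_left]; simp
  have a4 : sf ((A : Matrix (Fin 2 ⊕ Fin 2) (Fin 2 ⊕ Fin 2) F) *ᵥ e) w1 = 0 := by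
    have h := sf_mulVec g (Pi.single (Sum.inr 0) 1) (Pi.single (Sum.inl 1) 1)
    rw [hgf, ← hw1, sf_single_inr_left, sf_smul_left] at h
    simpa [hc] using h
  have a5 : sf ((A : Matrix (Fin 2 ⊕ Fin 2) (Fin 2 ⊕ Fin 2) F) *ᵥ e) w2 = 0 := by
    have h := sf_mulVec g (Pi.single (Sum.inr 0) 1) (Pi.single (Sum.inr 1) 1)
    rw [hgf, ← hw2, sf_single_inr_left, sf_smul_left] at h
    simpa [hc] using h
  obtain ⟨p, hp⟩ : ∃ p, p = sf ((A : Matrix (Fin 2 ⊕ Fin 2) (Fin 2 ⊕ Fin 2) F) *ᵥ w1) w2 := ⟨_, rfl⟩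
  obtain ⟨q, hq⟩ : ∃ q, q = sf ((A : Matrix (Fin 2 ⊕ Fin 2) (Fin 2 ⊕ Fin 2) F) *ᵥ w2) w2 := ⟨_, rfl⟩
  obtain ⟨r, hr⟩ : ∃ r, r = sf w1 ((A : Matrix (Fin 2 ⊕ Fin 2) (Fin 2 ⊕ Fin 2) F) *ᵥ w1) := ⟨_, rfl⟩
  obtain ⟨s, hs⟩ : ∃ s, s = sf w1 ((A : Matrix (Fin 2 ⊕ Fin 2) (Fin 2 ⊕ Fin 2) F) *ᵥ w2) := ⟨_, rfl⟩
  have hr' : sf ((A : Matrix (Fin 2 ⊕ Fin 2) (Fin 2 ⊕ Fin 2) F) *ᵥ w1) w1 = -r := by rw [sf_swap, hr]
  have hs' : sf ((A : Matrix (Fin 2 ⊕ Fin 2) (Fin 2 ⊕ Fin 2) F) *ᵥ w2) w1 = -s := by rw [sf_swap, hs]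
  have hdet : p * s - r * q = 1 := by
    have h := sf_expand g ((A : Matrix (Fin 2 ⊕ Fin 2) (Fin 2 ⊕ Fin 2) F) *ᵥ w1) ((A : Matrix (Fin 2 ⊕ Fin 2) (Fin 2 ⊕ Fin 2) F) *ᵥ w2)
    rw [Fin.sum_univ_two, sf_mulVec, a3, hge, hgf, ← hw1, ← hw2, sf_smul_right, sf_smul_right, sf_mulVec, sf_mulVec,
      sf_swap w1 e, a1, sf_swap w2 e, a2, ← hp, ← hq, ← hr, ← hs] at h
    rw [h]; ring
  -- general candidate
  have cand : ∀ x1 x2 y1 y2 : F, x1 * y2 - x2 * y1 = 1 →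
      (p * x1 * y2 + q * x2 * y2 - r * x1 * y1 - s * x2 * y1 = 1 ∨
        p * x1 * y2 + q * x2 * y2 - r * x1 * y1 - s * x2 * y1 = -1) →
      ∃ e2 f2 : Fin 2 ⊕ Fin 2 → F, sf e e2 = 0 ∧ sf e f2 = 0 ∧
      sf ((A : Matrix (Fin 2 ⊕ Fin 2) (Fin 2 ⊕ Fin 2) F) *ᵥ e) e2 = 0 ∧
      sf ((A : Matrix (Fin 2 ⊕ Fin 2) (Fin 2 ⊕ Fin 2) F) *ᵥ e) f2 = 0 ∧ sf e2 f2 = 1 ∧
      (sf ((A : Matrix (Fin 2 ⊕ Fin 2) (Fin 2 ⊕ Fin 2) F) *ᵥ e2) f2 = 1 ∨
        sf ((A : Matrix (Fin 2 ⊕ Fin 2) (Fin 2 ⊕ Fin 2) F) *ᵥ e2) f2 = -1) := by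
    intro x1 x2 y1 y2 hxy hval
    refine ⟨x1 • w1 + x2 • w2, y1 • w1 + y2 • w2, ?_, ?_, ?_, ?_, ?_, ?_⟩
    · rw [sf_add_right, sf_smul_right, sf_smul_right, a1, a2]; ring
    · rw [sf_add_right, sf_smul_right, sf_smul_right, a1, a2]; ring
    · rw [sf_add_right, sf_smul_right, sf_smul_right, a4, a5]; ring
    · rw [sf_add_right, sf_smul_right, sf_smul_right, a4, a5]; ring
    · rw [sf_add_right, sf_smul_right, sf_smul_right, sf_add_left, sf_add_left, sf_smul_left, sf_smul_left, sf_smul_left,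
        sf_smul_left, sf_self, sf_self, sf_swap w2 w1, a3]
      linear_combination hxy
    · have hv : sf ((A : Matrix (Fin 2 ⊕ Fin 2) (Fin 2 ⊕ Fin 2) F) *ᵥ (x1 • w1 + x2 • w2)) (y1 • w1 + y2 • w2) =
          p * x1 * y2 + q * x2 * y2 - r * x1 * y1 - s * x2 * y1 := by
        rw [Matrix.mulVec_add, Matrix.mulVec_smul, Matrix.mulVec_smul, sf_add_right, sf_smul_right, sf_smul_right,
          sf_add_left, sf_add_left, sf_smul_left, sf_smul_left, sf_smul_left, sf_smul_left, hr', hs', ← hp, ← hq]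
        ring
      rw [hv]; exact hval
  by_cases hr0 : r = 0
  · by_cases hq0 : q = 0
    · rw [hr0, hq0] at hdet
      have hps : p * s = 1 := by linear_combination hdet
      by_cases hps2 : p = s
      · -- p = ± 1
        have hp2 : (p - 1) * (p + 1) = 0 := by rw [← hps2] at hps; linear_combination hps
        refine cand 1 0 0 1 (by ring) ?_
        rcases mul_eq_zero.mp hp2 with h | h
        · left; linear_combination h
        · right; linear_combination h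
      · have hps3 : p - s ≠ 0 := sub_ne_zero.mpr hps2
        obtain ⟨y, hy⟩ : ∃ y, y * (p - s) = 1 - s := ⟨(1 - s) / (p - s), by field_simp⟩
        refine cand 1 1 (y - 1) y (by ring) (Or.inl ?_)
        rw [hr0, hq0]
        linear_combination hy
    · obtain ⟨y, hy⟩ : ∃ y, y * q = 1 - s := ⟨(1 - s) / q, by field_simp⟩
      refine cand 0 1 (-1) y (by ring) (Or.inl ?_)
      linear_combination hy
  · obtain ⟨y, hy⟩ : ∃ y, y * r = p - 1 := ⟨(p - 1) / r, by field_simp⟩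
    refine cand 1 0 y 1 (by ring) (Or.inl ?_)
    linear_combination -hy

open Cfsg.Agent.ClassSp in
/-- Main theorem on products of two conjugates. -/
theorem sp4_main [Finite F] {τ δ : F} (hδ : δ ≠ 0) (h1 : δ ≠ 1) (h2 : (δ + 1) ^ 2 ≠ τ ^ 2) (hτ : τ ≠ 0)
    (hcond : δ ^ 2 ≠ 1 ∨ (δ = -1 ∧ (2 : F) ≠ 0)) (A : symplecticGroup (Fin 2) F)
    (hA : A ∉ Subgroup.center (symplecticGroup (Fin 2) F)) :
    ∃ B C : symplecticGroup (Fin 2) F, (A = B * C ∨ negSp A = B * C) ∧ IsConj (xel τ δ hδ) B ∧ IsConj (xel τ δ hδ) C := by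
  by_cases hsp : ∃ e, sf e ((A : Matrix (Fin 2 ⊕ Fin 2) (Fin 2 ⊕ Fin 2) F) *ᵥ e) ≠ 0
  · obtain ⟨e, he⟩ := hsp
    obtain ⟨e2, f2, k1, k2, k3, k4, k5, k6⟩ := exists_pair_or_neg A e he
    rcases k6 with k6 | k6
    · obtain ⟨B, C, hBC, hB, hC⟩ := ns_case hδ h1 h2 hτ hcond A e e2 f2 he k1 k2 k3 k4 k5 k6
      exact ⟨B, C, Or.inl hBC, hB, hC⟩
    · obtain ⟨B, C, hBC, hB, hC⟩ := ns_case hδ h1 h2 hτ hcond (negSp A) e e2 f2
        (by rw [negSp_mulVec, sf_neg_right, neg_ne_zero]; exact he) k1 k2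
        (by rw [negSp_mulVec, sf_neg_left, k3, neg_zero]) (by rw [negSp_mulVec, sf_neg_left, k4, neg_zero]) k5
        (by rw [negSp_mulVec, sf_neg_left, k6, neg_neg])
      exact ⟨B, C, Or.inr hBC, hB, hC⟩
  · push Not at hsp
    -- `A` is an involution
    have pol : ∀ u v, sf u ((A : Matrix (Fin 2 ⊕ Fin 2) (Fin 2 ⊕ Fin 2) F) *ᵥ v) = - sf v ((A : Matrix (Fin 2 ⊕ Fin 2) (Fin 2 ⊕ Fin 2) F) *ᵥ u) := by
      intro u v
      have h := hsp (u + v)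
      rw [Matrix.mulVec_add, sf_add_right, sf_add_left, sf_add_left, hsp u, hsp v] at h
      linear_combination h
    have hinv : ∀ v, (A : Matrix (Fin 2 ⊕ Fin 2) (Fin 2 ⊕ Fin 2) F) *ᵥ ((A : Matrix (Fin 2 ⊕ Fin 2) (Fin 2 ⊕ Fin 2) F) *ᵥ v) = v := by
      intro v
      rw [← sub_eq_zero]
      apply eq_zero_of_sf
      intro u
      rw [sf_sub_right, pol, sf_mulVec, sf_swap v u]
      ring
    have hcent : ∀ ε : F, ε ^ 2 = 1 → ∃ v, (A : Matrix (Fin 2 ⊕ Fin 2) (Fin 2 ⊕ Fin 2) F) *ᵥ v ≠ ε • v := by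
      intro ε hε
      by_contra hcon
      push Not at hcon
      exact hA (mem_center_iff.mpr ⟨ε, hε, hcon⟩)
    by_cases hchar : (2 : F) = 0
    · -- characteristic two
      obtain ⟨v, hv⟩ := hcent 1 (by ring)
      rw [one_smul] at hv
      obtain ⟨e0, he0⟩ : ∃ e0, e0 = (A : Matrix (Fin 2 ⊕ Fin 2) (Fin 2 ⊕ Fin 2) F) *ᵥ v - v := ⟨_, rfl⟩
      have he0' : e0 ≠ 0 := by rw [he0]; exact sub_ne_zero.mpr hv
      obtain ⟨u', hu'⟩ := exists_sf_ne_zero he0'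
      have hu'' : sf e0 u' ≠ 0 := by rw [sf_swap]; simpa using hu'
      obtain ⟨u, hu⟩ : ∃ u, u = (sf e0 u')⁻¹ • u' := ⟨_, rfl⟩
      have g00 : sf e0 u = 1 := by rw [hu, sf_smul_right, inv_mul_cancel₀ hu'']
      obtain ⟨e1, he1⟩ : ∃ e1, e1 = (A : Matrix (Fin 2 ⊕ Fin 2) (Fin 2 ⊕ Fin 2) F) *ᵥ u - u := ⟨_, rfl⟩
      obtain ⟨κ, hκ⟩ : ∃ κ, κ = sf u v := ⟨_, rfl⟩
      have hsub : ∀ x : F, x = - x := fun x => by linear_combination x * hchar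
      have g10 : sf e1 u = 0 := by
        rw [he1, sf_sub_left, sf_self, sf_swap, hsp u]; ring
      have g01 : sf e0 v = 0 := by
        rw [he0, sf_sub_left, sf_self, sf_swap, hsp v]; ring
      have g11 : sf e1 v = 1 := by
        rw [he1, sf_sub_left, sf_swap, pol, neg_neg, ← sf_sub_right, ← he0, sf_swap, g00]
        exact (hsub 1).symm
      have gee : sf e0 e1 = 0 := by
        have hx : sf ((A : Matrix (Fin 2 ⊕ Fin 2) (Fin 2 ⊕ Fin 2) F) *ᵥ v) u = sf v ((A : Matrix (Fin 2 ⊕ Fin 2) (Fin 2 ⊕ Fin 2) F) *ᵥ u) := by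
          rw [sf_swap, pol u v, neg_neg]
        rw [he0, he1, sf_sub_left, sf_sub_right, sf_sub_right, sf_mulVec, hx]
        linear_combination (sf v u + (- sf v ((A : Matrix (Fin 2 ⊕ Fin 2) (Fin 2 ⊕ Fin 2) F) *ᵥ u))) * hchar
      have hAe0 : (A : Matrix (Fin 2 ⊕ Fin 2) (Fin 2 ⊕ Fin 2) F) *ᵥ e0 = e0 := by
        rw [he0, Matrix.mulVec_sub, hinv]
        ext i
        simp only [Pi.sub_apply]
        rw [← neg_sub]; exact (hsub _).symm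
      have hAe1 : (A : Matrix (Fin 2 ⊕ Fin 2) (Fin 2 ⊕ Fin 2) F) *ᵥ e1 = e1 := by
        rw [he1, Matrix.mulVec_sub, hinv]
        ext i
        simp only [Pi.sub_apply]
        rw [← neg_sub]; exact (hsub _).symm
      obtain ⟨b1, c1, m1, m2, m3, m4, m5, m6, m7⟩ := fact22_one (τ := τ) hδ
      obtain ⟨B, C, hBC, hB, hC⟩ := fact_of_basis hδ h1 h2 A ![e0, e1] ![u, v + κ • e0] gee
        (by change sf u (v + κ • e0) = 0
            rw [sf_add_right, sf_smul_right, sf_swap u e0, g00, ← hκ]; ring) g00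
        (by change sf e0 (v + κ • e0) = 0
            rw [sf_add_right, sf_smul_right, sf_self, g01]; ring) g10
        (by change sf e1 (v + κ • e0) = 1
            rw [sf_add_right, sf_smul_right, sf_swap e1 e0, gee, g11]; ring) b1 c1 (by
          rw [← m1]
          ext i j
          fin_cases i <;> fin_cases j
          · change sf ((A : Matrix (Fin 2 ⊕ Fin 2) (Fin 2 ⊕ Fin 2) F) *ᵥ e0) u = 1
            rw [hAe0, g00]
          · change sf ((A : Matrix (Fin 2 ⊕ Fin 2) (Fin 2 ⊕ Fin 2) F) *ᵥ e1) u = 0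
            rw [hAe1, g10]
          · change sf ((A : Matrix (Fin 2 ⊕ Fin 2) (Fin 2 ⊕ Fin 2) F) *ᵥ e0) (v + κ • e0) = 0
            rw [hAe0, sf_add_right, sf_smul_right, sf_self, g01]; ring
          · change sf ((A : Matrix (Fin 2 ⊕ Fin 2) (Fin 2 ⊕ Fin 2) F) *ᵥ e1) (v + κ • e0) = 1
            rw [hAe1, sf_add_right, sf_smul_right, sf_swap e1 e0, gee, g11]; ring) m2 m3 m4 m5 (Or.inr ⟨m6, m7⟩)
      exact ⟨B, C, Or.inl hBC, hB, hC⟩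
    · -- odd characteristic
      have key : ∀ ε : F, ε ^ 2 = 1 → ∃ e f, (A : Matrix (Fin 2 ⊕ Fin 2) (Fin 2 ⊕ Fin 2) F) *ᵥ e = ε • e ∧
          (A : Matrix (Fin 2 ⊕ Fin 2) (Fin 2 ⊕ Fin 2) F) *ᵥ f = ε • f ∧ sf e f = 1 := by
        intro ε hε
        obtain ⟨v, hv⟩ := hcent (-ε) (by rw [neg_sq]; exact hε)
        obtain ⟨e, he⟩ : ∃ e, e = (A : Matrix (Fin 2 ⊕ Fin 2) (Fin 2 ⊕ Fin 2) F) *ᵥ v + ε • v := ⟨_, rfl⟩
        have he0 : e ≠ 0 := by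
          rw [he]; intro h; apply hv
          rw [neg_smul]; exact eq_neg_of_add_eq_zero_left h
        have hAgen : ∀ w, (A : Matrix (Fin 2 ⊕ Fin 2) (Fin 2 ⊕ Fin 2) F) *ᵥ ((A : Matrix (Fin 2 ⊕ Fin 2) (Fin 2 ⊕ Fin 2) F) *ᵥ w + ε • w) =
            ε • ((A : Matrix (Fin 2 ⊕ Fin 2) (Fin 2 ⊕ Fin 2) F) *ᵥ w + ε • w) := by
          intro w
          rw [Matrix.mulVec_add, hinv, Matrix.mulVec_smul, smul_add, smul_smul, ← sq, hε, one_smul, add_comm]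
        obtain ⟨u, hu⟩ := exists_sf_ne_zero he0
        have hu' : sf e u ≠ 0 := by rw [sf_swap]; simpa using hu
        obtain ⟨f, hf⟩ : ∃ f, f = (A : Matrix (Fin 2 ⊕ Fin 2) (Fin 2 ⊕ Fin 2) F) *ᵥ u + ε • u := ⟨_, rfl⟩
        have hAe : (A : Matrix (Fin 2 ⊕ Fin 2) (Fin 2 ⊕ Fin 2) F) *ᵥ e = ε • e := by rw [he]; exact hAgen v
        have hAf : (A : Matrix (Fin 2 ⊕ Fin 2) (Fin 2 ⊕ Fin 2) F) *ᵥ f = ε • f := by rw [hf]; exact hAgen u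
        have hef : sf e f = 2 * ε * sf e u := by
          have h3 : sf e ((A : Matrix (Fin 2 ⊕ Fin 2) (Fin 2 ⊕ Fin 2) F) *ᵥ u) = ε * sf e u := by
            have h4 := sf_mulVec A e u
            rw [hAe, sf_smul_left] at h4
            linear_combination ε * h4 - sf e ((A : Matrix (Fin 2 ⊕ Fin 2) (Fin 2 ⊕ Fin 2) F) *ᵥ u) * hε
          rw [hf, sf_add_right, sf_smul_right, h3]; ring
        have hε0 : ε ≠ 0 := by rintro rfl; simp at hε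
        have hef0 : sf e f ≠ 0 := by rw [hef]; exact mul_ne_zero (mul_ne_zero hchar hε0) hu'
        exact ⟨e, (sf e f)⁻¹ • f, hAe, by rw [Matrix.mulVec_smul, hAf, smul_comm], by rw [sf_smul_right, inv_mul_cancel₀ hef0]⟩
      obtain ⟨e0, f0, hAe0, hAf0, h00⟩ := key 1 (by ring)
      obtain ⟨e1, f1, hAe1, hAf1, h11⟩ := key (-1) (by ring)
      have orth : ∀ x y, (A : Matrix (Fin 2 ⊕ Fin 2) (Fin 2 ⊕ Fin 2) F) *ᵥ x = (1 : F) • x →
          (A : Matrix (Fin 2 ⊕ Fin 2) (Fin 2 ⊕ Fin 2) F) *ᵥ y = (-1 : F) • y → sf x y = 0 := by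
        intro x y hx hy
        have h := sf_mulVec A x y
        rw [hx, hy, one_smul, sf_smul_right] at h
        have h3 : 2 * sf x y = 0 := by linear_combination -h
        exact (mul_eq_zero.mp h3).resolve_left hchar
      have hee : sf e0 e1 = 0 := orth _ _ hAe0 hAe1
      have hff : sf f0 f1 = 0 := orth _ _ hAf0 hAf1
      have h01 : sf e0 f1 = 0 := orth _ _ hAe0 hAf1
      have h10' : sf f0 e1 = 0 := orth _ _ hAf0 hAe1
      have hee' : sf e1 e0 = 0 := by rw [sf_swap, hee, neg_zero]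
      have hff' : sf f1 f0 = 0 := by rw [sf_swap, hff, neg_zero]
      have h00' : sf f0 e0 = -1 := by rw [sf_swap, h00]
      have h01' : sf f1 e0 = 0 := by rw [sf_swap, h01, neg_zero]
      have h10 : sf e1 f0 = 0 := by rw [sf_swap, h10', neg_zero]
      have h11' : sf f1 e1 = -1 := by rw [sf_swap, h11]
      obtain ⟨b1, c1, m1, m2, m3, m4, m5, m6, m7⟩ := fact22_rot hδ hτ hchar
      obtain ⟨hf, hhf⟩ : ∃ hf : F, 2 * hf = 1 := ⟨2⁻¹, mul_inv_cancel₀ hchar⟩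
      have hAe0' : (A : Matrix (Fin 2 ⊕ Fin 2) (Fin 2 ⊕ Fin 2) F) *ᵥ (hf • e0 - hf • e1 + f0 + f1) = hf • e0 + hf • e1 + f0 - f1 := by
        rw [Matrix.mulVec_add, Matrix.mulVec_add, Matrix.mulVec_sub, Matrix.mulVec_smul, Matrix.mulVec_smul, hAe0, hAe1, hAf0, hAf1]
        module
      have hAe1' : (A : Matrix (Fin 2 ⊕ Fin 2) (Fin 2 ⊕ Fin 2) F) *ᵥ (- hf • e0 + hf • e1 + f0 + f1) = - hf • e0 - hf • e1 + f0 - f1 := by
        rw [Matrix.mulVec_add, Matrix.mulVec_add, Matrix.mulVec_add, Matrix.mulVec_smul, Matrix.mulVec_smul, hAe0, hAe1, hAf0, hAf1]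
        module
      obtain ⟨B, C, hBC, hB, hC⟩ := fact_of_basis hδ h1 h2 A ![hf • e0 - hf • e1 + f0 + f1, - hf • e0 + hf • e1 + f0 + f1]
        ![f0 - hf • e1, f1 - hf • e0]
        (by change sf (hf • e0 - hf • e1 + f0 + f1) (- hf • e0 + hf • e1 + f0 + f1) = 0
            simp only [sf_add_left, sf_add_right, sf_sub_left, sf_sub_right, sf_smul_left, sf_smul_right, sf_self,
              hee, hff, h00, h01, h10, h11, hee', hff', h00', h01', h10', h11']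
            ring)
        (by change sf (f0 - hf • e1) (f1 - hf • e0) = 0
            simp only [sf_add_left, sf_add_right, sf_sub_left, sf_sub_right, sf_smul_left, sf_smul_right, sf_self,
              hee, hff, h00, h01, h10, h11, hee', hff', h00', h01', h10', h11']
            ring)
        (by change sf (hf • e0 - hf • e1 + f0 + f1) (f0 - hf • e1) = 1
            simp only [sf_add_left, sf_add_right, sf_sub_left, sf_sub_right, sf_smul_left, sf_smul_right, sf_self,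
              hee, hff, h00, h01, h10, h11, hee', hff', h00', h01', h10', h11']
            linear_combination hhf)
        (by change sf (hf • e0 - hf • e1 + f0 + f1) (f1 - hf • e0) = 0
            simp only [sf_add_left, sf_add_right, sf_sub_left, sf_sub_right, sf_smul_left, sf_smul_right, sf_self,
              hee, hff, h00, h01, h10, h11, hee', hff', h00', h01', h10', h11']
            ring)
        (by change sf (- hf • e0 + hf • e1 + f0 + f1) (f0 - hf • e1) = 0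
            simp only [sf_add_left, sf_add_right, sf_sub_left, sf_sub_right, sf_smul_left, sf_smul_right, sf_self,
              hee, hff, h00, h01, h10, h11, hee', hff', h00', h01', h10', h11']
            ring)
        (by change sf (- hf • e0 + hf • e1 + f0 + f1) (f1 - hf • e0) = 1
            simp only [sf_add_left, sf_add_right, sf_sub_left, sf_sub_right, sf_smul_left, sf_smul_right, sf_self,
              hee, hff, h00, h01, h10, h11, hee', hff', h00', h01', h10', h11']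
            linear_combination hhf) b1 c1 (by
          rw [← m1]
          ext i j
          fin_cases i <;> fin_cases j
          · change sf ((A : Matrix (Fin 2 ⊕ Fin 2) (Fin 2 ⊕ Fin 2) F) *ᵥ (hf • e0 - hf • e1 + f0 + f1)) (f0 - hf • e1) = 0
            rw [hAe0']
            simp only [sf_add_left, sf_add_right, sf_sub_left, sf_sub_right, sf_smul_left, sf_smul_right, sf_self,
              hee, hff, h00, h01, h10, h11, hee', hff', h00', h01', h10', h11']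
            ring
          · change sf ((A : Matrix (Fin 2 ⊕ Fin 2) (Fin 2 ⊕ Fin 2) F) *ᵥ (- hf • e0 + hf • e1 + f0 + f1)) (f0 - hf • e1) = -1
            rw [hAe1']
            simp only [sf_add_left, sf_add_right, sf_sub_left, sf_sub_right, sf_smul_left, sf_smul_right, sf_self,
              hee, hff, h00, h01, h10, h11, hee', hff', h00', h01', h10', h11']
            linear_combination -hhf
          · change sf ((A : Matrix (Fin 2 ⊕ Fin 2) (Fin 2 ⊕ Fin 2) F) *ᵥ (hf • e0 - hf • e1 + f0 + f1)) (f1 - hf • e0) = 1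
            rw [hAe0']
            simp only [sf_add_left, sf_add_right, sf_sub_left, sf_sub_right, sf_smul_left, sf_smul_right, sf_self,
              hee, hff, h00, h01, h10, h11, hee', hff', h00', h01', h10', h11']
            linear_combination hhf
          · change sf ((A : Matrix (Fin 2 ⊕ Fin 2) (Fin 2 ⊕ Fin 2) F) *ᵥ (- hf • e0 + hf • e1 + f0 + f1)) (f1 - hf • e0) = 0
            rw [hAe1']
            simp only [sf_add_left, sf_add_right, sf_sub_left, sf_sub_right, sf_smul_left, sf_smul_right, sf_self,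
              hee, hff, h00, h01, h10, h11, hee', hff', h00', h01', h10', h11']
            ring) m2 m3 m4 m5 (Or.inr ⟨m6, m7⟩)
      exact ⟨B, C, Or.inl hBC, hB, hC⟩

end Cfsg.Agent.H41
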