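import Cfsg.Agent.H41.OrdArg

set_option autoImplicit false
set_option linter.unusedSectionVars false
set_option linter.unusedVariables false

/-! Elements of orders 7 and 13 in rings of characteristic 3 with an anti-automorphism. -/

namespace Cfsg.Agent.H41.StarRing

variable {R : Type*} [Ring R]

theorem inv_comm {g w g' : R} (hg : g' * g = 1) (hg' : g * g' = 1) (h : g * w = w * g) : g' * w = w * g' := by
  calc g' * w = g' * w * (g * g') := by rw [hg', mul_one]
    _ = g' * (w * g) * g' := by rw [← mul_assoc, mul_assoc g' w g]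
    _ = g' * (g * w) * g' := by rw [h]
    _ = (g' * g) * w * g' := by rw [← mul_assoc]
    _ = w * g' := by rw [hg, one_mul]

theorem pow_mul_eq {h w : R} {δ : R} (hδ : δ = 1 ∨ δ = -1) (hw : h * w = δ * w) (n : ℕ) : h ^ n * w = δ ^ n * w := by
  induction n with
  | zero => rw [pow_zero, pow_zero]
  | succ n ih =>
    rw [pow_succ, mul_assoc, hw]
    rcases hδ with h | h
    · rw [h] at ih ⊢
      rw [one_mul, ih, one_pow, one_pow]
    · rw [h] at ih ⊢
      rw [neg_one_mul, mul_neg, ih, pow_succ, mul_neg_one, neg_mul]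

section T
variable (h3 : (3 : R) = 0) (g w g' : R) (hg : g ^ 13 = 1) (hgg : g' * g = 1) (hw0 : w ≠ 0) (hgw : g * w ≠ w) (hc : g * w = w * g)

include h3 hw0 in
theorem ne_neg : w ≠ -w := by
  intro h
  apply hw0
  have h1 : w + w = 0 := by nth_rw 1 [h]; exact neg_add_cancel w
  have h2 : (3 : R) * w = 0 := by rw [h3, zero_mul]
  have h4 : (3 : R) * w = w + w + w := by
    have : (3 : R) = 1 + 1 + 1 := by norm_num
    rw [this, add_mul, add_mul, one_mul]
  rw [h4, h1, zero_add] at h2
  exact h2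

include h3 hw0 hg in
theorem not_neg (k : ℕ) : g ^ k * w ≠ -w := by
  intro h
  have h1 := pow_mul_eq (h := g ^ k) (w := w) (Or.inr rfl) (by rw [neg_one_mul]; exact h) 13
  rw [← pow_mul, mul_comm k 13, pow_mul, hg, one_pow, one_mul, Odd.neg_one_pow (by decide), neg_one_mul] at h1
  exact ne_neg h3 w hw0 h1

include hg hgw in
theorem pow_ne (k : ℕ) (hk : ¬ 13 ∣ k) : g ^ k * w ≠ w := by
  intro h
  apply hgw
  have hcop : Nat.Coprime k 13 := ((Nat.Prime.coprime_iff_not_dvd (by norm_num)).2 hk).symm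
  obtain ⟨m, hm⟩ := Nat.exists_mul_mod_eq_one_of_coprime hcop (by norm_num)
  have h1 := pow_mul_eq (h := g ^ k) (w := w) (Or.inl rfl) (by rw [one_mul]; exact h) m
  rw [← pow_mul, one_pow, one_mul] at h1
  rw [← Nat.div_add_mod (k * m) 13, hm.2, pow_add, pow_mul, hg, one_pow, one_mul, pow_one] at h1
  exact h1

/-- the key lemma -/
theorem lemT [Finite R] (σ : R → R) (hσadd : ∀ a b, σ (a + b) = σ a + σ b) (hσmul : ∀ a b, σ (a * b) = σ b * σ a) (hσ1 : σ 1 = 1)
    (I : AddSubgroup R) (hI : Nat.card I = 27) (hwI : w ∈ I) (hgI : ∀ a ∈ I, g * a ∈ I) (hσg : σ g = g') (ε : R) (hε : ε = 1 ∨ ε = -1) (hσw : σ w = ε * w)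
    (h3 : (3 : R) = 0) (hg : g ^ 13 = 1) (hgg : g' * g = 1) (hgg' : g * g' = 1) (hw0 : w ≠ 0) (hgw : g * w ≠ w) (hc : g * w = w * g) : False := by
  classical
  have := Fintype.ofFinite I
  have hpowI : ∀ (n : ℕ) (a : R), a ∈ I → g ^ n * a ∈ I := by
    intro n
    induction n with
    | zero => intro a ha; rw [pow_zero, one_mul]; exact ha
    | succ n ih => intro a ha; rw [pow_succ, mul_assoc]; exact ih _ (hgI a ha)
  have hunit : ∀ (n : ℕ) (a b : R), g ^ n * a = g ^ n * b → a = b := by
    intro n a b h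
    have h1 : g' ^ n * g ^ n = 1 := by
      have : Commute g' g := by rw [Commute, SemiconjBy, hgg, hgg']
      rw [← this.mul_pow, hgg, one_pow]
    calc a = g' ^ n * g ^ n * a := by rw [h1, one_mul]
      _ = g' ^ n * (g ^ n * b) := by rw [mul_assoc, h]
      _ = b := by rw [← mul_assoc, h1, one_mul]
  -- signs
  let sg : Fin 2 → R := ![1, -1]
  have hsg : ∀ s, sg s = 1 ∨ sg s = -1 := by
    intro s
    fin_cases s
    · left; rfl
    · right; rfl
  have hsgne : ∀ s, sg s * w ≠ 0 := by
    intro s h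
    rcases hsg s with h1 | h1
    · rw [h1, one_mul] at h; exact hw0 h
    · rw [h1, neg_one_mul, neg_eq_zero] at h; exact hw0 h
  let f : Fin 13 × Fin 2 → {a : I // a ≠ 0} := fun x => ⟨⟨g ^ (x.1 : ℕ) * (sg x.2 * w), hpowI _ _ (by
      rcases hsg x.2 with h | h
      · rw [h, one_mul]; exact hwI
      · rw [h, neg_one_mul]; exact I.neg_mem hwI)⟩, by
        intro h
        have h1 : g ^ (x.1 : ℕ) * (sg x.2 * w) = g ^ (x.1 : ℕ) * 0 := by rw [mul_zero]; exact congrArg Subtype.val h
        exact hsgne _ (hunit _ _ _ h1)⟩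
  have hinj : Function.Injective f := by
    have key : ∀ (i j : Fin 13) (s t : Fin 2), (i : ℕ) ≤ j → g ^ (i : ℕ) * (sg s * w) = g ^ (j : ℕ) * (sg t * w) → i = j ∧ s = t := by
      intro i j s t hij h
      obtain ⟨k, hk⟩ := Nat.exists_eq_add_of_le hij
      rw [hk, pow_add, mul_assoc] at h
      have h1 := hunit _ _ _ h
      have hk13 : 13 ∣ k → k = 0 := by
        intro h2
        obtain ⟨m, hm⟩ := h2
        have := j.2
        omega
      rcases eq_or_ne s t with hst | hst
      · refine ⟨?_, hst⟩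
        rw [hst] at h1
        have h2 : g ^ k * w = w := by
          rcases hsg t with h2 | h2
          · rw [h2, one_mul] at h1; exact h1.symm
          · rw [h2, neg_one_mul, mul_neg, neg_inj] at h1; exact h1.symm
        by_contra hne
        refine pow_ne g w hg hgw k ?_ h2
        intro h4
        apply hne
        apply Fin.ext
        have := hk13 h4
        omega
      · exfalso
        have h2 : g ^ k * w = -w := by
          have e : (s = 0 ∧ t = 1) ∨ (s = 1 ∧ t = 0) := by
            fin_cases s <;> fin_cases t <;> simp at hst ⊢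
          rcases e with ⟨rfl, rfl⟩ | ⟨rfl, rfl⟩
          · have e0 : sg 0 = 1 := rfl
            have e1 : sg 1 = -1 := rfl
            rw [e0, e1, one_mul, neg_one_mul, mul_neg, eq_comm, neg_eq_iff_eq_neg] at h1
            exact h1
          · have e0 : sg 0 = 1 := rfl
            have e1 : sg 1 = -1 := rfl
            rw [e0, e1, one_mul, neg_one_mul] at h1
            exact h1.symm
        exact not_neg h3 g w hg hw0 k h2
    rintro ⟨i, s⟩ ⟨j, t⟩ h
    have h1 : g ^ (i : ℕ) * (sg s * w) = g ^ (j : ℕ) * (sg t * w) := congrArg (fun a : {a : I // a ≠ 0} => (a.1 : R)) h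
    rcases le_total (i : ℕ) (j : ℕ) with h2 | h2
    · obtain ⟨h3, h4⟩ := key i j s t h2 h1
      rw [h3, h4]
    · obtain ⟨h3, h4⟩ := key j i t s h2 h1.symm
      rw [h3, h4]
  have hcard : Fintype.card (Fin 13 × Fin 2) = Fintype.card {a : I // a ≠ 0} := by
    rw [Fintype.card_prod, Fintype.card_fin, Fintype.card_fin]
    have h1 : Fintype.card {a : I // a ≠ 0} = Fintype.card I - 1 := by
      rw [Fintype.card_subtype_compl, Fintype.card_subtype_eq]
    rw [h1, ← Nat.card_eq_fintype_card, hI]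
  have hsurj := ((Fintype.bijective_iff_injective_and_card f).2 ⟨hinj, hcard⟩).2
  have hu : (g - 1) * w ∈ I := by rw [sub_mul, one_mul]; exact I.sub_mem (hgI _ hwI) hwI
  have hu0 : (g - 1) * w ≠ 0 := by rw [sub_mul, one_mul, sub_ne_zero]; exact hgw
  obtain ⟨⟨i, s⟩, his⟩ := hsurj ⟨⟨(g - 1) * w, hu⟩, fun h => hu0 (congrArg Subtype.val h)⟩
  have h1 : g ^ (i : ℕ) * (sg s * w) = (g - 1) * w := congrArg (fun a : {a : I // a ≠ 0} => (a.1 : R)) his
  obtain ⟨δ, hδ, hδe⟩ : ∃ δ : R, (δ = 1 ∨ δ = -1) ∧ sg s = δ := ⟨sg s, hsg s, rfl⟩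
  rw [hδe] at h1
  -- apply the anti-automorphism
  have hσ0 : σ 0 = 0 := by
    have := hσadd 0 0
    rw [add_zero] at this
    exact left_eq_add.1 this
  have hσneg : ∀ a, σ (-a) = -σ a := by
    intro a
    have h2 : σ (a + -a) = 0 := by rw [add_neg_cancel, hσ0]
    rw [hσadd] at h2
    exact (neg_eq_of_add_eq_zero_right h2).symm
  have hσpow : ∀ n : ℕ, σ (g ^ n) = g' ^ n := by
    intro n
    induction n with
    | zero => rw [pow_zero, pow_zero, hσ1]
    | succ n ih => rw [pow_succ, hσmul, ih, hσg, ← pow_succ']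
  have hcw' : g' * w = w * g' := inv_comm hgg hgg' hc
  have hcwn : ∀ n : ℕ, g' ^ n * w = w * g' ^ n := by
    intro n
    exact (show Commute g' w from hcw').pow_left n
  have hσδw : σ (δ * w) = δ * (ε * w) := by
    rcases hδ with h | h
    · rw [h, one_mul, one_mul, hσw]
    · rw [h, neg_one_mul, neg_one_mul, hσneg, hσw]
  have h2 := congrArg σ h1
  rw [hσmul, hσpow, hσδw, hσmul, hσw, sub_eq_add_neg, hσadd, hσneg, hσ1, hσg] at h2
  -- δ ε w g'^i = ε w (g' - 1)
  have h4 : δ * (w * g' ^ (i : ℕ)) = w * (g' + -1) := by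
    rcases hε with h | h
    · rw [h, one_mul] at h2
      rw [← mul_assoc]; exact h2
    · rw [h, neg_one_mul, mul_neg, neg_mul, neg_mul, neg_inj] at h2
      rw [← mul_assoc]; exact h2
  rw [← hcwn, mul_add, mul_neg_one, ← hcw'] at h4
  -- multiply by g ^ (i+1)
  have h5 : δ * (g * w) = g ^ (i : ℕ) * w - g ^ (i : ℕ) * (g * w) := by
    have e1 : g ^ (i : ℕ) * (g * (δ * (g' ^ (i : ℕ) * w))) = δ * (g * w) := by
      have e2 : g ^ (i : ℕ) * g' ^ (i : ℕ) = 1 := by
        have : Commute g g' := by rw [Commute, SemiconjBy, hgg, hgg']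
        rw [← this.mul_pow, hgg', one_pow]
      have e3 : g ^ (i : ℕ) * (g * (g' ^ (i : ℕ) * w)) = g * w := by
        rw [← mul_assoc, ← mul_assoc, ← pow_succ, pow_succ', mul_assoc g, e2, mul_one]
      rcases hδ with h | h
      · rw [h, one_mul, one_mul, e3]
      · rw [h, neg_one_mul, neg_one_mul, mul_neg, mul_neg, e3]
    rw [← e1, h4, mul_add, mul_add, mul_neg, mul_neg, ← mul_assoc g g' w, hgg', one_mul, sub_eq_add_neg]
  have h6 : g ^ (i : ℕ) * w - g ^ (i : ℕ) * (g * w) = -(g ^ (i : ℕ) * ((g - 1) * w)) := by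
    rw [sub_mul, mul_sub, one_mul]; abel
  rw [h6, ← h1] at h5
  -- δ g w = - g^i g^i δ w
  have h7 : g ^ (2 * (i : ℕ)) * w = -(g * w) := by
    rcases hδ with h | h
    · rw [h, one_mul, one_mul, ← mul_assoc, ← pow_add, ← two_mul] at h5
      rw [h5, neg_neg]
    · rw [h, neg_one_mul, neg_one_mul, mul_neg, mul_neg, neg_neg, ← mul_assoc, ← pow_add, ← two_mul] at h5
      exact h5.symm
  have h8 : g ^ (12 + 2 * (i : ℕ)) * w = -w := by
    rw [pow_add, mul_assoc, h7, mul_neg, ← mul_assoc, ← pow_succ, hg, one_mul]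
  exact not_neg h3 g w hg hw0 _ h8

end T

section main
variable [Finite R] (σ : R → R) (hσadd : ∀ a b, σ (a + b) = σ a + σ b) (hσmul : ∀ a b, σ (a * b) = σ b * σ a) (hσ1 : σ 1 = 1)
  (h3 : (3 : R) = 0) (hpow : ∀ S : AddSubgroup R, ∃ d, Nat.card S = 3 ^ d) (z : R) (hz : σ z * z = 1) (hz' : z * σ z = 1)
  (hB : Nat.card (Subring.closure {z}) ≤ 3 ^ 6) (g : R) (hgz : g ∈ Subring.closure {z})

theorem closure_comm (z : R) {a b : R} (ha : a ∈ Subring.closure {z}) (hb : b ∈ Subring.closure {z}) : a * b = b * a := by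
  have h1 : ∀ a ∈ Subring.closure {z}, a * z = z * a := by
    intro a ha
    induction ha using Subring.closure_induction with
    | mem x hx => rw [Set.mem_singleton_iff] at hx; rw [hx]
    | zero => rw [zero_mul, mul_zero]
    | one => rw [one_mul, mul_one]
    | add x y _ _ hx hy => rw [add_mul, mul_add, hx, hy]
    | neg x _ hx => rw [neg_mul, mul_neg, hx]
    | mul x y _ _ hx hy => rw [mul_assoc, hy, ← mul_assoc, hx, mul_assoc]
  induction hb using Subring.closure_induction with
  | mem x hx => rw [Set.mem_singleton_iff] at hx; rw [hx, h1 a ha]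
  | zero => rw [zero_mul, mul_zero]
  | one => rw [one_mul, mul_one]
  | add x y _ _ hx hy => rw [add_mul, mul_add, hx, hy]
  | neg x _ hx => rw [neg_mul, mul_neg, hx]
  | mul x y _ _ hx hy => rw [← mul_assoc, hx, mul_assoc, hy, mul_assoc]

include hσadd in
theorem σ_zero : σ 0 = 0 := by
  have := hσadd 0 0
  rw [add_zero] at this
  exact left_eq_add.1 this

include hσadd in
theorem σ_neg (a : R) : σ (-a) = -σ a := by
  have h2 : σ (a + -a) = 0 := by rw [add_neg_cancel, σ_zero σ hσadd]
  rw [hσadd] at h2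
  exact (neg_eq_of_add_eq_zero_right h2).symm

include h3 in
theorem charThree [Nontrivial R] : CharP R 3 := by
  have h1 : ((3 : ℕ) : R) = 0 := by exact_mod_cast h3
  have h2 := ringChar.dvd h1
  rcases (Nat.dvd_prime Nat.prime_three).1 h2 with h | h
  · exact absurd h (CharP.ringChar_ne_one)
  · rw [← h]; exact ringChar.charP R

include h3 in
theorem add_pow27 {a b : R} (h : a * b = b * a) : (a + b) ^ 27 = a ^ 27 + b ^ 27 := by
  cases subsingleton_or_nontrivial R with
  | inl _ => exact Subsingleton.elim _ _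
  | inr _ =>
    have := charThree h3
    have : Fact (Nat.Prime 3) := ⟨Nat.prime_three⟩
    have h1 := add_pow_char_pow_of_commute 3 3 (show Commute a b from h)
    norm_num at h1
    exact h1

include h3 in
theorem sub_pow3 (g : R) : (g - 1) ^ 3 = g ^ 3 - 1 := by
  have h1 : (g - 1) ^ 3 = g ^ 3 - 1 - 3 * (g ^ 2 - g) := by
    noncomm_ring
  rw [h1, h3, zero_mul, sub_zero]

include h3 hpow hB hgz in
/-- order 7: the ring is generated by `g` -/
theorem seven_mem (hg : g ^ 7 = 1) (hg1 : g ≠ 1) : z ∈ Subring.closure {g} := by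
  have : Fact (Nat.Prime 7) := ⟨by norm_num⟩
  let A := (Subring.closure {g} : Subring R).toAddSubgroup
  have hgA : g ∈ Subring.closure {g} := Subring.subset_closure rfl
  obtain ⟨d, hd⟩ := hpow A
  obtain ⟨f, hf⟩ := hpow (A ⊓ (AddMonoidHom.mulLeft (g - 1)).ker)
  have h1 := fix_mul A 7 g hg (fun a ha => Subring.mul_mem _ hgA ha)
  have h2 := card_lt_of_ne A g (Subring.one_mem _) hg1
  have hAB : (Subring.closure {g} : Set R) ⊆ (Subring.closure {z} : Set R) := by
    have : (Subring.closure {g} : Subring R) ≤ Subring.closure {z} := Subring.closure_le.2 (by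
      intro x hx
      rw [Set.mem_singleton_iff] at hx
      rw [hx]; exact hgz)
    exact this
  have h3 : Nat.card A ≤ 3 ^ 6 := by
    refine le_trans ?_ hB
    exact Nat.card_mono (Set.toFinite _) hAB
  rw [hd, hf] at h1
  rw [hd, hf] at h2
  rw [hd] at h3
  have h5 : f < d := (Nat.pow_lt_pow_iff_right (by norm_num)).1 h2
  have h6 : d ≤ 6 := (Nat.pow_le_pow_iff_right (by norm_num)).1 h3
  have h7 : d = 6 := by
    have key : ∀ d ∈ Finset.range 7, ∀ f ∈ Finset.range 7, f < d → 3 ^ d % 7 = 3 ^ f % 7 → d = 6 := by decide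
    exact key d (by rw [Finset.mem_range]; omega) f (by rw [Finset.mem_range]; omega) h5 h1
  have h8 : (Subring.closure {g} : Set R) = (Subring.closure {z} : Set R) := by
    apply Set.eq_of_subset_of_ncard_le hAB
    rw [← Nat.card_coe_set_eq, ← Nat.card_coe_set_eq]
    have e1 : Nat.card (Subring.closure {g} : Set R) = 3 ^ 6 := by rw [← h7, ← hd]; rfl
    rw [e1]
    exact hB
  have h9 : z ∈ (Subring.closure {z} : Set R) := Subring.subset_closure rfl
  rw [← h8] at h9
  exact h9

include hσadd hσmul hσ1 h3 hpow hB hgz hz in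
theorem seven (hg : g ^ 7 = 1) (hg1 : g ≠ 1) (hσg : σ g * g = 1) : z ^ 28 = 1 := by
  have hzA := seven_mem h3 hpow z hB g hgz hg hg1
  have hσg' : σ g = g ^ 6 := by
    calc σ g = σ g * g ^ 7 := by rw [hg, mul_one]
      _ = σ g * g * g ^ 6 := by rw [mul_assoc, ← pow_succ']
      _ = g ^ 6 := by rw [hσg, one_mul]
  have key : ∀ a ∈ Subring.closure {g}, σ a = a ^ 27 := by
    intro a ha
    induction ha using Subring.closure_induction with
    | mem x hx =>
      rw [Set.mem_singleton_iff] at hx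
      rw [hx, hσg']
      have : g ^ 27 = (g ^ 7) ^ 3 * g ^ 6 := by rw [← pow_mul, ← pow_add]
      rw [this, hg, one_pow, one_mul]
    | zero => rw [σ_zero σ hσadd, zero_pow (by norm_num)]
    | one => rw [hσ1, one_pow]
    | add x y hx' hy' hx hy => rw [hσadd, hx, hy, add_pow27 h3 (closure_comm g hx' hy')]
    | neg x _ hx => rw [σ_neg σ hσadd, hx, Odd.neg_pow (by decide)]
    | mul x y hx' hy' hx hy =>
      have hc : Commute x y := closure_comm g hx' hy'
      rw [hσmul, hx, hy, hc.mul_pow, (hc.pow_pow 27 27).eq]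
  have h1 := key z hzA
  rw [show (28 : ℕ) = 27 + 1 from rfl, pow_succ, ← h1, hz]

include hσadd hσmul hσ1 h3 hpow hB hgz in
theorem thirteen (hg : g ^ 13 = 1) (hg1 : g ≠ 1) (hσg : σ g * g = 1) (hz : σ z * z = 1) (hz' : z * σ z = 1) : z ^ 13 = 1 ∨ z ^ 13 = -1 := by
  classical
  have : Fact (Nat.Prime 13) := ⟨by norm_num⟩
  let A := (Subring.closure {g} : Subring R).toAddSubgroup
  have hgA : g ∈ Subring.closure {g} := Subring.subset_closure rfl
  have h1A : (1 : R) ∈ Subring.closure {g} := Subring.one_mem _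
  have hσg' : σ g = g ^ 12 := by
    calc σ g = σ g * g ^ 13 := by rw [hg, mul_one]
      _ = σ g * g * g ^ 12 := by rw [mul_assoc, ← pow_succ']
      _ = g ^ 12 := by rw [hσg, one_mul]
  have hgσ : g * σ g = 1 := by rw [hσg', ← pow_succ', hg]
  have hAB : (Subring.closure {g} : Set R) ⊆ (Subring.closure {z} : Set R) := by
    have : (Subring.closure {g} : Subring R) ≤ Subring.closure {z} := Subring.closure_le.2 (by
      intro x hx
      rw [Set.mem_singleton_iff] at hx
      rw [hx]; exact hgz)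
    exact this
  -- general statement about ideals
  have ideal : ∀ e ∈ Subring.closure {g}, e ≠ 0 → (∀ a ∈ Subring.closure {g}, (g - 1) * (e * a) = 0 → e * a = 0) →
      (∃ k : ℕ, σ (g ^ k * e) = g ^ k * e ∨ σ (g ^ k * e) = -(g ^ k * e)) → Nat.card (A.map (AddMonoidHom.mulLeft e)) = 3 ^ 6 := by
    intro e he he0 hfix hk
    let I := A.map (AddMonoidHom.mulLeft e)
    have hI1 : ∀ a ∈ I, g * a ∈ I := by
      rintro _ ⟨b, hb, rfl⟩
      refine ⟨g * b, Subring.mul_mem _ hgA hb, ?_⟩
      change e * (g * b) = g * (e * b)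
      rw [← mul_assoc, closure_comm g he hgA, mul_assoc]
    have hIA : ∀ a ∈ I, a ∈ Subring.closure {g} := by
      rintro _ ⟨b, hb, rfl⟩
      exact Subring.mul_mem _ he hb
    have h1 := fix_mul I 13 g hg hI1
    have h2 : (I ⊓ (AddMonoidHom.mulLeft (g - 1)).ker : AddSubgroup R) = ⊥ := by
      rw [eq_bot_iff]
      rintro a ⟨⟨b, hb, rfl⟩, ha2⟩
      exact hfix b hb ha2
    rw [h2, AddSubgroup.card_bot] at h1
    obtain ⟨d, hd⟩ := hpow I
    have hd6 : d ≤ 6 := by
      have h4 : Nat.card I ≤ 3 ^ 6 := by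
        refine le_trans ?_ hB
        exact Nat.card_mono (Set.toFinite _) (fun a ha => hAB (hIA a ha))
      rw [hd] at h4
      exact (Nat.pow_le_pow_iff_right (by norm_num)).1 h4
    rw [hd] at h1
    have key : ∀ d ∈ Finset.range 7, 3 ^ d % 13 = 1 % 13 → d = 0 ∨ d = 3 ∨ d = 6 := by decide
    have heI : e ∈ I := ⟨1, h1A, mul_one e⟩
    rcases key d (by rw [Finset.mem_range]; omega) h1 with h4 | h4 | h4
    · exfalso
      rw [h4, pow_zero] at hd
      have h5 : I = ⊥ := AddSubgroup.eq_bot_of_card_eq I hd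
      rw [h5] at heI
      exact he0 heI
    · exfalso
      obtain ⟨k, hk⟩ := hk
      have hcm : ∀ n : ℕ, g * (g ^ n * e) = (g ^ n * e) * g := by
        intro n
        exact closure_comm g hgA (Subring.mul_mem _ (Subring.pow_mem _ hgA n) he)
      have hw0 : g ^ k * e ≠ 0 := by
        intro h
        apply he0
        have h5 : (σ g) ^ k * g ^ k = 1 := by
          have : Commute (σ g) g := by rw [Commute, SemiconjBy, hσg, hgσ]
          rw [← this.mul_pow, hσg, one_pow]
        calc e = (σ g) ^ k * g ^ k * e := by rw [h5, one_mul]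
          _ = 0 := by rw [mul_assoc, h, mul_zero]
      have hwI : g ^ k * e ∈ I := by
        refine ⟨g ^ k, Subring.pow_mem _ hgA k, ?_⟩
        exact closure_comm g he (Subring.pow_mem _ hgA k)
      refine lemT g (g ^ k * e) (σ g) σ hσadd hσmul hσ1 I (by rw [hd, h4]; norm_num) hwI hI1 rfl (if σ (g ^ k * e) = g ^ k * e then 1 else -1) ?_ ?_ h3 hg hσg hgσ hw0 ?_ (hcm k)
      · split_ifs
        · exact Or.inl rfl
        · exact Or.inr rfl
      · split_ifs with h5
        · rw [one_mul]; exact h5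
        · rw [neg_one_mul]
          rcases hk with h6 | h6
          · exact absurd h6 h5
          · exact h6
      · intro h5
        apply hw0
        obtain ⟨b, hb, hb'⟩ := hwI
        have h6 : (g - 1) * (e * b) = 0 := by
          have : e * b = g ^ k * e := hb'
          rw [this, sub_mul, one_mul, h5, sub_self]
        rw [← hb']
        exact hfix b hb h6
    · change Nat.card I = 3 ^ 6
      rw [hd, h4]
  -- first step
  have hu := ideal (g - 1) (Subring.sub_mem _ hgA h1A) (sub_ne_zero.2 hg1) (by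
    intro a ha h
    have hgc : g * a = a * g := closure_comm g hgA ha
    have h4 : (g ^ 3 - 1) * a = 0 := by
      rw [← sub_pow3 h3, pow_succ', pow_two, mul_assoc, mul_assoc, h, mul_zero]
    have h5 : g ^ 3 * a = a := by rw [sub_mul, one_mul] at h4; exact sub_eq_zero.1 h4
    have h6 := pow_mul_eq (h := g ^ 3) (w := a) (Or.inl rfl) (by rw [one_mul]; exact h5) 9
    rw [← pow_mul, one_pow, one_mul] at h6
    have h7 : g ^ (3 * 9) = g := by
      have : (3 * 9 : ℕ) = 13 * 2 + 1 := by norm_num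
      rw [this, pow_add, pow_mul, hg, one_pow, one_mul, pow_one]
    rw [h7] at h6
    rw [sub_mul, one_mul, h6, sub_self]) ⟨6, Or.inr (by
      have h4 : ∀ n : ℕ, σ (g ^ n) = (σ g) ^ n := by
        intro n
        induction n with
        | zero => rw [pow_zero, pow_zero, hσ1]
        | succ n ih => rw [pow_succ, hσmul, ih, ← pow_succ']
      have e1 : σ (g - 1) = g ^ 12 - 1 := by rw [sub_eq_add_neg, hσadd, σ_neg σ hσadd, hσ1, hσg', ← sub_eq_add_neg]
      rw [hσmul, h4, hσg', e1]
      have e2 : (g ^ 12) ^ 6 = g ^ 7 := by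
        have : (12 * 6 : ℕ) = 13 * 5 + 7 := by norm_num
        rw [← pow_mul, this, pow_add, pow_mul, hg, one_pow, one_mul]
      rw [e2, sub_mul, one_mul, ← pow_add]
      have e3 : g ^ (12 + 7) = g ^ 6 := by
        have : (12 + 7 : ℕ) = 13 + 6 := by norm_num
        rw [this, pow_add, hg, one_mul]
      rw [e3, mul_sub, mul_one, ← pow_succ, neg_sub])⟩
  have hmapA : ∀ e ∈ Subring.closure {g}, (A.map (AddMonoidHom.mulLeft e) : AddSubgroup R) ≤ A := by
    rintro e he _ ⟨b, hb, rfl⟩
    exact Subring.mul_mem _ he hb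
  have hAcard : Nat.card A = 3 ^ 6 := by
    apply le_antisymm
    · refine le_trans ?_ hB
      exact Nat.card_mono (Set.toFinite _) hAB
    · rw [← hu]
      exact Nat.card_mono (Set.toFinite _) (hmapA _ (Subring.sub_mem _ hgA h1A))
  have hAfix : ∀ a ∈ Subring.closure {g}, (g - 1) * a = 0 → a = 0 := by
    intro a ha h
    have h4 : (A.map (AddMonoidHom.mulLeft (g - 1)) : AddSubgroup R) = A := by
      apply AddSubgroup.eq_of_le_of_card_ge (hmapA _ (Subring.sub_mem _ hgA h1A))
      rw [hu, hAcard]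
    have h5 : a ∈ (A.map (AddMonoidHom.mulLeft (g - 1)) : AddSubgroup R) := by rw [h4]; exact ha
    obtain ⟨b, hb, rfl⟩ := h5
    change (g - 1) * ((g - 1) * b) = 0 at h
    change (g - 1) * b = 0
    have h6 : (g ^ 3 - 1) * b = 0 := by
      rw [← sub_pow3 h3, pow_succ', pow_two, mul_assoc, mul_assoc, h, mul_zero]
    have h5 : g ^ 3 * b = b := by rw [sub_mul, one_mul] at h6; exact sub_eq_zero.1 h6
    have h6 := pow_mul_eq (h := g ^ 3) (w := b) (Or.inl rfl) (by rw [one_mul]; exact h5) 9
    rw [← pow_mul, one_pow, one_mul] at h6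
    have h7 : g ^ (3 * 9) = g := by
      have : (3 * 9 : ℕ) = 13 * 2 + 1 := by norm_num
      rw [this, pow_add, pow_mul, hg, one_pow, one_mul, pow_one]
    rw [h7] at h6
    rw [sub_mul, one_mul, h6, sub_self]
  have hzA : z ∈ Subring.closure {g} := by
    have h8 : (Subring.closure {g} : Set R) = (Subring.closure {z} : Set R) := by
      apply Set.eq_of_subset_of_ncard_le hAB
      rw [← Nat.card_coe_set_eq, ← Nat.card_coe_set_eq]
      have e1 : Nat.card (Subring.closure {g} : Set R) = 3 ^ 6 := hAcard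
      rw [e1]
      exact hB
    have h9 : z ∈ (Subring.closure {z} : Set R) := Subring.subset_closure rfl
    rw [← h8] at h9
    exact h9
  have key27 : ∀ a ∈ Subring.closure {g}, a ^ 27 = a := by
    intro a ha
    induction ha using Subring.closure_induction with
    | mem x hx =>
      rw [Set.mem_singleton_iff] at hx
      rw [hx]
      have : (27 : ℕ) = 13 * 2 + 1 := by norm_num
      rw [this, pow_add, pow_mul, hg, one_pow, one_mul, pow_one]
    | zero => rw [zero_pow (by norm_num)]
    | one => rw [one_pow]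
    | add x y hx' hy' hx hy => rw [add_pow27 h3 (closure_comm g hx' hy'), hx, hy]
    | neg x _ hx => rw [Odd.neg_pow (by decide), hx]
    | mul x y hx' hy' hx hy =>
      have hc : Commute x y := closure_comm g hx' hy'
      rw [hc.mul_pow, hx, hy]
  have h26 : z ^ 26 = 1 := by
    have h4 : z ^ 26 * z = z := by rw [← pow_succ]; exact key27 z hzA
    calc z ^ 26 = z ^ 26 * z * σ z := by rw [mul_assoc, hz', mul_one]
      _ = 1 := by rw [h4, hz']
  have htt : z ^ 13 * z ^ 13 = 1 := by rw [← pow_add]; exact h26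
  have hσt : σ (z ^ 13) = z ^ 13 := by
    have h4 : ∀ n : ℕ, σ (z ^ n) = (σ z) ^ n := by
      intro n
      induction n with
      | zero => rw [pow_zero, pow_zero, hσ1]
      | succ n ih => rw [pow_succ, hσmul, ih, ← pow_succ']
    have h5 : σ (z ^ 13) * z ^ 13 = 1 := by
      have : Commute (σ z) z := by rw [Commute, SemiconjBy, hz, hz']
      rw [h4, ← this.mul_pow, hz, one_pow]
    calc σ (z ^ 13) = σ (z ^ 13) * (z ^ 13 * z ^ 13) := by rw [htt, mul_one]
      _ = z ^ 13 := by rw [← mul_assoc, h5, one_mul]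
  obtain ⟨t, ht⟩ : ∃ t, t = z ^ 13 := ⟨_, rfl⟩
  have htA : t ∈ Subring.closure {g} := by rw [ht]; exact Subring.pow_mem _ hzA 13
  rw [← ht] at htt hσt ⊢
  by_contra hne
  push Not at hne
  obtain ⟨hne1, hne2⟩ := hne
  obtain ⟨e, he⟩ : ∃ e, e = -(1 + t) := ⟨_, rfl⟩
  have heA : e ∈ Subring.closure {g} := by rw [he]; exact Subring.neg_mem _ (Subring.add_mem _ h1A htA)
  have hee : e * e = e := by
    have h4 : e * e = 3 * (1 + t) - (1 + t) + (t * t - 1) := by rw [he]; noncomm_ring
    rw [h4, h3, zero_mul, zero_sub, htt, sub_self, add_zero, he]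
  have he0 : e ≠ 0 := by
    intro h
    apply hne2
    rw [he, neg_eq_zero] at h
    exact (neg_eq_of_add_eq_zero_right h).symm
  have hσe : σ e = e := by
    rw [he, σ_neg σ hσadd, hσadd, hσ1, hσt]
  have h4 := ideal e heA he0 (fun a ha h => hAfix _ (Subring.mul_mem _ heA ha) h) ⟨0, Or.inl (by rw [pow_zero, one_mul, hσe])⟩
  have h5 : (A.map (AddMonoidHom.mulLeft e) : AddSubgroup R) = A := by
    apply AddSubgroup.eq_of_le_of_card_ge (hmapA _ heA)
    rw [h4, hAcard]
  have h6 : (1 : R) ∈ (A.map (AddMonoidHom.mulLeft e) : AddSubgroup R) := by rw [h5]; exact h1A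
  obtain ⟨b, hb, hb'⟩ := h6
  have h7 : e * b = 1 := hb'
  have h8 : e = 1 := by
    calc e = e * (e * b) := by rw [h7, mul_one]
      _ = 1 := by rw [← mul_assoc, hee, h7]
  apply hne1
  have h9 : t = 3 * 1 - 1 - 1 := by
    have h10 : t = -e - 1 := by rw [he]; noncomm_ring
    rw [h10, h8]
    have : (3 : R) = 1 + 1 + 1 := by norm_num
    have h11 : (-1 - 1 : R) = -1 - 1 + 0 := by rw [add_zero]
    have h12 : (1 + 1 + 1 : R) = 0 := by rw [← this]; exact h3
    rw [this, h12]
    noncomm_ring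
  rw [h9, h3, zero_mul, zero_sub]
  have : (3 : R) = 1 + 1 + 1 := by norm_num
  rw [this] at h3
  have h10 : (-1 - 1 : R) = 1 - (1 + 1 + 1) := by noncomm_ring
  rw [h10, h3, sub_zero]

end main

end Cfsg.Agent.H41.StarRing
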